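import Mathlib

/-!
Definitions for CALL S2506 (abelian subgroups of maximal order in the alternating group are
conjugate).  Everything is stated for subgroups of `Equiv.Perm α`.
-/

set_option autoImplicit false

namespace Cfsg.Agent.Helper12.AM

variable {α : Type*} [Fintype α] [DecidableEq α]

/-- the orbit of `x` under `A`, as a finset -/
noncomputable def orb (A : Subgroup (Equiv.Perm α)) (x : α) : Finset α :=
  (Set.toFinite (MulAction.orbit A x)).toFinset

theorem mem_orb (A : Subgroup (Equiv.Perm α)) (x y : α) :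
    y ∈ orb A x ↔ ∃ a ∈ A, a x = y := by
  unfold orb
  rw [Set.Finite.mem_toFinset, MulAction.mem_orbit_iff]
  constructor
  · rintro ⟨⟨a, ha⟩, rfl⟩
    exact ⟨a, ha, rfl⟩
  · rintro ⟨a, ha, rfl⟩
    exact ⟨⟨a, ha⟩, rfl⟩

theorem self_mem_orb (A : Subgroup (Equiv.Perm α)) (x : α) : x ∈ orb A x :=
  (mem_orb A x x).2 ⟨1, A.one_mem, rfl⟩

theorem orb_eq_of_mem (A : Subgroup (Equiv.Perm α)) (x y : α) (h : y ∈ orb A x) :
    orb A y = orb A x := by
  obtain ⟨a, ha, rfl⟩ := (mem_orb A x y).1 h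
  ext z
  simp only [mem_orb]
  constructor
  · rintro ⟨b, hb, rfl⟩
    exact ⟨b * a, A.mul_mem hb ha, rfl⟩
  · rintro ⟨b, hb, rfl⟩
    exact ⟨b * a⁻¹, A.mul_mem hb (A.inv_mem ha), by simp⟩

theorem orb_mono (H A : Subgroup (Equiv.Perm α)) (h : H ≤ A) (x : α) : orb H x ⊆ orb A x := by
  intro y hy
  obtain ⟨a, ha, rfl⟩ := (mem_orb H x y).1 hy
  exact (mem_orb A x _).2 ⟨a, h ha, rfl⟩

/-- orbit size -/
noncomputable def osz (A : Subgroup (Equiv.Perm α)) (x : α) : ℕ := (orb A x).card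

theorem osz_pos (A : Subgroup (Equiv.Perm α)) (x : α) : 0 < osz A x :=
  Finset.card_pos.2 ⟨x, self_mem_orb A x⟩

theorem osz_eq_of_mem (A : Subgroup (Equiv.Perm α)) (x y : α) (h : y ∈ orb A x) :
    osz A y = osz A x := by
  unfold osz
  rw [orb_eq_of_mem A x y h]

theorem osz_le_of_le (H A : Subgroup (Equiv.Perm α)) (h : H ≤ A) (x : α) :
    osz H x ≤ osz A x :=
  Finset.card_le_card (orb_mono H A h x)

/-- the stabiliser of `x` in `A`, as a subgroup of `Perm α` -/
def stab (A : Subgroup (Equiv.Perm α)) (x : α) : Subgroup (Equiv.Perm α) :=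
  A ⊓ MulAction.stabilizer (Equiv.Perm α) x

theorem mem_stab (A : Subgroup (Equiv.Perm α)) (x : α) (a : Equiv.Perm α) :
    a ∈ stab A x ↔ a ∈ A ∧ a x = x := by
  simp [stab, MulAction.mem_stabilizer_iff]

theorem stab_le (A : Subgroup (Equiv.Perm α)) (x : α) : stab A x ≤ A := inf_le_left

/-- an abelian group acts semiregularly on each of its orbits -/
theorem semireg (A : Subgroup (Equiv.Perm α)) (hc : ∀ a ∈ A, ∀ b ∈ A, a * b = b * a)
    (a : Equiv.Perm α) (ha : a ∈ A) (x y : α) (hy : y ∈ orb A x) (hax : a x = x) : a y = y := by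
  obtain ⟨b, hb, rfl⟩ := (mem_orb A x y).1 hy
  have h := congrArg (fun f : Equiv.Perm α => f x) (hc a ha b hb)
  simp only [Equiv.Perm.mul_apply] at h
  rw [h, hax]

/-- `A` is an abelian subgroup of the alternating group of maximal order -/
structure MaxAb (A : Subgroup (Equiv.Perm α)) : Prop where
  le_alt : A ≤ alternatingGroup α
  comm : ∀ a ∈ A, ∀ b ∈ A, a * b = b * a
  max : ∀ C : Subgroup (Equiv.Perm α), C ≤ alternatingGroup α →
    (∀ a ∈ C, ∀ b ∈ C, a * b = b * a) → Nat.card C ≤ Nat.card A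

/-- every set of at least `m` points carries an abelian group of even permutations of order
at least `w` that fixes every point outside the set -/
def Wit (α : Type*) [Fintype α] [DecidableEq α] (m w : ℕ) : Prop :=
  ∀ U : Finset α, m ≤ U.card → ∃ N : Subgroup (Equiv.Perm α), N ≤ alternatingGroup α ∧
    (∀ a ∈ N, ∀ b ∈ N, a * b = b * a) ∧ (∀ g ∈ N, ∀ x, x ∉ U → g x = x) ∧ w ≤ Nat.card N

theorem wit_mono {m m' w w' : ℕ} (h : Wit α m w) (hm : m ≤ m') (hw : w' ≤ w) : Wit α m' w' := by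
  intro U hU
  obtain ⟨N, h1, h2, h3, h4⟩ := h U (hm.trans hU)
  exact ⟨N, h1, h2, h3, hw.trans h4⟩

theorem wit_zero : Wit α 0 1 := by
  intro U _
  refine ⟨⊥, bot_le, ?_, ?_, ?_⟩
  · intro a ha b hb
    rw [Subgroup.mem_bot] at ha hb
    rw [ha, hb]
  · intro g hg x _
    rw [Subgroup.mem_bot] at hg
    rw [hg]
    rfl
  · simp

/-- the witnesses used by the classification -/
structure Wits (α : Type*) [Fintype α] [DecidableEq α] : Prop where
  w3 : Wit α 3 3
  w4 : Wit α 4 4
  w5 : Wit α 5 5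
  w6 : Wit α 6 9
  w7 : Wit α 7 12
  w8 : Wit α 8 16
  w9 : Wit α 9 27
  w10 : Wit α 10 27
  w12 : Wit α 12 81
  pow : ∀ j : ℕ, Wit α (3 * j) (3 ^ j)

/-- the generic shape of an abelian subgroup of maximal order: all orbits have 3 or 4 points,
the group acts by involutions on its orbits of size 4, and there are at most two such orbits -/
structure Good (A : Subgroup (Equiv.Perm α)) : Prop where
  sz : ∀ x, osz A x = 3 ∨ osz A x = 4
  inv : ∀ a ∈ A, ∀ x, osz A x = 4 → a (a x) = x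
  le2 : ∀ x y z, osz A x = 4 → osz A y = 4 → osz A z = 4 →
    y ∈ orb A x ∨ z ∈ orb A x ∨ z ∈ orb A y

end Cfsg.Agent.Helper12.AM
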