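import Cfsg.Agent.Helper12.AMDefs

set_option autoImplicit false

namespace Cfsg.Agent.Helper12.AMC2a

open Cfsg.Agent.Helper12.AM

variable {α : Type*} [Fintype α] [DecidableEq α]

theorem no_swap (A : Subgroup (Equiv.Perm α)) (hA : MaxAb A) (x : α) (hx : osz A x = 2)
    (b : Equiv.Perm α) (hb : b ∈ A) (hfix : ∀ z, z ∉ orb A x → b z = z) (hbx : b x ≠ x) :
    False := by
  have hbx_mem : b x ∈ orb A x := (mem_orb A x _).2 ⟨b, hb, rfl⟩
  have horb : ∀ z ∈ orb A x, z = x ∨ z = b x := by
    intro z hz
    by_contra hcon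
    push Not at hcon
    have hsub : ({x, b x, z} : Finset α) ⊆ orb A x := by
      intro u hu
      simp only [Finset.mem_insert, Finset.mem_singleton] at hu
      rcases hu with rfl | rfl | rfl
      · exact self_mem_orb A _
      · exact hbx_mem
      · exact hz
    have hc3 : ({x, b x, z} : Finset α).card = 3 := by
      rw [Finset.card_eq_three]
      exact ⟨x, b x, z, Ne.symm hbx, Ne.symm hcon.1, Ne.symm hcon.2, rfl⟩
    have h1 := Finset.card_le_card hsub
    have h2 : (orb A x).card = 2 := hx
    omega
  have hbb : b (b x) = x := by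
    have h1 : b (b x) ∈ orb A x := (mem_orb A x _).2 ⟨b * b, A.mul_mem hb hb, rfl⟩
    rcases horb _ h1 with h | h
    · exact h
    · exact absurd (b.injective h) hbx
  have hb_eq : b = Equiv.swap x (b x) := by
    ext z
    by_cases hz1 : z = x
    · rw [hz1, Equiv.swap_apply_left]
    by_cases hz2 : z = b x
    · rw [hz2, Equiv.swap_apply_right, hbb]
    · rw [Equiv.swap_apply_of_ne_of_ne hz1 hz2]
      apply hfix
      intro hz
      rcases horb z hz with h | h
      · exact hz1 h
      · exact hz2 h
  have hsign : Equiv.Perm.sign b = 1 := Equiv.Perm.mem_alternatingGroup.mp (hA.le_alt hb)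
  rw [hb_eq, Equiv.Perm.sign_swap (Ne.symm hbx)] at hsign
  exact absurd hsign (by decide)

end Cfsg.Agent.Helper12.AMC2a
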