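import Cfsg.Agent.Helper12.AMDefs

set_option autoImplicit false

namespace Cfsg.Agent.Helper12.AMCARD

open Cfsg.Agent.Helper12.AM

variable {α : Type*} [Fintype α] [DecidableEq α]

theorem osz_eq_ncard (A : Subgroup (Equiv.Perm α)) (x : α) :
    osz A x = (MulAction.orbit A x).ncard := by
  unfold osz orb
  rw [Set.ncard_eq_toFinset_card (MulAction.orbit A x) (Set.toFinite _)]

theorem card_eq (A : Subgroup (Equiv.Perm α)) (x : α) :
    Nat.card A = osz A x * Nat.card (stab A x) := by
  have h1 := Subgroup.card_eq_card_quotient_mul_card_subgroup (MulAction.stabilizer A x)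
  have h2 : Nat.card (A ⧸ MulAction.stabilizer A x) = osz A x := by
    rw [osz_eq_ncard, ← Nat.card_coe_set_eq]
    exact Nat.card_congr (MulAction.orbitEquivQuotientStabilizer A x).symm
  have h3 : Nat.card (MulAction.stabilizer A x) = Nat.card (stab A x) := by
    refine Nat.card_congr
      { toFun := fun a => ⟨a.1.1, (mem_stab A x _).2 ⟨a.1.2, MulAction.mem_stabilizer_iff.mp a.2⟩⟩
        invFun := fun a => ⟨⟨a.1, ((mem_stab A x _).1 a.2).1⟩,
          MulAction.mem_stabilizer_iff.mpr ((mem_stab A x _).1 a.2).2⟩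
        left_inv := fun a => rfl
        right_inv := fun a => rfl }
  rw [h1, h2, h3]

end Cfsg.Agent.Helper12.AMCARD
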