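import Mathlib

set_option autoImplicit false

namespace Cfsg.Agent.Helper12.AMJOIN

theorem card_sup_ge {G : Type*} [Group G] [Finite G] (H K : Subgroup G)
    (hcomm : ∀ h ∈ H, ∀ k ∈ K, h * k = k * h) (hdisj : H ⊓ K = ⊥) :
    Nat.card H * Nat.card K ≤ Nat.card (H ⊔ K : Subgroup G) := by
  rw [← Nat.card_prod]
  refine Nat.card_le_card_of_injective
    (fun p : H × K => (⟨(p.1 : G) * (p.2 : G),
      (H ⊔ K).mul_mem ((le_sup_left : H ≤ H ⊔ K) p.1.2) ((le_sup_right : K ≤ H ⊔ K) p.2.2)⟩ :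
        (H ⊔ K : Subgroup G))) ?_
  rintro ⟨⟨h, hh⟩, ⟨k, hk⟩⟩ ⟨⟨h', hh'⟩, ⟨k', hk'⟩⟩ heq
  have e : h * k = h' * k' := congrArg Subtype.val heq
  have e2 : h'⁻¹ * h = k' * k⁻¹ := by
    rw [inv_mul_eq_iff_eq_mul, ← mul_assoc, ← e, mul_assoc, mul_inv_cancel, mul_one]
  have m1 : h'⁻¹ * h ∈ H := H.mul_mem (H.inv_mem hh') hh
  have m2 : h'⁻¹ * h ∈ K := by rw [e2]; exact K.mul_mem hk' (K.inv_mem hk)
  have m3 : h'⁻¹ * h ∈ H ⊓ K := ⟨m1, m2⟩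
  rw [hdisj, Subgroup.mem_bot] at m3
  have e3 : h = h' := by
    have := inv_mul_eq_one.mp m3
    exact this.symm
  have e4 : k = k' := by
    rw [e3] at e
    exact mul_left_cancel e
  subst e3 e4
  rfl

end Cfsg.Agent.Helper12.AMJOIN
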