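import Mathlib

set_option autoImplicit false

namespace Cfsg.Agent.Helper12.AMJOINC

theorem comm_sup {G : Type*} [Group G] (H K : Subgroup G)
    (hH : ∀ a ∈ H, ∀ b ∈ H, a * b = b * a) (hK : ∀ a ∈ K, ∀ b ∈ K, a * b = b * a)
    (hcomm : ∀ h ∈ H, ∀ k ∈ K, h * k = k * h) :
    ∀ a ∈ H ⊔ K, ∀ b ∈ H ⊔ K, a * b = b * a := by
  have key : H ⊔ K ≤ Subgroup.centralizer ((H ⊔ K : Subgroup G) : Set G) := by
    have hgen : ∀ x : G, x ∈ H ∨ x ∈ K → (H ⊔ K) ≤ Subgroup.centralizer ({x} : Set G) := by
      intro x hx
      refine sup_le ?_ ?_
      · intro h hh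
        rw [Subgroup.mem_centralizer_iff]
        intro y hy
        rw [Set.mem_singleton_iff] at hy
        subst hy
        rcases hx with hx | hx
        · exact hH y hx h hh
        · exact (hcomm h hh y hx).symm
      · intro k hk
        rw [Subgroup.mem_centralizer_iff]
        intro y hy
        rw [Set.mem_singleton_iff] at hy
        subst hy
        rcases hx with hx | hx
        · exact hcomm y hx k hk
        · exact hK y hx k hk
    -- every element of `H ⊔ K` centralises `H` and `K`, hence `H ⊔ K`
    intro a ha
    have hHc : H ≤ Subgroup.centralizer ({a} : Set G) := by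
      intro h hh
      rw [Subgroup.mem_centralizer_iff]
      intro y hy
      rw [Set.mem_singleton_iff] at hy
      subst hy
      have := hgen h (Or.inl hh) ha
      rw [Subgroup.mem_centralizer_iff] at this
      exact (this h rfl).symm
    have hKc : K ≤ Subgroup.centralizer ({a} : Set G) := by
      intro k hk
      rw [Subgroup.mem_centralizer_iff]
      intro y hy
      rw [Set.mem_singleton_iff] at hy
      subst hy
      have := hgen k (Or.inr hk) ha
      rw [Subgroup.mem_centralizer_iff] at this
      exact (this k rfl).symm
    rw [Subgroup.mem_centralizer_iff]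
    intro b hb
    have := (sup_le hHc hKc) hb
    rw [Subgroup.mem_centralizer_iff] at this
    exact (this a rfl).symm
  intro a ha b hb
  have := key hb
  rw [Subgroup.mem_centralizer_iff] at this
  exact (this a ha)

end Cfsg.Agent.Helper12.AMJOINC
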