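import Cfsg.Agent.Helper12.AMDefs
import Cfsg.Agent.Helper12.AMJOIN
import Cfsg.Agent.Helper12.AMJOINC

set_option autoImplicit false

namespace Cfsg.Agent.Helper12.AMSURG

open Cfsg.Agent.Helper12.AM

variable {α : Type*} [Fintype α] [DecidableEq α]

theorem surgery (A : Subgroup (Equiv.Perm α)) (hA : MaxAb A) (K : Subgroup (Equiv.Perm α))
    (hK : K ≤ A) (U : Finset α) (hKU : ∀ a ∈ K, ∀ x ∈ U, a x = x) (w : ℕ)
    (hw : Wit α U.card w) : w * Nat.card K ≤ Nat.card A := by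
  obtain ⟨N, hN1, hN2, hN3, hN4⟩ := hw U le_rfl
  -- `N` preserves `U`
  have hNU : ∀ g ∈ N, ∀ z ∈ U, g z ∈ U := by
    intro g hg z hz
    by_contra hgz
    have h1 := hN3 g hg (g z) hgz
    have h2 : g z = z := g.injective h1
    rw [h2] at hgz
    exact hgz hz
  -- `K` preserves the complement of `U`
  have hKU' : ∀ k ∈ K, ∀ z, z ∉ U → k z ∉ U := by
    intro k hk z hz hkz
    have h1 := hKU k hk (k z) hkz
    have h2 : k z = z := k.injective h1
    rw [h2] at hkz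
    exact hz hkz
  have hcomm : ∀ k ∈ K, ∀ g ∈ N, k * g = g * k := by
    intro k hk g hg
    ext z
    simp only [Equiv.Perm.mul_apply]
    by_cases hz : z ∈ U
    · rw [hKU k hk z hz, hKU k hk (g z) (hNU g hg z hz)]
    · rw [hN3 g hg z hz, hN3 g hg (k z) (hKU' k hk z hz)]
  have hdisj : K ⊓ N = ⊥ := by
    rw [eq_bot_iff]
    rintro g ⟨hgK, hgN⟩
    rw [Subgroup.mem_bot]
    ext z
    by_cases hz : z ∈ U
    · simpa using hKU g hgK z hz
    · simpa using hN3 g hgN z hz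
  have hKc : ∀ a ∈ K, ∀ b ∈ K, a * b = b * a := fun a ha b hb => hA.comm a (hK ha) b (hK hb)
  have h1 := AMJOIN.card_sup_ge K N hcomm hdisj
  have h2 := hA.max (K ⊔ N) (sup_le (hK.trans hA.le_alt) hN1)
    (AMJOINC.comm_sup K N hKc hN2 hcomm)
  calc w * Nat.card K ≤ Nat.card N * Nat.card K := Nat.mul_le_mul_right _ hN4
    _ = Nat.card K * Nat.card N := Nat.mul_comm _ _
    _ ≤ Nat.card (K ⊔ N : Subgroup (Equiv.Perm α)) := h1
    _ ≤ Nat.card A := h2

end Cfsg.Agent.Helper12.AMSURG
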