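import Cfsg.Agent.Helper12.AMDefs
import Cfsg.Agent.Helper12.AMSURG
import Cfsg.Agent.Helper12.AMCARD

set_option autoImplicit false

namespace Cfsg.Agent.Helper12.AMSURG2

open Cfsg.Agent.Helper12.AM

variable {α : Type*} [Fintype α] [DecidableEq α]

theorem orb_disjoint (A : Subgroup (Equiv.Perm α)) (x y : α) (hxy : y ∉ orb A x) :
    Disjoint (orb A x) (orb A y) := by
  rw [Finset.disjoint_left]
  intro z hzx hzy
  have h1 := orb_eq_of_mem A x z hzx
  have h2 := orb_eq_of_mem A y z hzy
  apply hxy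
  rw [← h1, h2]
  exact self_mem_orb A y

theorem surg_two (A : Subgroup (Equiv.Perm α)) (hA : MaxAb A) (x y : α) (hxy : y ∉ orb A x)
    (w : ℕ) (hw : Wit α (osz A x + osz A y) w) : w ≤ osz A x * osz A y := by
  have hKA : stab (stab A x) y ≤ A := (stab_le _ y).trans (stab_le A x)
  have hKU : ∀ a ∈ stab (stab A x) y, ∀ z ∈ orb A x ∪ orb A y, a z = z := by
    intro a ha z hz
    obtain ⟨ha1, ha2⟩ := (mem_stab _ y a).1 ha
    obtain ⟨ha3, ha4⟩ := (mem_stab A x a).1 ha1
    rcases Finset.mem_union.1 hz with hz | hz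
    · exact semireg A hA.comm a ha3 x z hz ha4
    · exact semireg A hA.comm a ha3 y z hz ha2
  have hcard : (orb A x ∪ orb A y).card = osz A x + osz A y :=
    Finset.card_union_of_disjoint (orb_disjoint A x y hxy)
  have h1 := AMSURG.surgery A hA (stab (stab A x) y) hKA (orb A x ∪ orb A y) hKU w
    (by rw [hcard]; exact hw)
  rw [AMCARD.card_eq A x, AMCARD.card_eq (stab A x) y] at h1
  have hpos : 0 < Nat.card (stab (stab A x) y) := Nat.card_pos
  have h2 : osz (stab A x) y ≤ osz A y := osz_le_of_le _ _ (stab_le A x) y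
  have h3 : w * Nat.card (stab (stab A x) y) ≤
      (osz A x * osz A y) * Nat.card (stab (stab A x) y) := by
    calc w * Nat.card (stab (stab A x) y)
        ≤ osz A x * (osz (stab A x) y * Nat.card (stab (stab A x) y)) := h1
      _ = (osz A x * osz (stab A x) y) * Nat.card (stab (stab A x) y) := by ring
      _ ≤ (osz A x * osz A y) * Nat.card (stab (stab A x) y) :=
          Nat.mul_le_mul_right _ (Nat.mul_le_mul_left _ h2)
  exact Nat.le_of_mul_le_mul_right h3 hpos

end Cfsg.Agent.Helper12.AMSURG2
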