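import Cfsg.Agent.Helper12.AMDefs
import Cfsg.Agent.Helper12.AMSURG2
import Cfsg.Agent.Helper84.AMDIV

set_option autoImplicit false

namespace Cfsg.Agent.Helper12.AMCNT

open Cfsg.Agent.Helper12.AM

variable {α : Type*} [Fintype α] [DecidableEq α]

theorem card_filter_four (A : Subgroup (Equiv.Perm α)) (gA : Good A) :
    (Finset.univ.filter (fun x => osz A x = 4)).card = 0 ∨
    (Finset.univ.filter (fun x => osz A x = 4)).card = 4 ∨
    (Finset.univ.filter (fun x => osz A x = 4)).card = 8 := by
  by_cases hne : (Finset.univ.filter (fun x => osz A x = 4)).Nonempty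
  · obtain ⟨x, hx⟩ := hne
    have hx4 : osz A x = 4 := (Finset.mem_filter.1 hx).2
    have hsub : ∀ u, osz A u = 4 → orb A u ⊆ Finset.univ.filter (fun x => osz A x = 4) := by
      intro u hu z hz
      exact Finset.mem_filter.2 ⟨Finset.mem_univ _, by rw [osz_eq_of_mem A u z hz]; exact hu⟩
    by_cases hall : Finset.univ.filter (fun x => osz A x = 4) ⊆ orb A x
    · right; left
      rw [Finset.Subset.antisymm hall (hsub x hx4)]
      exact hx4
    · right; right
      obtain ⟨y, hy, hyx⟩ := Finset.not_subset.1 hall
      have hy4 : osz A y = 4 := (Finset.mem_filter.1 hy).2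
      have heq : Finset.univ.filter (fun x => osz A x = 4) = orb A x ∪ orb A y := by
        apply Finset.Subset.antisymm
        · intro z hz
          have hz4 : osz A z = 4 := (Finset.mem_filter.1 hz).2
          rcases gA.le2 x y z hx4 hy4 hz4 with h | h | h
          · exact absurd h hyx
          · exact Finset.mem_union_left _ h
          · exact Finset.mem_union_right _ h
        · exact Finset.union_subset (hsub x hx4) (hsub y hy4)
      rw [heq, Finset.card_union_of_disjoint (AMSURG2.orb_disjoint A x y hyx)]
      show osz A x + osz A y = 8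
      rw [hx4, hy4]
  · left
    rw [Finset.not_nonempty_iff_eq_empty] at hne
    rw [hne, Finset.card_empty]

theorem card_filter_osz (A : Subgroup (Equiv.Perm α)) (gA : Good A) (s : ℕ) :
    (Finset.univ.filter (fun x => osz A x = s)).card =
      if s = 4 then 4 * (Fintype.card α % 3)
      else if s = 3 then Fintype.card α - 4 * (Fintype.card α % 3) else 0 := by
  have hsum : (Finset.univ.filter (fun x => osz A x = 3)).card +
      (Finset.univ.filter (fun x => osz A x = 4)).card = Fintype.card α := by
    have e : Finset.univ.filter (fun x => osz A x = 4) =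
        Finset.univ.filter (fun x => ¬ osz A x = 3) :=
      Finset.filter_congr (fun x _ => by rcases gA.sz x with h | h <;> simp [h])
    rw [e, Finset.card_filter_add_card_filter_not, Finset.card_univ]
  obtain ⟨k, hk⟩ := Cfsg.Agent.Helper84.AMDIV.dvd_card_filter A 3
  have h4 := card_filter_four A gA
  by_cases hs4 : s = 4
  · subst hs4
    rw [if_pos rfl]
    omega
  by_cases hs3 : s = 3
  · subst hs3
    rw [if_neg hs4, if_pos rfl]
    omega
  · rw [if_neg hs4, if_neg hs3, Finset.card_eq_zero, Finset.filter_eq_empty_iff]
    intro x _ hx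
    rcases gA.sz x with h | h <;> omega

end Cfsg.Agent.Helper12.AMCNT
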