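import Cfsg.Agent.Helper12.AMDefs
import Cfsg.Agent.Helper12.AMCNT
import Cfsg.Agent.Helper49.AMSI

set_option autoImplicit false

namespace Cfsg.Agent.Helper12.AMMATCH

open Cfsg.Agent.Helper12.AM

variable {α : Type*} [Fintype α] [DecidableEq α]

theorem match_orbits (A B : Subgroup (Equiv.Perm α)) (gA : Good A) (gB : Good B) :
    ∃ σ : Equiv.Perm α, ∀ x y, σ y ∈ orb B (σ x) ↔ y ∈ orb A x := by
  refine Cfsg.Agent.Helper49.AMSI.part_perm (orb A) (orb B) (self_mem_orb A)
    (fun x y h => orb_eq_of_mem A x y h) (self_mem_orb B) (fun x y h => orb_eq_of_mem B x y h)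
    (fun k => ?_)
  have h1 := AMCNT.card_filter_osz A gA k
  have h2 := AMCNT.card_filter_osz B gB k
  exact h1.trans h2.symm

end Cfsg.Agent.Helper12.AMMATCH
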