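import Cfsg.Agent.Helper12.AMDefs
import Cfsg.Agent.Helper12.AMJOINC

set_option autoImplicit false

namespace Cfsg.Agent.Helper12.AMSC

open Cfsg.Agent.Helper12.AM

variable {α : Type*} [Fintype α] [DecidableEq α]

theorem self_centralizing (A : Subgroup (Equiv.Perm α)) (hA : MaxAb A) (t : Equiv.Perm α)
    (ht : t ∈ alternatingGroup α) (hc : ∀ a ∈ A, a * t = t * a) : t ∈ A := by
  have hcomm : ∀ a ∈ A, ∀ k ∈ Subgroup.zpowers t, a * k = k * a := by
    intro a ha k hk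
    obtain ⟨n, rfl⟩ := Subgroup.mem_zpowers_iff.mp hk
    exact ((Commute.zpow_right (hc a ha) n : Commute a (t ^ n))).eq
  have hZ : ∀ a ∈ Subgroup.zpowers t, ∀ b ∈ Subgroup.zpowers t, a * b = b * a := by
    intro a ha b hb
    obtain ⟨n, rfl⟩ := Subgroup.mem_zpowers_iff.mp ha
    obtain ⟨m, rfl⟩ := Subgroup.mem_zpowers_iff.mp hb
    exact (Commute.zpow_zpow_self t n m).eq
  have hle : (A ⊔ Subgroup.zpowers t) ≤ alternatingGroup α :=
    sup_le hA.le_alt ((Subgroup.zpowers_le).2 ht)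
  have h2 := hA.max (A ⊔ Subgroup.zpowers t) hle
    (AMJOINC.comm_sup A (Subgroup.zpowers t) hA.comm hZ hcomm)
  have h3 : A = A ⊔ Subgroup.zpowers t :=
    Subgroup.eq_of_le_of_card_ge le_sup_left h2
  rw [h3]
  exact (le_sup_right : Subgroup.zpowers t ≤ A ⊔ Subgroup.zpowers t) (Subgroup.mem_zpowers t)

end Cfsg.Agent.Helper12.AMSC
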