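import Cfsg.Agent.Helper12.AMDefs
import Cfsg.Agent.Helper12.AMSC
import Cfsg.Agent.Helper80.AMAG3
import Cfsg.Agent.Helper80.AMAG4

set_option autoImplicit false

namespace Cfsg.Agent.Helper12.AMSAME

open Cfsg.Agent.Helper12.AM

variable {α : Type*} [Fintype α] [DecidableEq α]

theorem comm_of_same_orbits (A B : Subgroup (Equiv.Perm α)) (hA : MaxAb A) (gA : Good A)
    (hB : MaxAb B) (gB : Good B) (h : ∀ x, orb A x = orb B x) :
    ∀ a ∈ A, ∀ b ∈ B, a * b = b * a := by
  intro a ha b hb
  ext x
  simp only [Equiv.Perm.mul_apply]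
  have hbx : b x ∈ orb A x := by
    rw [h x]
    exact (mem_orb B x _).2 ⟨b, hb, rfl⟩
  obtain ⟨a', ha', ha'x⟩ := (mem_orb A x _).1 hbx
  have hagree : ∀ v ∈ orb A x, a' v = b v := by
    have hgA : ∀ u ∈ orb A x, a' u ∈ orb A x := by
      intro u hu
      rw [← orb_eq_of_mem A x u hu]
      exact (mem_orb A u _).2 ⟨a', ha', rfl⟩
    have hgB : ∀ u ∈ orb A x, b u ∈ orb A x := by
      intro u hu
      rw [h x] at hu ⊢
      rw [← orb_eq_of_mem B x u hu]
      exact (mem_orb B u _).2 ⟨b, hb, rfl⟩
    have hsA : ∀ u ∈ orb A x, a' u = u → ∀ v ∈ orb A x, a' v = v := by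
      intro u hu hau v hv
      rw [← orb_eq_of_mem A x u hu] at hv
      exact semireg A hA.comm a' ha' u v hv hau
    have hsB : ∀ u ∈ orb A x, b u = u → ∀ v ∈ orb A x, b v = v := by
      intro u hu hbu v hv
      rw [h x] at hu hv
      rw [← orb_eq_of_mem B x u hu] at hv
      exact semireg B hB.comm b hb u v hv hbu
    rcases gA.sz x with h3 | h4
    · exact Cfsg.Agent.Helper80.AMAG3.agree_three (orb A x) h3 a' b hgA hgB hsA hsB x
        (self_mem_orb A x) ha'x
    · refine Cfsg.Agent.Helper80.AMAG4.agree_four (orb A x) h4 a' b hgA hgB hsA hsB ?_ ?_ x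
        (self_mem_orb A x) ha'x
      · intro u hu
        exact gA.inv a' ha' u (by rw [osz_eq_of_mem A x u hu]; exact h4)
      · intro u hu
        have e1 : osz B u = osz A u := by
          unfold osz
          rw [h u]
        have e2 : osz B u = 4 := by
          rw [e1, osz_eq_of_mem A x u hu]
          exact h4
        exact gB.inv b hb u e2
  have hax : a x ∈ orb A x := (mem_orb A x _).2 ⟨a, ha, rfl⟩
  have hc := congrArg (fun f : Equiv.Perm α => f x) (hA.comm a ha a' ha')
  simp only [Equiv.Perm.mul_apply] at hc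
  rw [← ha'x, hc, hagree (a x) hax]

theorem eq_of_same_orbits (A B : Subgroup (Equiv.Perm α)) (hA : MaxAb A) (gA : Good A)
    (hB : MaxAb B) (gB : Good B) (h : ∀ x, orb A x = orb B x) : A = B := by
  apply le_antisymm
  · intro a ha
    exact AMSC.self_centralizing B hB a (hA.le_alt ha)
      (fun b hb => (comm_of_same_orbits A B hA gA hB gB h a ha b hb).symm)
  · intro b hb
    exact AMSC.self_centralizing A hA b (hB.le_alt hb)
      (fun a ha => comm_of_same_orbits A B hA gA hB gB h a ha b hb)

end Cfsg.Agent.Helper12.AMSAME
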