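import Cfsg.Agent.Helper12.AMDefs
import Cfsg.Agent.Helper12.AMMATCH
import Cfsg.Agent.Helper12.AMSAME
import Cfsg.Agent.Helper84.AMTR1
import Cfsg.Agent.Helper84.AMTR2
import Cfsg.Agent.Helper84.AMTR3

set_option autoImplicit false

namespace Cfsg.Agent.Helper12.AMCONJ

open Cfsg.Agent.Helper12.AM

variable {α : Type*} [Fintype α] [DecidableEq α]

theorem same_orbits_of_perm (A B : Subgroup (Equiv.Perm α)) (σ : Equiv.Perm α)
    (hσ : ∀ x y, σ y ∈ orb B (σ x) ↔ y ∈ orb A x) :
    ∀ z, orb (A.map (MulAut.conj σ).toMonoidHom) z = orb B z := by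
  intro z
  obtain ⟨x, rfl⟩ := σ.surjective z
  ext w
  obtain ⟨y, rfl⟩ := σ.surjective w
  rw [Cfsg.Agent.Helper84.AMTR2.orb_conj, hσ]

theorem conj_of_good (A B : Subgroup (Equiv.Perm α)) (hA : MaxAb A) (gA : Good A)
    (hB : MaxAb B) (gB : Good B) :
    ∃ g ∈ alternatingGroup α, B = A.map (MulAut.conj g).toMonoidHom := by
  obtain ⟨σ, hσ⟩ := AMMATCH.match_orbits A B gA gB
  have hB' : A.map (MulAut.conj σ).toMonoidHom = B :=
    AMSAME.eq_of_same_orbits _ B (Cfsg.Agent.Helper84.AMTR1.maxab_conj A hA σ)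
      (Cfsg.Agent.Helper84.AMTR3.good_conj A gA σ) hB gB (same_orbits_of_perm A B σ hσ)
  by_cases hs : Equiv.Perm.sign σ = 1
  · exact ⟨σ, Equiv.Perm.mem_alternatingGroup.mpr hs, hB'.symm⟩
  · have hs' : Equiv.Perm.sign σ = -1 := (Int.units_eq_one_or (Equiv.Perm.sign σ)).resolve_left hs
    have hne : ∃ y : α, True := by
      by_contra hcon
      push Not at hcon
      apply hs
      have h1 : σ = 1 := Equiv.ext (fun y => (hcon y).elim)
      rw [h1, Equiv.Perm.sign_one]
    obtain ⟨y, -⟩ := hne
    obtain ⟨y', hy', hyy'⟩ : ∃ y' ∈ orb B y, y' ≠ y := by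
      have h3 : 1 < (orb B y).card := by
        have h := gB.sz y
        show 1 < osz B y
        omega
      obtain ⟨u, hu, v, hv, huv⟩ := Finset.one_lt_card.1 h3
      by_cases huy : u = y
      · exact ⟨v, hv, fun h => huv (huy.trans h.symm)⟩
      · exact ⟨u, hu, huy⟩
    have hpres : ∀ w, orb B (Equiv.swap y y' w) = orb B w := by
      intro w
      apply orb_eq_of_mem
      by_cases h1 : w = y
      · rw [h1, Equiv.swap_apply_left]
        exact hy'
      by_cases h2 : w = y'
      · rw [h2, Equiv.swap_apply_right, orb_eq_of_mem B y y' hy']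
        exact self_mem_orb B y
      · rw [Equiv.swap_apply_of_ne_of_ne h1 h2]
        exact self_mem_orb B w
    have hτ : ∀ u v, Equiv.swap y y' v ∈ orb B (Equiv.swap y y' u) ↔ v ∈ orb B u := by
      intro u v
      rw [hpres u]
      constructor
      · intro h
        have h1 := orb_eq_of_mem B u _ h
        rw [hpres v] at h1
        rw [← h1]
        exact self_mem_orb B v
      · intro h
        have h1 := orb_eq_of_mem B u v h
        rw [← h1, ← hpres v]
        exact self_mem_orb B _
    have hB'' : B.map (MulAut.conj (Equiv.swap y y')).toMonoidHom = B :=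
      AMSAME.eq_of_same_orbits _ B (Cfsg.Agent.Helper84.AMTR1.maxab_conj B hB _)
        (Cfsg.Agent.Helper84.AMTR3.good_conj B gB _) hB gB (same_orbits_of_perm B B _ hτ)
    refine ⟨Equiv.swap y y' * σ, ?_, ?_⟩
    · rw [Equiv.Perm.mem_alternatingGroup, Equiv.Perm.sign_mul,
        Equiv.Perm.sign_swap (Ne.symm hyy'), hs']
      decide
    · calc B = B.map (MulAut.conj (Equiv.swap y y')).toMonoidHom := hB''.symm
        _ = (A.map (MulAut.conj σ).toMonoidHom).map
              (MulAut.conj (Equiv.swap y y')).toMonoidHom := by rw [hB']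
        _ = A.map (MulAut.conj (Equiv.swap y y' * σ)).toMonoidHom := by
            rw [Subgroup.map_map]
            congr 1

end Cfsg.Agent.Helper12.AMCONJ
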