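import Cfsg.Agent.Helper12.AMDefs
import Cfsg.Agent.Helper12.AMCARD

set_option autoImplicit false

namespace Cfsg.Agent.Helper12.AMPOW

open Cfsg.Agent.Helper12.AM

variable {α : Type*} [Fintype α] [DecidableEq α]

theorem pow_fix (A : Subgroup (Equiv.Perm α)) (hc : ∀ a ∈ A, ∀ b ∈ A, a * b = b * a)
    (a : Equiv.Perm α) (ha : a ∈ A) (x : α) : (a ^ osz A x) x = x := by
  have hcA : ∀ g n : A, g * n = n * g := fun g n => Subtype.ext (hc g g.2 n n.2)
  haveI : (MulAction.stabilizer A x).Normal :=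
    ⟨fun n hn g => by rw [hcA g n, mul_inv_cancel_right]; exact hn⟩
  have h1 := Subgroup.pow_index_mem (MulAction.stabilizer A x) (⟨a, ha⟩ : A)
  rw [MulAction.index_stabilizer, ← AMCARD.osz_eq_ncard] at h1
  have h2 := MulAction.mem_stabilizer_iff.mp h1
  exact h2

end Cfsg.Agent.Helper12.AMPOW
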