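import Cfsg.Agent.Helper12.AMDefs
import Cfsg.Agent.Helper12.AMPOW

set_option autoImplicit false

namespace Cfsg.Agent.Helper12.AMFC

open Cfsg.Agent.Helper12.AM

variable {α : Type*} [Fintype α] [DecidableEq α]

theorem no_four_cycle (A : Subgroup (Equiv.Perm α)) (hA : MaxAb A) (x : α) (hx : osz A x = 4)
    (c : Equiv.Perm α) (hc : c ∈ A) (hfix : ∀ z, z ∉ orb A x → c z = z) (hcx : c (c x) ≠ x) :
    False := by
  have hc4 : c (c (c (c x))) = x := by
    have h := AMPOW.pow_fix A hA.comm c hc x
    rw [hx] at h
    have e : c ^ 4 = c * c * c * c := by simp [pow_succ]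
    rw [e] at h
    simpa [Equiv.Perm.mul_apply] using h
  have h1 : c x ≠ x := by
    intro h
    apply hcx
    rw [h, h]
  have hmem : ∀ a ∈ A, a x ∈ orb A x := fun a ha => (mem_orb A x _).2 ⟨a, ha, rfl⟩
  have m1 : c x ∈ orb A x := hmem c hc
  have m2 : c (c x) ∈ orb A x := hmem (c * c) (A.mul_mem hc hc)
  have m3 : c (c (c x)) ∈ orb A x := hmem (c * (c * c)) (A.mul_mem hc (A.mul_mem hc hc))
  have h3 : c (c (c x)) ≠ x := by
    intro h
    rw [h] at hc4
    exact h1 hc4
  have d12 : c x ≠ c (c x) := fun h => h1 (c.injective h).symm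
  have d13 : c x ≠ c (c (c x)) := fun h => hcx (c.injective h).symm
  have d23 : c (c x) ≠ c (c (c x)) := fun h => d12 (c.injective h)
  have hsub : ({x, c x, c (c x), c (c (c x))} : Finset α) ⊆ orb A x := by
    intro u hu
    simp only [Finset.mem_insert, Finset.mem_singleton] at hu
    rcases hu with rfl | rfl | rfl | rfl
    · exact self_mem_orb A _
    · exact m1
    · exact m2
    · exact m3
  have hcard4 : ({x, c x, c (c x), c (c (c x))} : Finset α).card = 4 := by
    rw [Finset.card_insert_of_notMem, Finset.card_insert_of_notMem,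
      Finset.card_insert_of_notMem, Finset.card_singleton]
    · simpa using d23
    · simp [d12, d13]
    · simp [Ne.symm h1, Ne.symm hcx, Ne.symm h3]
  have heq : ({x, c x, c (c x), c (c (c x))} : Finset α) = orb A x :=
    Finset.eq_of_subset_of_card_le hsub (by rw [hcard4]; exact hx.le)
  have hcyc : c.IsCycle := by
    refine ⟨x, h1, fun y hy => ?_⟩
    have hy' : y ∈ orb A x := by
      by_contra h
      exact hy (hfix y h)
    rw [← heq] at hy'
    simp only [Finset.mem_insert, Finset.mem_singleton] at hy'
    rcases hy' with h | h | h | h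
    · rw [h]
    · rw [h]
      exact Equiv.Perm.sameCycle_apply_right.2 (Equiv.Perm.SameCycle.refl c x)
    · rw [h]
      exact Equiv.Perm.sameCycle_apply_right.2
        (Equiv.Perm.sameCycle_apply_right.2 (Equiv.Perm.SameCycle.refl c x))
    · rw [h]
      exact Equiv.Perm.sameCycle_apply_right.2 (Equiv.Perm.sameCycle_apply_right.2
        (Equiv.Perm.sameCycle_apply_right.2 (Equiv.Perm.SameCycle.refl c x)))
  have hsupp : c.support = orb A x := by
    ext y
    rw [Equiv.Perm.mem_support]
    constructor
    · intro hy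
      by_contra h
      exact hy (hfix y h)
    · intro hy hcy
      have hxy : x ∈ orb A y := by
        rw [orb_eq_of_mem A x y hy]
        exact self_mem_orb A x
      exact h1 (semireg A hA.comm c hc y x hxy hcy)
  have hsign := hcyc.sign
  rw [hsupp] at hsign
  have h4 : (orb A x).card = 4 := hx
  rw [h4] at hsign
  have hs1 : Equiv.Perm.sign c = 1 := Equiv.Perm.mem_alternatingGroup.mp (hA.le_alt hc)
  rw [hs1] at hsign
  exact absurd hsign (by decide)

end Cfsg.Agent.Helper12.AMFC
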