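import Cfsg.Agent.Helper12.AMDefs
import Cfsg.Agent.Helper12.AMSURG
import Cfsg.Agent.Helper12.AMCARD

set_option autoImplicit false

namespace Cfsg.Agent.Helper12.AMSURG1

open Cfsg.Agent.Helper12.AM

variable {α : Type*} [Fintype α] [DecidableEq α]

theorem surg_one (A : Subgroup (Equiv.Perm α)) (hA : MaxAb A) (x : α) (w : ℕ)
    (hw : Wit α (osz A x) w) : w ≤ osz A x := by
  have hKU : ∀ a ∈ stab A x, ∀ z ∈ orb A x, a z = z := by
    intro a ha z hz
    obtain ⟨ha1, ha2⟩ := (mem_stab A x a).1 ha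
    exact semireg A hA.comm a ha1 x z hz ha2
  have h1 := AMSURG.surgery A hA (stab A x) (stab_le A x) (orb A x) hKU w hw
  rw [AMCARD.card_eq A x] at h1
  have hpos : 0 < Nat.card (stab A x) := Nat.card_pos
  exact Nat.le_of_mul_le_mul_right h1 hpos

end Cfsg.Agent.Helper12.AMSURG1
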