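import Cfsg.Agent.Helper12.AMDefs
import Cfsg.Agent.Helper12.AMSURG1

set_option autoImplicit false

namespace Cfsg.Agent.Helper12.AMS1

open Cfsg.Agent.Helper12.AM

variable {α : Type*} [Fintype α] [DecidableEq α]

theorem three_pow_gt (j : ℕ) (hj : 2 ≤ j) : 3 * j + 2 < 3 ^ j := by
  induction j, hj using Nat.le_induction with
  | base => norm_num
  | succ j hj ih =>
    rw [pow_succ]
    omega

theorem osz_le_five (A : Subgroup (Equiv.Perm α)) (hA : MaxAb A) (W : Wits α) (x : α) :
    osz A x ≤ 5 := by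
  by_contra hcon
  push Not at hcon
  have h1 : 3 * (osz A x / 3) ≤ osz A x := Nat.mul_div_le (osz A x) 3
  have h2 : Wit α (osz A x) (3 ^ (osz A x / 3)) := wit_mono (W.pow (osz A x / 3)) h1 le_rfl
  have h3 := AMSURG1.surg_one A hA x _ h2
  have h4 := three_pow_gt (osz A x / 3) (by omega)
  omega

end Cfsg.Agent.Helper12.AMS1
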