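import Cfsg.Agent.Helper12.AMDefs
import Cfsg.Agent.Helper12.AMS1
import Cfsg.Agent.Helper12.AMSURG2
import Cfsg.Agent.Helper12.AMCARD

set_option autoImplicit false

namespace Cfsg.Agent.Helper12.AMFIVE

open Cfsg.Agent.Helper12.AM

variable {α : Type*} [Fintype α] [DecidableEq α]

theorem five_of_osz_five (A : Subgroup (Equiv.Perm α)) (hA : MaxAb A) (W : Wits α) (x : α)
    (hx : osz A x = 5) : Fintype.card α = 5 ∧ Nat.card A = 5 := by
  have hall : ∀ y, y ∈ orb A x := by
    intro y
    by_contra hy
    have a1 := osz_pos A y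
    have a2 := AMS1.osz_le_five A hA W y
    have hcases : osz A y = 1 ∨ osz A y = 2 ∨ osz A y = 3 ∨ osz A y = 4 ∨ osz A y = 5 := by
      omega
    rcases hcases with h | h | h | h | h
    · have := AMSURG2.surg_two A hA x y hy 9 (by rw [hx, h]; exact W.w6)
      rw [hx, h] at this; omega
    · have := AMSURG2.surg_two A hA x y hy 12 (by rw [hx, h]; exact W.w7)
      rw [hx, h] at this; omega
    · have := AMSURG2.surg_two A hA x y hy 16 (by rw [hx, h]; exact W.w8)
      rw [hx, h] at this; omega
    · have := AMSURG2.surg_two A hA x y hy 27 (by rw [hx, h]; exact W.w9)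
      rw [hx, h] at this; omega
    · have := AMSURG2.surg_two A hA x y hy 27 (by rw [hx, h]; exact W.w10)
      rw [hx, h] at this; omega
  have huniv : orb A x = Finset.univ := Finset.eq_univ_iff_forall.mpr hall
  have hcard : Fintype.card α = 5 := by
    rw [← Finset.card_univ, ← huniv]
    exact hx
  refine ⟨hcard, ?_⟩
  have hbot : stab A x = ⊥ := by
    rw [eq_bot_iff]
    intro a ha
    obtain ⟨ha1, ha2⟩ := (mem_stab A x a).1 ha
    rw [Subgroup.mem_bot]
    ext y
    simpa using semireg A hA.comm a ha1 x y (hall y) ha2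
  rw [AMCARD.card_eq A x, hx, hbot, Subgroup.card_bot]

end Cfsg.Agent.Helper12.AMFIVE
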