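import Cfsg.Agent.Helper12.AMDefs
import Cfsg.Agent.Helper12.AMSURG
import Cfsg.Agent.Helper12.AMCARD
import Cfsg.Agent.Helper12.AMSURG2

set_option autoImplicit false

namespace Cfsg.Agent.Helper12.AMSURG3

open Cfsg.Agent.Helper12.AM

variable {α : Type*} [Fintype α] [DecidableEq α]

theorem surg_three (A : Subgroup (Equiv.Perm α)) (hA : MaxAb A) (x y z : α) (hxy : y ∉ orb A x)
    (hxz : z ∉ orb A x) (hyz : z ∉ orb A y) (w : ℕ)
    (hw : Wit α (osz A x + osz A y + osz A z) w) : w ≤ osz A x * osz A y * osz A z := by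
  have hK2 : stab (stab A x) y ≤ A := (stab_le _ y).trans (stab_le A x)
  have hKA : stab (stab (stab A x) y) z ≤ A := (stab_le _ z).trans hK2
  have hKU : ∀ a ∈ stab (stab (stab A x) y) z, ∀ u ∈ orb A x ∪ orb A y ∪ orb A z, a u = u := by
    intro a ha u hu
    obtain ⟨ha0, ha5⟩ := (mem_stab _ z a).1 ha
    obtain ⟨ha1, ha2⟩ := (mem_stab _ y a).1 ha0
    obtain ⟨ha3, ha4⟩ := (mem_stab A x a).1 ha1
    rcases Finset.mem_union.1 hu with hu | hu
    · rcases Finset.mem_union.1 hu with hu | hu
      · exact semireg A hA.comm a ha3 x u hu ha4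
      · exact semireg A hA.comm a ha3 y u hu ha2
    · exact semireg A hA.comm a ha3 z u hu ha5
  have hd1 := AMSURG2.orb_disjoint A x y hxy
  have hd2 := AMSURG2.orb_disjoint A x z hxz
  have hd3 := AMSURG2.orb_disjoint A y z hyz
  have hcard : (orb A x ∪ orb A y ∪ orb A z).card = osz A x + osz A y + osz A z := by
    rw [Finset.card_union_of_disjoint (Finset.disjoint_union_left.2 ⟨hd2, hd3⟩),
      Finset.card_union_of_disjoint hd1]
    rfl
  have h1 := AMSURG.surgery A hA (stab (stab (stab A x) y) z) hKA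
    (orb A x ∪ orb A y ∪ orb A z) hKU w (by rw [hcard]; exact hw)
  rw [AMCARD.card_eq A x, AMCARD.card_eq (stab A x) y, AMCARD.card_eq (stab (stab A x) y) z]
    at h1
  have hpos : 0 < Nat.card (stab (stab (stab A x) y) z) := Nat.card_pos
  have h2 : osz (stab A x) y ≤ osz A y := osz_le_of_le _ _ (stab_le A x) y
  have h2' : osz (stab (stab A x) y) z ≤ osz A z := osz_le_of_le _ _ hK2 z
  have h3 : w * Nat.card (stab (stab (stab A x) y) z) ≤
      (osz A x * osz A y * osz A z) * Nat.card (stab (stab (stab A x) y) z) := by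
    calc w * Nat.card (stab (stab (stab A x) y) z)
        ≤ osz A x * (osz (stab A x) y * (osz (stab (stab A x) y) z *
            Nat.card (stab (stab (stab A x) y) z))) := h1
      _ = (osz A x * osz (stab A x) y * osz (stab (stab A x) y) z) *
            Nat.card (stab (stab (stab A x) y) z) := by ring
      _ ≤ (osz A x * osz A y * osz A z) * Nat.card (stab (stab (stab A x) y) z) :=
          Nat.mul_le_mul_right _ (Nat.mul_le_mul (Nat.mul_le_mul_left _ h2) h2')
  exact Nat.le_of_mul_le_mul_right h3 hpos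

end Cfsg.Agent.Helper12.AMSURG3
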