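import Cfsg.Agent.Helper12.AMDefs
import Cfsg.Agent.Helper12.AMS1
import Cfsg.Agent.Helper12.AMSURG2
import Cfsg.Agent.Helper12.AMSURG3

set_option autoImplicit false

namespace Cfsg.Agent.Helper12.AMFP

open Cfsg.Agent.Helper12.AM

variable {α : Type*} [Fintype α] [DecidableEq α]

theorem notMem_of_osz_one (A : Subgroup (Equiv.Perm α)) (u v : α) (hu : osz A u = 1)
    (hne : v ≠ u) : v ∉ orb A u := by
  intro hv
  obtain ⟨a, ha⟩ := Finset.card_eq_one.mp hu
  have h1 := self_mem_orb A u
  rw [ha, Finset.mem_singleton] at h1 hv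
  exact hne (hv.trans h1.symm)

theorem card_le_two_of_fixed (A : Subgroup (Equiv.Perm α)) (hA : MaxAb A) (W : Wits α) (x : α)
    (hx : osz A x = 1) : Fintype.card α ≤ 2 := by
  have hall : ∀ y, osz A y = 1 := by
    intro y
    by_cases hyx : y = x
    · rw [hyx]; exact hx
    have hy := notMem_of_osz_one A x y hx hyx
    have a1 := osz_pos A y
    have a2 := AMS1.osz_le_five A hA W y
    by_contra hcon
    have hcases : osz A y = 2 ∨ osz A y = 3 ∨ osz A y = 4 ∨ osz A y = 5 := by omega
    rcases hcases with h | h | h | h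
    · have := AMSURG2.surg_two A hA x y hy 3 (by rw [hx, h]; exact W.w3)
      rw [hx, h] at this; omega
    · have := AMSURG2.surg_two A hA x y hy 4 (by rw [hx, h]; exact W.w4)
      rw [hx, h] at this; omega
    · have := AMSURG2.surg_two A hA x y hy 5 (by rw [hx, h]; exact W.w5)
      rw [hx, h] at this; omega
    · have := AMSURG2.surg_two A hA x y hy 9 (by rw [hx, h]; exact W.w6)
      rw [hx, h] at this; omega
  by_contra hcon
  push Not at hcon
  obtain ⟨a, b, c, hab, hac, hbc⟩ := Fintype.two_lt_card_iff.mp hcon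
  have h1 := notMem_of_osz_one A a b (hall a) (Ne.symm hab)
  have h2 := notMem_of_osz_one A a c (hall a) (Ne.symm hac)
  have h3 := notMem_of_osz_one A b c (hall b) (Ne.symm hbc)
  have := AMSURG3.surg_three A hA a b c h1 h2 h3 3
    (by rw [hall a, hall b, hall c]; exact W.w3)
  rw [hall a, hall b, hall c] at this
  omega

end Cfsg.Agent.Helper12.AMFP
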