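import Cfsg.Agent.Helper12.AMDefs
import Cfsg.Agent.Helper12.AMSURG
import Cfsg.Agent.Helper12.AMSURG2
import Cfsg.Agent.Helper12.AMCARD
import Cfsg.Agent.Helper12.AMPOW
import Cfsg.Agent.Helper12.AMFC

set_option autoImplicit false

namespace Cfsg.Agent.Helper12.AMINV4

open Cfsg.Agent.Helper12.AM

variable {α : Type*} [Fintype α] [DecidableEq α]

theorem inv_of_four (A : Subgroup (Equiv.Perm α)) (hA : MaxAb A) (W : Wits α)
    (hsz : ∀ z, osz A z = 3 ∨ osz A z = 4)
    (h3 : ∀ x y z, osz A x = 4 → osz A y = 4 → osz A z = 4 →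
      y ∈ orb A x ∨ z ∈ orb A x ∨ z ∈ orb A y)
    (a : Equiv.Perm α) (ha : a ∈ A) (x : α) (hx : osz A x = 4) : a (a x) = x := by
  by_contra hcon
  obtain ⟨b, hb, hbx, hbfix⟩ : ∃ b ∈ A, b x = a x ∧
      ∀ z, z ∉ orb A x → osz A z = 4 → b z = z := by
    by_cases hex : ∃ y, y ∉ orb A x ∧ osz A y = 4
    · obtain ⟨y, hy, hy4⟩ := hex
      have hKA : stab (stab A y) x ≤ A := (stab_le _ x).trans (stab_le A y)
      have hKU : ∀ k ∈ stab (stab A y) x, ∀ z ∈ orb A x ∪ orb A y, k z = z := by
        intro k hk z hz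
        obtain ⟨hk1, hk2⟩ := (mem_stab _ x k).1 hk
        obtain ⟨hk3, hk4⟩ := (mem_stab A y k).1 hk1
        rcases Finset.mem_union.1 hz with hz | hz
        · exact semireg A hA.comm k hk3 x z hz hk2
        · exact semireg A hA.comm k hk3 y z hz hk4
      have hcard : (orb A x ∪ orb A y).card = 8 := by
        rw [Finset.card_union_of_disjoint (AMSURG2.orb_disjoint A x y hy)]
        show osz A x + osz A y = 8
        rw [hx, hy4]
      have h1 := AMSURG.surgery A hA _ hKA _ hKU 16 (by rw [hcard]; exact W.w8)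
      rw [AMCARD.card_eq A y, hy4, AMCARD.card_eq (stab A y) x] at h1
      have hpos : 0 < Nat.card (stab (stab A y) x) := Nat.card_pos
      have h4 : 4 ≤ osz (stab A y) x := by
        by_contra hlt
        push Not at hlt
        have h5 : osz (stab A y) x * Nat.card (stab (stab A y) x) ≤
            3 * Nat.card (stab (stab A y) x) := Nat.mul_le_mul_right _ (by omega)
        omega
      have heq : orb (stab A y) x = orb A x :=
        Finset.eq_of_subset_of_card_le (orb_mono _ _ (stab_le A y) x)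
          (by
            show osz A x ≤ osz (stab A y) x
            rw [hx]
            exact h4)
      have hax : a x ∈ orb (stab A y) x := by
        rw [heq]
        exact (mem_orb A x _).2 ⟨a, ha, rfl⟩
      obtain ⟨b, hb, hbx⟩ := (mem_orb _ x _).1 hax
      obtain ⟨hb1, hb2⟩ := (mem_stab A y b).1 hb
      refine ⟨b, hb1, hbx, ?_⟩
      intro z hz hz4
      rcases h3 x y z hx hy4 hz4 with h | h | h
      · exact absurd h hy
      · exact absurd h hz
      · exact semireg A hA.comm b hb1 y z h hb2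
    · push Not at hex
      exact ⟨a, ha, rfl, fun z hz hz4 => absurd hz4 (hex z hz)⟩
  apply AMFC.no_four_cycle A hA x hx (b ^ 9) (A.pow_mem hb 9)
  · intro z hz
    rcases hsz z with h | h
    · have h3' := AMPOW.pow_fix A hA.comm b hb z
      rw [h] at h3'
      have e : b ^ 9 = (b ^ 3) ^ 3 := by group
      rw [e]
      exact Equiv.Perm.pow_apply_eq_self_of_apply_eq_self h3' 3
    · exact Equiv.Perm.pow_apply_eq_self_of_apply_eq_self (hbfix z hz h) 9
  · have h4 := AMPOW.pow_fix A hA.comm b hb x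
    rw [hx] at h4
    have e0 : b ^ 9 * b ^ 9 = b ^ 2 * (b ^ 4) ^ 4 := by group
    have e : (b ^ 9) ((b ^ 9) x) = (b ^ 2) (((b ^ 4) ^ 4) x) := by
      rw [← Equiv.Perm.mul_apply, e0, Equiv.Perm.mul_apply]
    rw [e, Equiv.Perm.pow_apply_eq_self_of_apply_eq_self h4 4]
    have e2 : (b ^ 2) x = a (a x) := by
      rw [pow_two, Equiv.Perm.mul_apply, hbx]
      have hcomm := congrArg (fun f : Equiv.Perm α => f x) (hA.comm b hb a ha)
      simp only [Equiv.Perm.mul_apply] at hcomm
      rw [hcomm, hbx]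
    rw [e2]
    exact hcon

end Cfsg.Agent.Helper12.AMINV4
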