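import Cfsg.Agent.Helper12.AMDefs

set_option autoImplicit false

namespace Cfsg.Agent.Helper12.AMXF1

open Cfsg.Agent.Helper12.AM

theorem maxab_map (n : ℕ) (A : Subgroup (alternatingGroup (Fin n))) (hA : IsMulCommutative A)
    (hAmax : ∀ C : Subgroup (alternatingGroup (Fin n)), IsMulCommutative C →
      Nat.card C ≤ Nat.card A) :
    MaxAb (A.map (alternatingGroup (Fin n)).subtype) := by
  have hcardA : Nat.card (A.map (alternatingGroup (Fin n)).subtype) = Nat.card A :=
    Nat.card_congr (A.equivMapOfInjective _ (Subgroup.subtype_injective _)).symm.toEquiv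
  refine ⟨?_, ?_, ?_⟩
  · rintro _ ⟨a, _, rfl⟩
    exact a.2
  · rintro _ ⟨a, ha, rfl⟩ _ ⟨b, hb, rfl⟩
    have h1 := hA.is_comm.comm (⟨a, ha⟩ : A) ⟨b, hb⟩
    have h2 : a * b = b * a := congrArg Subtype.val h1
    rw [← map_mul, h2, map_mul]
  · intro C hC hCc
    rw [hcardA]
    have h1 : Nat.card (C.subgroupOf (alternatingGroup (Fin n))) = Nat.card C :=
      Nat.card_congr (Subgroup.subgroupOfEquivOfLe hC).toEquiv
    rw [← h1]
    apply hAmax
    refine ⟨⟨fun a b => ?_⟩⟩
    apply Subtype.ext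
    apply Subtype.ext
    exact hCc _ a.2 _ b.2

end Cfsg.Agent.Helper12.AMXF1
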