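import Cfsg.Agent.Helper12.AMDefs

set_option autoImplicit false
open scoped Pointwise

namespace Cfsg.Agent.Helper12.AMXF2

open Cfsg.Agent.Helper12.AM

theorem conj_back (n : ℕ) (A B : Subgroup (alternatingGroup (Fin n))) (g : Equiv.Perm (Fin n))
    (hg : g ∈ alternatingGroup (Fin n))
    (h : B.map (alternatingGroup (Fin n)).subtype =
      (A.map (alternatingGroup (Fin n)).subtype).map (MulAut.conj g).toMonoidHom) :
    B = MulAut.conj (⟨g, hg⟩ : alternatingGroup (Fin n)) • A := by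
  ext x
  rw [Subgroup.mem_smul_pointwise_iff_exists]
  constructor
  · intro hx
    have h1 : (x : Equiv.Perm (Fin n)) ∈ B.map (alternatingGroup (Fin n)).subtype :=
      ⟨x, hx, rfl⟩
    rw [h] at h1
    obtain ⟨_, ⟨a, ha, rfl⟩, hax⟩ := h1
    refine ⟨a, ha, ?_⟩
    apply Subtype.ext
    exact hax
  · rintro ⟨s, hs, rfl⟩
    have h1 : ((MulAut.conj (⟨g, hg⟩ : alternatingGroup (Fin n)) • s :
        alternatingGroup (Fin n)) : Equiv.Perm (Fin n)) ∈
        (A.map (alternatingGroup (Fin n)).subtype).map (MulAut.conj g).toMonoidHom :=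
      ⟨(s : Equiv.Perm (Fin n)), ⟨s, hs, rfl⟩, rfl⟩
    rw [← h] at h1
    obtain ⟨b, hb, hbe⟩ := h1
    have h2 : b = MulAut.conj (⟨g, hg⟩ : alternatingGroup (Fin n)) • s := Subtype.ext hbe
    rw [← h2]
    exact hb

end Cfsg.Agent.Helper12.AMXF2
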