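import Mathlib
import Cfsg.Prelude.Def_Transfer
import Cfsg.Prelude.Def_Solvable
import Cfsg.Prelude.Def_CaseTheorems
import Cfsg.Agent.Helper24.PLen2

set_option autoImplicit false

/-!
# Fusion in an abelian Sylow subgroup and the quotient of its normalizer by the `p'`-core
-/

namespace Cfsg.Agent.Helper12

section ConjFus

variable {G : Type*} [Group G] [Finite G] {p : ℕ} [Fact p.Prime]

/-- Burnside's fusion argument for subgroups of an abelian Sylow subgroup -/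
theorem fusion_abelian_sylow (P : Sylow p G)
    (hcomm : ∀ a ∈ (P : Subgroup G), ∀ b ∈ (P : Subgroup G), a * b = b * a) (A : Subgroup G)
    (hA : A ≤ (P : Subgroup G)) (g : G)
    (hg : ∀ a ∈ A, g * a * g⁻¹ ∈ (P : Subgroup G)) :
    ∃ n ∈ Subgroup.normalizer ((P : Subgroup G) : Set G),
      ∀ a ∈ A, n * a * n⁻¹ = g * a * g⁻¹ := by
  obtain ⟨S, hS⟩ : ∃ S : Set G, S = (fun a => g * a * g⁻¹) '' (A : Set G) := ⟨_, rfl⟩
  have hSmem : ∀ a ∈ A, g * a * g⁻¹ ∈ S := fun a ha => by rw [hS]; exact ⟨a, ha, rfl⟩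
  have h1 : (P : Subgroup G) ≤ Subgroup.centralizer S := by
    intro z hz
    rw [Subgroup.mem_centralizer_iff]
    intro s hs
    rw [hS] at hs
    obtain ⟨a, ha, rfl⟩ := hs
    exact hcomm _ (hg a ha) z hz
  have h2 : ((g • P : Sylow p G) : Subgroup G) ≤ Subgroup.centralizer S := by
    rintro - ⟨z, hz, rfl⟩
    rw [Subgroup.mem_centralizer_iff]
    intro s hs
    rw [hS] at hs
    obtain ⟨a, ha, rfl⟩ := hs
    show g * a * g⁻¹ * (g * z * g⁻¹) = g * z * g⁻¹ * (g * a * g⁻¹)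
    have hc := hcomm a (hA ha) z hz
    rw [show g * a * g⁻¹ * (g * z * g⁻¹) = g * (a * z) * g⁻¹ by group, hc]
    group
  obtain ⟨h, hh⟩ :=
    MulAction.exists_smul_eq (Subgroup.centralizer S) ((g • P).subtype h2) (P.subtype h1)
  simp_rw [Sylow.smul_subtype, Subgroup.smul_def, smul_smul] at hh
  refine ⟨h * g, Sylow.smul_eq_iff_mem_normalizer.mp (Sylow.subtype_injective hh), ?_⟩
  intro a ha
  have hc := (Subgroup.mem_centralizer_iff.mp h.2) (g * a * g⁻¹) (hSmem a ha)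
  calc (h : G) * g * a * ((h : G) * g)⁻¹ = (h : G) * (g * a * g⁻¹) * (h : G)⁻¹ := by group
    _ = (g * a * g⁻¹) * (h : G) * (h : G)⁻¹ := by rw [hc]
    _ = g * a * g⁻¹ := by group

/-- the reduction to the quotient of the normalizer by its `p'`-core -/
theorem conj_reduction
    (hC : ∀ H K : Subgroup G, IsPGroup p H → IsPGroup p K → Nat.card H = Nat.card K →
      ∃ g : G, K = H.map (MulAut.conj g).toMonoidHom) (P : Sylow p G) (n : ℕ)
    (hel : Cfsg.IsElementaryAbelian p (P : Subgroup G)) (hcard : Nat.card P = p ^ n)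
    (N : Subgroup G) (hN : N = Subgroup.normalizer ((P : Subgroup G) : Set G)) :
    ∃ W : Subgroup (↥N ⧸ Cfsg.pPrimeCore p ↥N), W.Normal ∧ (∀ a ∈ W, ∀ b ∈ W, a * b = b * a) ∧
      (∀ a ∈ W, a ^ p = 1) ∧ Nat.card W = p ^ n ∧ (Nat.card W).Coprime W.index ∧
      (∀ M : Subgroup (↥N ⧸ Cfsg.pPrimeCore p ↥N), M.Normal → (Nat.card M).Coprime p → M = ⊥) ∧
      (∀ A B : Subgroup (↥N ⧸ Cfsg.pPrimeCore p ↥N), A ≤ W → B ≤ W → Nat.card A = Nat.card B →
        ∃ y : ↥N ⧸ Cfsg.pPrimeCore p ↥N, ∀ a ∈ A, y * a * y⁻¹ ∈ B) := by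
  subst hN
  have hp : p.Prime := Fact.out
  have hcommP : ∀ a ∈ (P : Subgroup G), ∀ b ∈ (P : Subgroup G), a * b = b * a := by
    intro a ha b hb
    exact congrArg Subtype.val (hel.1.is_comm.comm ⟨a, ha⟩ ⟨b, hb⟩)
  obtain ⟨N, hNdef⟩ : ∃ N : Subgroup G, N = Subgroup.normalizer ((P : Subgroup G) : Set G) :=
    ⟨_, rfl⟩
  rw [← hNdef]
  have hPN : (P : Subgroup G) ≤ N := by rw [hNdef]; exact Subgroup.le_normalizer
  obtain ⟨P0, hP0⟩ : ∃ P0 : Subgroup ↥N, P0 = (P : Subgroup G).subgroupOf N := ⟨_, rfl⟩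
  have hP0mem : ∀ x : ↥N, x ∈ P0 ↔ (x : G) ∈ (P : Subgroup G) := by
    intro x; rw [hP0]; exact Subgroup.mem_subgroupOf
  haveI hP0n : P0.Normal := by
    rw [hP0]; subst hNdef; exact Subgroup.normal_in_normalizer
  have hπsurj : Function.Surjective (QuotientGroup.mk' (Cfsg.pPrimeCore p ↥N)) :=
    QuotientGroup.mk'_surjective _
  have hP0card : Nat.card P0 = p ^ n := by
    rw [← hcard, hP0]; exact Nat.card_congr (Subgroup.subgroupOfEquivOfLe hPN).toEquiv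
  have hKcop : (Nat.card (Cfsg.pPrimeCore p ↥N)).Coprime p :=
    Cfsg.Agent.Helper24.coprime_card_pPrimeCore p
  have hinf : P0 ⊓ Cfsg.pPrimeCore p ↥N = ⊥ :=
    Subgroup.inf_eq_bot_of_coprime (by rw [hP0card]; exact (Nat.Coprime.pow_left n hKcop.symm))
  have hπinj : ∀ x ∈ P0, ∀ x' ∈ P0, QuotientGroup.mk' (Cfsg.pPrimeCore p ↥N) x =
      QuotientGroup.mk' (Cfsg.pPrimeCore p ↥N) x' → x = x' := by
    intro x hx x' hx' h
    have h1 : x⁻¹ * x' ∈ Cfsg.pPrimeCore p ↥N := QuotientGroup.eq.mp h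
    have h2 : x⁻¹ * x' ∈ P0 ⊓ Cfsg.pPrimeCore p ↥N := ⟨P0.mul_mem (P0.inv_mem hx) hx', h1⟩
    rw [hinf, Subgroup.mem_bot] at h2
    exact inv_mul_eq_one.mp h2
  have hcardmap : ∀ A0 : Subgroup ↥N, A0 ≤ P0 →
      Nat.card (A0.map (QuotientGroup.mk' (Cfsg.pPrimeCore p ↥N))) = Nat.card A0 := by
    intro A0 hA0
    have hbij : Function.Bijective (fun x : A0 =>
        (⟨QuotientGroup.mk' (Cfsg.pPrimeCore p ↥N) x.1, x.1, x.2, rfl⟩ :
          A0.map (QuotientGroup.mk' (Cfsg.pPrimeCore p ↥N)))) := by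
      constructor
      · intro x x' h
        have h1 := congrArg Subtype.val h
        exact Subtype.ext (hπinj _ (hA0 x.2) _ (hA0 x'.2) h1)
      · rintro ⟨_, x, hx, rfl⟩
        exact ⟨⟨x, hx⟩, rfl⟩
    exact (Nat.card_congr (Equiv.ofBijective _ hbij)).symm
  have hWcard : Nat.card (P0.map (QuotientGroup.mk' (Cfsg.pPrimeCore p ↥N))) = p ^ n := by
    rw [hcardmap P0 le_rfl, hP0card]
  refine ⟨P0.map (QuotientGroup.mk' (Cfsg.pPrimeCore p ↥N)),
    Subgroup.Normal.map hP0n _ hπsurj, ?_, ?_, hWcard, ?_, ?_, ?_⟩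
  · rintro _ ⟨a, ha, rfl⟩ _ ⟨b, hb, rfl⟩
    rw [← map_mul, ← map_mul]
    congr 1
    apply Subtype.ext
    exact hcommP a.1 ((hP0mem a).mp ha) b.1 ((hP0mem b).mp hb)
  · rintro _ ⟨a, ha, rfl⟩
    rw [← map_pow]
    have h1 : a ^ p = 1 := by
      apply Subtype.ext
      have := hel.2 a.1 ((hP0mem a).mp ha)
      simpa using this
    rw [h1, map_one]
  · rw [hWcard]
    apply Nat.Coprime.pow_left
    rw [Nat.Prime.coprime_iff_not_dvd hp]
    intro hdvd
    have h1 : (P0.map (QuotientGroup.mk' (Cfsg.pPrimeCore p ↥N))).index ∣ P0.index :=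
      Subgroup.index_map_dvd P0 hπsurj
    have h2 : P0.index ∣ (P : Subgroup G).index := by
      rw [hP0]
      exact Subgroup.relIndex_dvd_index_of_le hPN
    exact P.not_dvd_index (hdvd.trans (h1.trans h2))
  · intro M hMn hMc
    exact Cfsg.Agent.Helper24.eq_bot_of_normal_coprime_quotient_pPrimeCore p M hMn hMc
  · intro A B hA hB hAB
    -- lift to subgroups of `P`
    obtain ⟨lift, hlift⟩ : ∃ lift : Subgroup (↥N ⧸ Cfsg.pPrimeCore p ↥N) → Subgroup ↥N,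
        ∀ A, lift A = A.comap (QuotientGroup.mk' (Cfsg.pPrimeCore p ↥N)) ⊓ P0 := ⟨_, fun _ => rfl⟩
    have hliftmem : ∀ (A : Subgroup (↥N ⧸ Cfsg.pPrimeCore p ↥N)) (x : ↥N), x ∈ lift A ↔
        QuotientGroup.mk' (Cfsg.pPrimeCore p ↥N) x ∈ A ∧ x ∈ P0 := by
      intro A x; rw [hlift]; exact Iff.rfl
    have hliftle : ∀ A, lift A ≤ P0 := fun A => by rw [hlift]; exact inf_le_right
    have hliftmap : ∀ A : Subgroup (↥N ⧸ Cfsg.pPrimeCore p ↥N),
        A ≤ P0.map (QuotientGroup.mk' (Cfsg.pPrimeCore p ↥N)) →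
        (lift A).map (QuotientGroup.mk' (Cfsg.pPrimeCore p ↥N)) = A := by
      intro A hA
      ext y
      constructor
      · rintro ⟨x, hx, rfl⟩
        exact ((hliftmem A x).mp hx).1
      · intro hy
        obtain ⟨x, hx, rfl⟩ := hA hy
        exact ⟨x, (hliftmem A x).mpr ⟨hy, hx⟩, rfl⟩
    have hliftcard : ∀ A : Subgroup (↥N ⧸ Cfsg.pPrimeCore p ↥N),
        A ≤ P0.map (QuotientGroup.mk' (Cfsg.pPrimeCore p ↥N)) →
        Nat.card ((lift A).map N.subtype) = Nat.card A := by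
      intro A hA
      rw [Subgroup.card_map_of_injective N.subtype_injective, ← hcardmap (lift A) (hliftle A),
        hliftmap A hA]
    have hliftP : ∀ A, (lift A).map N.subtype ≤ (P : Subgroup G) := by
      rintro A _ ⟨x, hx, rfl⟩
      exact (hP0mem x).mp (hliftle A hx)
    have hpg : ∀ A, IsPGroup p ((lift A).map N.subtype) := fun A =>
      IsPGroup.to_le P.2 (hliftP A)
    obtain ⟨g, hg⟩ := hC _ _ (hpg A) (hpg B) ((hliftcard A hA).trans (hAB.trans (hliftcard B hB).symm))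
    have hgA : ∀ a ∈ (lift A).map N.subtype, g * a * g⁻¹ ∈ (lift B).map N.subtype := by
      intro a ha
      rw [hg]
      exact ⟨a, ha, rfl⟩
    obtain ⟨m, hm, hmA⟩ := fusion_abelian_sylow P hcommP _ (hliftP A) g
      (fun a ha => hliftP B (hgA a ha))
    have hmN : m ∈ N := by rw [hNdef]; exact hm
    refine ⟨QuotientGroup.mk' (Cfsg.pPrimeCore p ↥N) ⟨m, hmN⟩, ?_⟩
    intro a ha
    obtain ⟨x, hx, rfl⟩ := hA ha
    have hxl : x ∈ lift A := (hliftmem A x).mpr ⟨ha, hx⟩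
    have h1 : g * (x : G) * g⁻¹ ∈ (lift B).map N.subtype := hgA _ ⟨x, hxl, rfl⟩
    have h1' : m * (x : G) * m⁻¹ ∈ (lift B).map N.subtype := by
      have e1 := hmA (x : G) ⟨x, hxl, rfl⟩
      rw [e1]
      exact h1
    obtain ⟨b, hb, hbeq⟩ := h1'
    have h2 : b = ⟨m, hmN⟩ * x * ⟨m, hmN⟩⁻¹ := Subtype.ext hbeq
    rw [← map_mul, ← map_inv, ← map_mul, ← h2]
    exact ((hliftmem B b).mp hb).1

end ConjFus

end Cfsg.Agent.Helper12
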