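import Cfsg.Agent.Helper40.DZDefs
import Cfsg.Agent.Helper40.Bruhat

set_option autoImplicit false

/-!
CALL S4538 piece G1a (helper12): Bruhat decomposition of `SL_n(F)` with a monomial middle term.
-/

namespace Cfsg.Agent.Helper12.DZ

open Cfsg.Agent.Helper40.DZ Cfsg.Agent.Helper44.PSLn Matrix

universe u

variable {n : ℕ} {F : Type u} [Field F] [Fintype F]

local notation "SLn" => Matrix.SpecialLinearGroup (Fin n) F

/-- G1a: Bruhat decomposition of `SL_n(F)` with a monomial middle term. -/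
theorem bruhat_SL (g : SLn) : ∃ u ∈ UniS n F, ∃ b ∈ borelSL n F, ∃ m : SLn,
    ∃ w : Equiv.Perm (Fin n), ∃ t : Fin n → F, (∀ i, t i ≠ 0) ∧ g = u * m * b ∧
      ∀ a b', (m : Matrix (Fin n) (Fin n) F) a b' = if a = w b' then t b' else 0 := by
  have hg : (g : Matrix (Fin n) (Fin n) F).det ≠ 0 := by
    rw [g.2]; exact one_ne_zero
  obtain ⟨b₁, b₂, w, hb₁, hb₂, hdet, heq⟩ :=
    Cfsg.Agent.Helper40.bruhat_matrix (g : Matrix (Fin n) (Fin n) F) hg
  have hdet1 : b₁.det * (Cfsg.Agent.Helper40.Pm F w).det = 1 := by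
    have h1 := congrArg Matrix.det heq
    rw [Matrix.det_mul, Matrix.det_mul, hdet, g.2] at h1
    simpa using h1
  have hb1det : b₁.det = ∏ i, b₁ i i := Matrix.det_of_upperTriangular hb₁
  have hd : ∀ i, b₁ i i ≠ 0 := by
    intro i h0
    have h2 : b₁.det = 0 := by
      rw [hb1det]; exact Finset.prod_eq_zero (Finset.mem_univ i) h0
    rw [h2, zero_mul] at hdet1
    exact zero_ne_one hdet1
  let D : Matrix (Fin n) (Fin n) F := Matrix.diagonal (fun i => b₁ i i)
  let Di : Matrix (Fin n) (Fin n) F := Matrix.diagonal (fun i => (b₁ i i)⁻¹)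
  have hu₁ : IsUni (b₁ * Di) := by
    constructor
    · intro i j hji
      simp only [Di, Matrix.mul_diagonal]
      rw [hb₁ hji, zero_mul]
    · intro i
      simp only [Di, Matrix.mul_diagonal]
      exact mul_inv_cancel₀ (hd i)
  have hu₁D : (b₁ * Di) * D = b₁ := by
    simp only [D, Di, Matrix.mul_assoc, Matrix.diagonal_mul_diagonal]
    have h3 : (Matrix.diagonal fun i => (b₁ i i)⁻¹ * b₁ i i) = (1 : Matrix (Fin n) (Fin n) F) := by
      rw [← Matrix.diagonal_one]
      congr 1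
      funext i
      exact inv_mul_cancel₀ (hd i)
    rw [h3, Matrix.mul_one]
  have hDdet : D.det = b₁.det := by
    rw [hb1det, Matrix.det_diagonal]
  let u : SLn := ⟨b₁ * Di, det_eq_one_of_isUni hu₁⟩
  let m : SLn := ⟨D * Cfsg.Agent.Helper40.Pm F w, by rw [Matrix.det_mul, hDdet]; exact hdet1⟩
  let β₂ : SLn := ⟨b₂, hdet⟩
  have hum : u * m = g * β₂ := by
    apply Subtype.ext
    show (b₁ * Di) * (D * Cfsg.Agent.Helper40.Pm F w) = (g : Matrix (Fin n) (Fin n) F) * b₂
    rw [← Matrix.mul_assoc, hu₁D, heq]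
  refine ⟨u, hu₁, β₂⁻¹, ?_, m, w, fun b' => b₁ (w b') (w b'), fun i => hd _, ?_, ?_⟩
  · apply Subgroup.inv_mem
    show ((Matrix.SpecialLinearGroup.toGL β₂ : GL (Fin n) F) : Matrix (Fin n) (Fin n) F).BlockTriangular id
    exact hb₂
  · rw [hum]; group
  · intro a b'
    show (D * Cfsg.Agent.Helper40.Pm F w) a b' = _
    simp only [D, Matrix.diagonal_mul, Cfsg.Agent.Helper40.Pm_apply]
    by_cases h : a = w b'
    · subst h; simp
    · simp [h]

end Cfsg.Agent.Helper12.DZ
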