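import Cfsg.Agent.Helper12.DZG1a
import Cfsg.Agent.Helper91.DZC1

set_option autoImplicit false

/-!
CALL S4538 piece G1b (helper12): Bruhat decomposition adapted to the minimal parabolic `P_j`.
-/

namespace Cfsg.Agent.Helper12.DZ

open Cfsg.Agent.Helper40.DZ Cfsg.Agent.Helper44.PSLn Matrix

universe u

variable {n : ℕ} {F : Type u} [Field F] [Fintype F]

local notation "SLn" => Matrix.SpecialLinearGroup (Fin n) F

/-- conjugating an elementary transvection by a monomial matrix -/
theorem monomial_conj (m : SLn) (w : Equiv.Perm (Fin n)) (t : Fin n → F) (ht : ∀ i, t i ≠ 0)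
    (hm : ∀ a b', (m : Matrix (Fin n) (Fin n) F) a b' = if a = w b' then t b' else 0)
    (i k : Fin n) (hik : i ≠ k) (hlt : w⁻¹ i < w⁻¹ k) (c : F) :
    m⁻¹ * Matrix.SpecialLinearGroup.transvection hik c * m ∈ UniS n F := by
  have key : Matrix.SpecialLinearGroup.transvection hik c * m =
      m * Matrix.SpecialLinearGroup.transvection (ne_of_lt hlt)
        (c * t (w⁻¹ k) / t (w⁻¹ i)) := by
    apply Subtype.ext
    rw [Matrix.SpecialLinearGroup.coe_mul, Matrix.SpecialLinearGroup.coe_mul,
      Matrix.SpecialLinearGroup.transvection_coe, Matrix.SpecialLinearGroup.transvection_coe]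
    rw [add_mul, one_mul, mul_add, mul_one]
    congr 1
    ext a b
    by_cases ha : a = i
    · subst ha
      rw [Matrix.single_mul_apply_same]
      by_cases hb : b = w⁻¹ k
      · subst hb
        rw [Matrix.mul_single_apply_same, hm, hm]
        have h1 : k = w (w⁻¹ k) := by simp
        have h2 : a = w (w⁻¹ a) := by simp
        rw [if_pos h1, if_pos h2]
        have := ht (w⁻¹ a)
        field_simp
      · rw [Matrix.mul_single_apply_of_ne _ _ _ _ _ hb, hm]
        rw [if_neg, mul_zero]
        intro h
        apply hb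
        rw [h]
        simp
    · rw [Matrix.single_mul_apply_of_ne _ _ _ _ _ ha]
      by_cases hb : b = w⁻¹ k
      · subst hb
        rw [Matrix.mul_single_apply_same, hm, if_neg, zero_mul]
        intro h
        apply ha
        rw [h]
        simp
      · rw [Matrix.mul_single_apply_of_ne _ _ _ _ _ hb]
  rw [mul_assoc, key, inv_mul_cancel_left]
  exact transvection_mem_UniS hlt _

/-- G1b: Bruhat decomposition adapted to the minimal parabolic `P_j`. -/
theorem bruhat_min (j : ℕ) (hj : j + 1 < n) (g : SLn) :
    ∃ u ∈ UniS n F, ∃ b ∈ borelSL n F, ∃ m : SLn,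
      (g = u * m * b ∨ g = u * sdot j hj * m * b) ∧
        ∀ c : F, m⁻¹ * xel j hj c * m ∈ UniS n F := by
  obtain ⟨u, hu, b, hb, m, w, t, ht, hg, hm⟩ := bruhat_SL g
  have hab : ia j hj ≠ ib j hj := ia_ne_ib j hj
  have hne : w⁻¹ (ia j hj) ≠ w⁻¹ (ib j hj) := fun h => hab (w⁻¹.injective h)
  rcases lt_or_gt_of_ne hne with hlt | hgt
  · exact ⟨u, hu, b, hb, m, Or.inl hg, fun c => monomial_conj m w t ht hm _ _ hab hlt c⟩
  · refine ⟨u, hu, b, hb, (sdot j hj)⁻¹ * m, Or.inr ?_, fun c => ?_⟩
    · rw [hg]; group
    · refine monomial_conj ((sdot j hj)⁻¹ * m) (Equiv.swap (ia j hj) (ib j hj) * w)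
        (fun b' => if w b' = ib j hj then - t b' else t b') ?_ ?_ _ _ hab ?_ c
      · intro i
        by_cases h : w i = ib j hj
        · simp only [h, if_true]; exact neg_ne_zero.2 (ht i)
        · simp only [h, if_false]; exact ht i
      · intro a b'
        rw [Matrix.SpecialLinearGroup.coe_mul, Cfsg.Agent.Helper91.DZ.sdot_inv_mul_apply,
          hm, hm, hm, Equiv.Perm.mul_apply]
        by_cases h1 : w b' = ia j hj
        · rw [h1, Equiv.swap_apply_left]
          by_cases ha1 : a = ia j hj
          · simp [ha1, hab, hab.symm]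
          · by_cases ha2 : a = ib j hj
            · simp [ha2, hab, hab.symm]
            · simp [ha1, ha2, hab, hab.symm]
        · by_cases h2 : w b' = ib j hj
          · rw [h2, Equiv.swap_apply_right]
            by_cases ha1 : a = ia j hj
            · simp [ha1, hab, hab.symm]
            · by_cases ha2 : a = ib j hj
              · simp [ha2, hab, hab.symm]
              · simp [ha1, ha2, hab, hab.symm]
          · rw [Equiv.swap_apply_of_ne_of_ne h1 h2]
            by_cases ha1 : a = ia j hj
            · have e1 : ¬ (ib j hj = w b') := fun h => h2 h.symm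
              have e2 : ¬ (ia j hj = w b') := fun h => h1 h.symm
              simp [ha1, h1, h2, e1, e2]
            · by_cases ha2 : a = ib j hj
              · have e1 : ¬ (ib j hj = w b') := fun h => h2 h.symm
                have e2 : ¬ (ia j hj = w b') := fun h => h1 h.symm
                simp [ha2, h1, h2, e1, e2, hab.symm]
              · simp [ha1, ha2, h2]
      · have h1 : (Equiv.swap (ia j hj) (ib j hj) * w)⁻¹ (ia j hj) = w⁻¹ (ib j hj) := by
          rw [_root_.mul_inv_rev, Equiv.Perm.mul_apply, Equiv.swap_inv, Equiv.swap_apply_left]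
        have h2 : (Equiv.swap (ia j hj) (ib j hj) * w)⁻¹ (ib j hj) = w⁻¹ (ia j hj) := by
          rw [_root_.mul_inv_rev, Equiv.Perm.mul_apply, Equiv.swap_inv, Equiv.swap_apply_right]
        rw [h1, h2]
        exact hgt

end Cfsg.Agent.Helper12.DZ
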