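import Mathlib
import Cfsg.Agent.Helper12.QuatLin

set_option autoImplicit false

/-!
# Group theory for Huppert's theorem on solvable transitive linear groups

Class-two groups `E` with cyclic centre `A`: the index `|E : A|` is a square; the
"critical" normal subgroup `E` over a maximal abelian normal subgroup `A` of a solvable
group; fixed points of a coprime automorphism.
-/

namespace Cfsg.Agent.Helper12

section HupGroup

variable {G : Type*} [Group G]

/-- the centraliser of `S` inside `E` -/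
def hupCen (E S : Subgroup G) : Subgroup G := E ⊓ Subgroup.centralizer (S : Set G)

theorem mem_hupCen {E S : Subgroup G} {y : G} :
    y ∈ hupCen E S ↔ y ∈ E ∧ ∀ s ∈ S, s * y = y * s := by
  unfold hupCen
  rw [Subgroup.mem_inf, Subgroup.mem_centralizer_iff]
  rfl

theorem hup_conj_pow (x y : G) (hc : Commute (y * x * y⁻¹ * x⁻¹) x) (k : ℕ) :
    y * x ^ k * y⁻¹ = (y * x * y⁻¹ * x⁻¹) ^ k * x ^ k := by
  rw [← conj_pow, ← hc.mul_pow]
  congr 1
  group

theorem hup_comm_prod (e e' b b' : G) (h1 : Commute b e) (h2 : Commute b e') (h3 : Commute b' e)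
    (h4 : Commute b' e') :
    e * b * (e' * b') * (e * b)⁻¹ * (e' * b')⁻¹ =
      (e * e' * e⁻¹ * e'⁻¹) * (b * b' * b⁻¹ * b'⁻¹) := by
  have k1 : b * e' = e' * b := h2.eq
  have k2 : Commute (b * b' * b⁻¹) e⁻¹ := ((h1.mul_left h3).mul_left h1.inv_left).inv_right
  have k3 : Commute (b * b' * b⁻¹ * b'⁻¹) e'⁻¹ :=
    (((h2.mul_left h4).mul_left h2.inv_left).mul_left h4.inv_left).inv_right
  calc e * b * (e' * b') * (e * b)⁻¹ * (e' * b')⁻¹
      = e * (b * e') * b' * b⁻¹ * e⁻¹ * b'⁻¹ * e'⁻¹ := by group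
    _ = e * (e' * b) * b' * b⁻¹ * e⁻¹ * b'⁻¹ * e'⁻¹ := by rw [k1]
    _ = e * e' * ((b * b' * b⁻¹) * e⁻¹) * b'⁻¹ * e'⁻¹ := by group
    _ = e * e' * (e⁻¹ * (b * b' * b⁻¹)) * b'⁻¹ * e'⁻¹ := by rw [k2.eq]
    _ = e * e' * e⁻¹ * ((b * b' * b⁻¹ * b'⁻¹) * e'⁻¹) := by group
    _ = e * e' * e⁻¹ * (e'⁻¹ * (b * b' * b⁻¹ * b'⁻¹)) := by rw [k3.eq]
    _ = (e * e' * e⁻¹ * e'⁻¹) * (b * b' * b⁻¹ * b'⁻¹) := by group

/-- One step of the chain: adjoining an element `x`. -/
theorem hup_chain_step [Finite G] (E A S : Subgroup G) (hcyc : IsCyclic A)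
    (hcent : ∀ a ∈ A, ∀ x ∈ E, a * x = x * a)
    (hcomm : ∀ x ∈ E, ∀ y ∈ E, x * y * x⁻¹ * y⁻¹ ∈ A) (x : G) (hx : x ∈ E) :
    Nat.card (hupCen E S) * Nat.card S ≤
      Nat.card (hupCen E (S ⊔ Subgroup.zpowers x)) * Nat.card ↥(S ⊔ Subgroup.zpowers x) := by
  classical
  have hex : ∃ k, 0 < k ∧ x ^ k ∈ S :=
    ⟨orderOf x, orderOf_pos x, by rw [pow_orderOf_eq_one]; exact S.one_mem⟩
  obtain ⟨k, hk0, hkS, hkmin⟩ : ∃ k, 0 < k ∧ x ^ k ∈ S ∧ ∀ j, 0 < j → j < k → x ^ j ∉ S :=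
    ⟨Nat.find hex, (Nat.find_spec hex).1, (Nat.find_spec hex).2,
      fun j hj0 hjk hjS => Nat.find_min hex hjk ⟨hj0, hjS⟩⟩
  -- (b) the join is large
  have hb : k * Nat.card S ≤ Nat.card ↥(S ⊔ Subgroup.zpowers x) := by
    have hxS' : x ∈ S ⊔ Subgroup.zpowers x := Subgroup.mem_sup_right (Subgroup.mem_zpowers x)
    have hinj : Function.Injective (fun q : Fin k × S =>
        (⟨x ^ (q.1 : ℕ) * (q.2 : G), (S ⊔ Subgroup.zpowers x).mul_mem
          ((S ⊔ Subgroup.zpowers x).pow_mem hxS' _) (Subgroup.mem_sup_left q.2.2)⟩ :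
          ↥(S ⊔ Subgroup.zpowers x))) := by
      rintro ⟨i, s⟩ ⟨j, s'⟩ h
      have h1 : x ^ (i : ℕ) * (s : G) = x ^ (j : ℕ) * (s' : G) := congrArg Subtype.val h
      have key : ∀ (i j : ℕ) (s s' : G), s ∈ S → s' ∈ S → i < k → j < k → i ≤ j →
          x ^ i * s = x ^ j * s' → i = j := by
        intro i j s s' hs hs' hi hj hij h
        by_contra hne
        have hlt : i < j := lt_of_le_of_ne hij hne
        have h3 : x ^ j = x ^ i * x ^ (j - i) := by
          rw [← pow_add]; congr 1; omega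
        rw [h3, mul_assoc] at h
        have h4 : s = x ^ (j - i) * s' := mul_left_cancel h
        have h2 : x ^ (j - i) = s * s'⁻¹ := by rw [h4]; group
        exact hkmin (j - i) (by omega) (by omega) (h2 ▸ S.mul_mem hs (S.inv_mem hs'))
      have hij : (i : ℕ) = j := by
        rcases le_total (i : ℕ) j with hle | hle
        · exact key i j s s' s.2 s'.2 i.2 j.2 hle h1
        · exact (key j i s' s s'.2 s.2 j.2 i.2 hle h1.symm).symm
      have hij' : i = j := Fin.ext hij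
      subst hij'
      have h5 : (s : G) = s' := mul_left_cancel h1
      have h6 : s = s' := Subtype.ext h5
      rw [h6]
    have h7 := Nat.card_le_card_of_injective _ hinj
    rwa [Nat.card_prod, Nat.card_fin] at h7
  -- (a) the centraliser shrinks by at most `k`
  have ha : Nat.card (hupCen E S) ≤ k * Nat.card (hupCen E (S ⊔ Subgroup.zpowers x)) := by
    let φ : hupCen E S →* A :=
      { toFun := fun y => ⟨(y : G) * x * (y : G)⁻¹ * x⁻¹, hcomm _ (mem_hupCen.mp y.2).1 x hx⟩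
        map_one' := by
          apply Subtype.ext
          show ((1 : hupCen E S) : G) * x * ((1 : hupCen E S) : G)⁻¹ * x⁻¹ = 1
          simp
        map_mul' := by
          intro y y'
          apply Subtype.ext
          show ((y : G) * y') * x * ((y : G) * y')⁻¹ * x⁻¹ =
            ((y : G) * x * (y : G)⁻¹ * x⁻¹) * ((y' : G) * x * (y' : G)⁻¹ * x⁻¹)
          have hc := hcent _ (hcomm _ (mem_hupCen.mp y'.2).1 x hx) _ (mem_hupCen.mp y.2).1
          have hc2 := hcent _ (hcomm _ (mem_hupCen.mp y'.2).1 x hx) _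
            (E.mul_mem (E.mul_mem (E.mul_mem (mem_hupCen.mp y.2).1 hx)
              (E.inv_mem (mem_hupCen.mp y.2).1)) (E.inv_mem hx))
          calc ((y : G) * y') * x * ((y : G) * y')⁻¹ * x⁻¹
              = (y : G) * ((y' : G) * x * (y' : G)⁻¹ * x⁻¹) * x * (y : G)⁻¹ * x⁻¹ := by group
            _ = ((y' : G) * x * (y' : G)⁻¹ * x⁻¹) * (y : G) * x * (y : G)⁻¹ * x⁻¹ := by rw [← hc]
            _ = ((y' : G) * x * (y' : G)⁻¹ * x⁻¹) * ((y : G) * x * (y : G)⁻¹ * x⁻¹) := by group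
            _ = _ := hc2 }
    have hφ : ∀ y : hupCen E S, ((φ y : A) : G) = (y : G) * x * (y : G)⁻¹ * x⁻¹ := fun _ => rfl
    have hker : ∀ y : hupCen E S, φ y = 1 → (y : G) ∈ hupCen E (S ⊔ Subgroup.zpowers x) := by
      intro y hy
      have h1 : (y : G) * x * (y : G)⁻¹ * x⁻¹ = 1 := by
        rw [← hφ, hy]; rfl
      have h2 : (y : G) * x = x * y := by
        have h3 : (y : G) * x = ((y : G) * x * (y : G)⁻¹ * x⁻¹) * (x * y) := by group
        rw [h3, h1, one_mul]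
      have hy2 := mem_hupCen.mp y.2
      have hle : S ⊔ Subgroup.zpowers x ≤ Subgroup.centralizer ({(y : G)} : Set G) := by
        apply sup_le
        · intro s hs
          rw [Subgroup.mem_centralizer_iff]
          intro h hh
          rw [Set.mem_singleton_iff] at hh
          rw [hh]
          exact (hy2.2 s hs).symm
        · rw [Subgroup.zpowers_le, Subgroup.mem_centralizer_iff]
          intro h hh
          rw [Set.mem_singleton_iff] at hh
          rw [hh]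
          exact h2
      rw [mem_hupCen]
      refine ⟨hy2.1, fun z hz => ?_⟩
      exact ((Subgroup.mem_centralizer_iff.mp (hle hz)) (y : G) rfl).symm
    have h1 : Nat.card φ.ker ≤ Nat.card (hupCen E (S ⊔ Subgroup.zpowers x)) := by
      apply Nat.card_le_card_of_injective (fun y : φ.ker =>
        (⟨((y : hupCen E S) : G), hker (y : hupCen E S) (MonoidHom.mem_ker.mp y.2)⟩ :
          hupCen E (S ⊔ Subgroup.zpowers x)))
      intro y y' h
      apply Subtype.ext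
      apply Subtype.ext
      have h' := congrArg (fun z : hupCen E (S ⊔ Subgroup.zpowers x) => (z : G)) h
      exact h'
    have h2 : Nat.card φ.range ≤ k := by
      haveI := hcyc
      haveI : Fintype A := Fintype.ofFinite A
      have hle := IsCyclic.card_pow_eq_one_le (α := A) hk0
      have hsub : ∀ c : φ.range, (c : A) ^ k = 1 := by
        rintro ⟨c, y, rfl⟩
        apply Subtype.ext
        show ((y : G) * x * (y : G)⁻¹ * x⁻¹) ^ k = 1
        have hcx : Commute ((y : G) * x * (y : G)⁻¹ * x⁻¹) x :=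
          hcent _ (hcomm _ (mem_hupCen.mp y.2).1 x hx) x hx
        have h3 := hup_conj_pow x (y : G) hcx k
        have h4 : (y : G) * x ^ k * (y : G)⁻¹ = x ^ k := by
          have h5 := (mem_hupCen.mp y.2).2 (x ^ k) hkS
          rw [← h5]; group
        rw [h4] at h3
        exact mul_right_cancel (b := x ^ k) (by rw [one_mul]; exact h3.symm)
      calc Nat.card φ.range ≤ Nat.card {a : A // a ^ k = 1} :=
            Nat.card_le_card_of_injective
              (fun c : φ.range => (⟨(c : A), hsub c⟩ : {a : A // a ^ k = 1}))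
              (fun c c' h => Subtype.ext (by
                have h' := congrArg (fun z : {a : A // a ^ k = 1} => (z : A)) h
                exact h'))
        _ = (Finset.univ.filter (fun a : A => a ^ k = 1)).card := by
            rw [Nat.card_eq_fintype_card, Fintype.card_subtype]
        _ ≤ k := hle
    have h3 := Subgroup.card_mul_index φ.ker
    rw [Subgroup.index_ker] at h3
    calc Nat.card (hupCen E S) = Nat.card φ.ker * Nat.card φ.range := h3.symm
      _ ≤ Nat.card (hupCen E (S ⊔ Subgroup.zpowers x)) * k := Nat.mul_le_mul h1 h2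
      _ = k * Nat.card (hupCen E (S ⊔ Subgroup.zpowers x)) := mul_comm _ _
  calc Nat.card (hupCen E S) * Nat.card S
      ≤ (k * Nat.card (hupCen E (S ⊔ Subgroup.zpowers x))) * Nat.card S :=
        Nat.mul_le_mul_right _ ha
    _ = Nat.card (hupCen E (S ⊔ Subgroup.zpowers x)) * (k * Nat.card S) := by ring
    _ ≤ Nat.card (hupCen E (S ⊔ Subgroup.zpowers x)) * Nat.card ↥(S ⊔ Subgroup.zpowers x) :=
        Nat.mul_le_mul_left _ hb

/-- The product `|C_E(S)| * |S|` grows with `S`. -/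
theorem hup_chain [Finite G] (E A : Subgroup G) (hcyc : IsCyclic A)
    (hcent : ∀ a ∈ A, ∀ x ∈ E, a * x = x * a)
    (hcomm : ∀ x ∈ E, ∀ y ∈ E, x * y * x⁻¹ * y⁻¹ ∈ A) :
    ∀ (n : ℕ) (S Q : Subgroup G), S ≤ Q → Q ≤ E → Nat.card Q - Nat.card S = n →
      Nat.card (hupCen E S) * Nat.card S ≤ Nat.card (hupCen E Q) * Nat.card Q := by
  intro n
  induction n using Nat.strong_induction_on with
  | _ n ih =>
    intro S Q hSQ hQE hn
    by_cases hEq : S = Q
    · subst hEq; exact le_refl _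
    · obtain ⟨x, hxQ, hxS⟩ : ∃ x ∈ Q, x ∉ S := by
        by_contra hcon
        push_neg at hcon
        exact hEq (le_antisymm hSQ hcon)
      have hS'Q : S ⊔ Subgroup.zpowers x ≤ Q :=
        sup_le hSQ (by rw [Subgroup.zpowers_le]; exact hxQ)
      have hlt : Nat.card S < Nat.card ↥(S ⊔ Subgroup.zpowers x) := by
        by_contra hcon
        push_neg at hcon
        have h1 := Subgroup.eq_of_le_of_card_ge (le_sup_left : S ≤ S ⊔ Subgroup.zpowers x) hcon
        apply hxS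
        have h2 : x ∈ S ⊔ Subgroup.zpowers x := Subgroup.mem_sup_right (Subgroup.mem_zpowers x)
        rw [← h1] at h2
        exact h2
      have hle : Nat.card ↥(S ⊔ Subgroup.zpowers x) ≤ Nat.card Q := Subgroup.card_le_of_le hS'Q
      have h1 := hup_chain_step E A S hcyc hcent hcomm x (hQE hxQ)
      have h2 := ih (Nat.card Q - Nat.card ↥(S ⊔ Subgroup.zpowers x)) (by omega) _ Q hS'Q hQE rfl
      exact h1.trans h2

/-- A finite group `E` with `[E, E] ≤ A = Z(E)`, `A` cyclic, has `|E : A|` a square. -/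
theorem hup_card_sq [Finite G] (E A : Subgroup G) (hAE : A ≤ E) (hcyc : IsCyclic A)
    (hcent : ∀ a ∈ A, ∀ x ∈ E, a * x = x * a)
    (hcomm : ∀ x ∈ E, ∀ y ∈ E, x * y * x⁻¹ * y⁻¹ ∈ A)
    (hZ : ∀ x ∈ E, (∀ y ∈ E, x * y = y * x) → x ∈ A) :
    ∃ s : ℕ, Nat.card E = Nat.card A * s ^ 2 := by
  classical
  haveI : Nonempty {M : Subgroup G // A ≤ M ∧ M ≤ E ∧ ∀ x ∈ M, ∀ y ∈ M, x * y = y * x} :=
    ⟨⟨A, le_refl _, hAE, fun x hx y hy => hcent x hx y (hAE hy)⟩⟩
  obtain ⟨⟨M, hAM, hME, hMc⟩, hmax⟩ := Finite.exists_max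
    (fun M : {M : Subgroup G // A ≤ M ∧ M ≤ E ∧ ∀ x ∈ M, ∀ y ∈ M, x * y = y * x} =>
      Nat.card (M : Subgroup G))
  have hCM : hupCen E M = M := by
    apply le_antisymm
    · intro x hx
      rw [mem_hupCen] at hx
      have hgen : ∀ u ∈ (M : Set G) ∪ {x}, ∀ v ∈ (M : Set G) ∪ {x}, u * v = v * u := by
        rintro u (hu | hu) v (hv | hv)
        · exact hMc u hu v hv
        · rw [Set.mem_singleton_iff] at hv; rw [hv]; exact hx.2 u hu
        · rw [Set.mem_singleton_iff] at hu; rw [hu]; exact (hx.2 v hv).symm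
        · rw [Set.mem_singleton_iff] at hu hv; rw [hu, hv]
      have h1 : Subgroup.closure ((M : Set G) ∪ {x}) ≤
          Subgroup.centralizer ((M : Set G) ∪ {x}) := by
        rw [Subgroup.closure_le]
        intro u hu
        rw [SetLike.mem_coe, Subgroup.mem_centralizer_iff]
        intro v hv
        exact hgen v hv u hu
      have h2 : Subgroup.closure ((M : Set G) ∪ {x}) ≤
          Subgroup.centralizer (Subgroup.closure ((M : Set G) ∪ {x}) : Set G) := by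
        rw [Subgroup.closure_le]
        intro u hu
        rw [SetLike.mem_coe, Subgroup.mem_centralizer_iff]
        intro v hv
        exact ((Subgroup.mem_centralizer_iff.mp (h1 hv)) u hu).symm
      have hMM' : M ≤ Subgroup.closure ((M : Set G) ∪ {x}) :=
        fun u hu => Subgroup.subset_closure (Or.inl hu)
      have hxM' : x ∈ Subgroup.closure ((M : Set G) ∪ {x}) :=
        Subgroup.subset_closure (Or.inr rfl)
      have hM'E : Subgroup.closure ((M : Set G) ∪ {x}) ≤ E := by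
        rw [Subgroup.closure_le]
        rintro u (hu | hu)
        · exact hME hu
        · rw [Set.mem_singleton_iff] at hu; rw [hu]; exact hx.1
      have hM'c : ∀ a ∈ Subgroup.closure ((M : Set G) ∪ {x}),
          ∀ b ∈ Subgroup.closure ((M : Set G) ∪ {x}), a * b = b * a := fun a ha b hb =>
        ((Subgroup.mem_centralizer_iff.mp (h2 ha)) b hb).symm
      have hcard := hmax ⟨Subgroup.closure ((M : Set G) ∪ {x}), hAM.trans hMM', hM'E, hM'c⟩
      have heq := Subgroup.eq_of_le_of_card_ge hMM' hcard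
      rw [← heq] at hxM'
      exact hxM'
    · intro x hx
      rw [mem_hupCen]
      exact ⟨hME hx, fun s hs => hMc s hs x hx⟩
  have hCA : hupCen E A = E := by
    apply le_antisymm inf_le_left
    intro x hx
    exact mem_hupCen.mpr ⟨hx, fun a ha => hcent a ha x hx⟩
  have hCE : hupCen E E = A := by
    apply le_antisymm
    · intro x hx
      rw [mem_hupCen] at hx
      exact hZ x hx.1 (fun y hy => (hx.2 y hy).symm)
    · intro a ha
      rw [mem_hupCen]
      exact ⟨hAE ha, fun s hs => (hcent a ha s hs).symm⟩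
  have c1 := hup_chain E A hcyc hcent hcomm _ A M hAM hME rfl
  have c2 := hup_chain E A hcyc hcent hcomm _ M E hME (le_refl _) rfl
  rw [hCA, hCM] at c1
  rw [hCM, hCE] at c2
  obtain ⟨s, hs⟩ := Subgroup.card_dvd_of_le hAM
  refine ⟨s, ?_⟩
  have hApos : 0 < Nat.card A := Nat.card_pos
  have h3 : Nat.card M * Nat.card M = Nat.card A * Nat.card E :=
    le_antisymm c2 (by rw [mul_comm (Nat.card A)]; exact c1)
  rw [hs] at h3
  have h4 : Nat.card A * (Nat.card A * s ^ 2) = Nat.card A * Nat.card E := by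
    rw [← h3]; ring
  exact (Nat.eq_of_mul_eq_mul_left hApos h4).symm

/-- Prime divisors of `|E|` divide `|A|`. -/
theorem hup_prime_dvd [Finite G] (E A : Subgroup G)
    (hcent : ∀ a ∈ A, ∀ x ∈ E, a * x = x * a)
    (hcomm : ∀ x ∈ E, ∀ y ∈ E, x * y * x⁻¹ * y⁻¹ ∈ A)
    (hZ : ∀ x ∈ E, (∀ y ∈ E, x * y = y * x) → x ∈ A)
    (r : ℕ) [hr : Fact r.Prime] (hrE : r ∣ Nat.card E) : r ∣ Nat.card A := by
  obtain ⟨t, ht⟩ := exists_prime_orderOf_dvd_card' r hrE
  by_contra hrA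
  have htr : (t : G) ^ r = 1 := by
    have h1 := pow_orderOf_eq_one t
    rw [ht] at h1
    have h2 := congrArg Subtype.val h1
    simpa using h2
  have hcen : ∀ x ∈ E, (t : G) * x = x * t := by
    intro x hx
    have hcA : (t : G) * x * (t : G)⁻¹ * x⁻¹ ∈ A := hcomm _ t.2 x hx
    have hcr : ((t : G) * x * (t : G)⁻¹ * x⁻¹) ^ r = 1 := by
      have h1 : x * (t : G) * x⁻¹ = ((t : G) * x * (t : G)⁻¹ * x⁻¹)⁻¹ * t := by group
      have hct : Commute ((t : G) * x * (t : G)⁻¹ * x⁻¹)⁻¹ (t : G) :=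
        (show Commute ((t : G) * x * (t : G)⁻¹ * x⁻¹) (t : G) from hcent _ hcA t t.2).inv_left
      have h2 : (x * (t : G) * x⁻¹) ^ r =
          (((t : G) * x * (t : G)⁻¹ * x⁻¹)⁻¹) ^ r * (t : G) ^ r := by
        rw [h1, hct.mul_pow]
      rw [conj_pow, htr, mul_one, mul_inv_cancel, mul_one, inv_pow] at h2
      exact inv_eq_one.mp h2.symm
    have h1 : orderOf ((t : G) * x * (t : G)⁻¹ * x⁻¹) ∣ r := orderOf_dvd_of_pow_eq_one hcr
    have h2 : orderOf ((t : G) * x * (t : G)⁻¹ * x⁻¹) ∣ Nat.card A :=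
      Subgroup.orderOf_dvd_natCard A hcA
    rcases (Nat.dvd_prime hr.out).mp h1 with h | h
    · have h3 := orderOf_eq_one_iff.mp h
      have h4 : (t : G) * x = ((t : G) * x * (t : G)⁻¹ * x⁻¹) * (x * t) := by group
      rw [h4, h3, one_mul]
    · exfalso; rw [h] at h2; exact hrA h2
  have htA : (t : G) ∈ A := hZ t t.2 hcen
  have h5 : orderOf (t : G) ∣ Nat.card A := Subgroup.orderOf_dvd_natCard A htA
  rw [Subgroup.orderOf_coe, ht] at h5
  exact hrA h5

/-- The centre of the fixed points of a coprime automorphism centralising `A`. -/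
theorem hup_center_fixed (E A : Subgroup G) (hEn : E.Normal)
    (hcent : ∀ a ∈ A, ∀ x ∈ E, a * x = x * a)
    (hcomm : ∀ x ∈ E, ∀ y ∈ E, x * y * x⁻¹ * y⁻¹ ∈ A)
    (hZ : ∀ x ∈ E, (∀ y ∈ E, x * y = y * x) → x ∈ A)
    (g : G) (ℓ : ℕ) (hg : g ^ ℓ = 1) (hgA : ∀ a ∈ A, g * a = a * g)
    (hℓ : ∀ a ∈ A, a ^ ℓ = 1 → a = 1) :
    ∀ z ∈ E, g * z = z * g → (∀ y ∈ E, g * y = y * g → z * y = y * z) → z ∈ A := by
  intro z hz hgz hzc
  apply hZ z hz
  intro x hx
  have hNE : ∀ k : ℕ, (x * g) ^ k * (g ^ k)⁻¹ ∈ E := by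
    intro k
    induction k with
    | zero => simp
    | succ k ih =>
      have h1 : (x * g) ^ (k + 1) * (g ^ (k + 1))⁻¹ =
          ((x * g) ^ k * (g ^ k)⁻¹) * (g ^ k * x * (g ^ k)⁻¹) := by
        rw [pow_succ, pow_succ]; group
      rw [h1]
      exact E.mul_mem ih (hEn.conj_mem x hx _)
  have hN : (x * g) ^ ℓ ∈ E := by
    have h1 := hNE ℓ
    rwa [hg, inv_one, mul_one] at h1
  have h1a : g * (x * g) ^ ℓ * g⁻¹ = (g * x) ^ ℓ := by
    rw [← conj_pow]; congr 1; group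
  have h1b : x⁻¹ * (x * g) ^ ℓ * x = (g * x) ^ ℓ := by
    have h2 : x⁻¹ * (x * g) ^ ℓ * x = x⁻¹ * (x * g) ^ ℓ * x⁻¹⁻¹ := by rw [inv_inv]
    rw [h2, ← conj_pow]; congr 1; group
  have hc'A : x⁻¹ * (x * g) ^ ℓ * x * ((x * g) ^ ℓ)⁻¹ ∈ A := by
    have h2 := hcomm x⁻¹ (E.inv_mem hx) _ hN
    rwa [inv_inv] at h2
  have h3 : g * (x * g) ^ ℓ * g⁻¹ =
      (x⁻¹ * (x * g) ^ ℓ * x * ((x * g) ^ ℓ)⁻¹) * (x * g) ^ ℓ := by
    rw [h1a, ← h1b]; group
  have hgc : Commute g (x⁻¹ * (x * g) ^ ℓ * x * ((x * g) ^ ℓ)⁻¹) := hgA _ hc'A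
  have h4 : ∀ j : ℕ, g ^ j * (x * g) ^ ℓ * (g ^ j)⁻¹ =
      (x⁻¹ * (x * g) ^ ℓ * x * ((x * g) ^ ℓ)⁻¹) ^ j * (x * g) ^ ℓ := by
    intro j
    induction j with
    | zero => simp
    | succ j ih =>
      have h5 : g ^ (j + 1) * (x * g) ^ ℓ * (g ^ (j + 1))⁻¹ =
          g * (g ^ j * (x * g) ^ ℓ * (g ^ j)⁻¹) * g⁻¹ := by
        rw [pow_succ']; group
      have h6 : g * (x⁻¹ * (x * g) ^ ℓ * x * ((x * g) ^ ℓ)⁻¹) ^ j =
          (x⁻¹ * (x * g) ^ ℓ * x * ((x * g) ^ ℓ)⁻¹) ^ j * g := (hgc.pow_right j).eq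
      rw [h5, ih]
      calc g * ((x⁻¹ * (x * g) ^ ℓ * x * ((x * g) ^ ℓ)⁻¹) ^ j * (x * g) ^ ℓ) * g⁻¹
          = (g * (x⁻¹ * (x * g) ^ ℓ * x * ((x * g) ^ ℓ)⁻¹) ^ j) * (x * g) ^ ℓ * g⁻¹ := by
            simp only [mul_assoc]
        _ = (x⁻¹ * (x * g) ^ ℓ * x * ((x * g) ^ ℓ)⁻¹) ^ j * (g * (x * g) ^ ℓ * g⁻¹) := by
            rw [h6]; simp only [mul_assoc]
        _ = (x⁻¹ * (x * g) ^ ℓ * x * ((x * g) ^ ℓ)⁻¹) ^ (j + 1) * (x * g) ^ ℓ := by
            rw [h3, pow_succ]; simp only [mul_assoc]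
  have h7 := h4 ℓ
  rw [hg, one_mul, inv_one, mul_one] at h7
  have hc'1 : x⁻¹ * (x * g) ^ ℓ * x * ((x * g) ^ ℓ)⁻¹ = 1 :=
    hℓ _ hc'A (mul_right_cancel (b := (x * g) ^ ℓ) (by rw [one_mul]; exact h7.symm))
  rw [hc'1, one_mul] at h3
  have hgN : g * (x * g) ^ ℓ = (x * g) ^ ℓ * g := by
    calc g * (x * g) ^ ℓ = (g * (x * g) ^ ℓ * g⁻¹) * g := by group
      _ = (x * g) ^ ℓ * g := by rw [h3]
  have hzN := hzc _ hN hgN
  have hcA : z * x * z⁻¹ * x⁻¹ ∈ A := hcomm z hz x hx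
  have hgz' : g * z⁻¹ = z⁻¹ * g := (Commute.inv_right (show Commute g z from hgz)).eq
  have h8 : z * (x * g) * z⁻¹ = (z * x * z⁻¹ * x⁻¹) * (x * g) := by
    calc z * (x * g) * z⁻¹ = z * x * (g * z⁻¹) := by group
      _ = z * x * (z⁻¹ * g) := by rw [hgz']
      _ = (z * x * z⁻¹ * x⁻¹) * (x * g) := by group
  have hcxg : Commute (z * x * z⁻¹ * x⁻¹) (x * g) :=
    Commute.mul_right (hcent _ hcA x hx) (hgA _ hcA).symm
  have h9 : z * (x * g) ^ ℓ * z⁻¹ = (z * x * z⁻¹ * x⁻¹) ^ ℓ * (x * g) ^ ℓ := by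
    rw [← conj_pow, h8, hcxg.mul_pow]
  have h10 : z * (x * g) ^ ℓ * z⁻¹ = (x * g) ^ ℓ := by
    rw [hzN]; group
  rw [h10] at h9
  have hc1 : z * x * z⁻¹ * x⁻¹ = 1 :=
    hℓ _ hcA (mul_right_cancel (b := (x * g) ^ ℓ) (by rw [one_mul]; exact h9.symm))
  have h11 : z * x = (z * x * z⁻¹ * x⁻¹) * (x * z) := by group
  rw [h11, hc1, one_mul]

/-- Fixed points of an automorphism of prime order, modulo the prime. -/
theorem hup_card_fixed_modEq [Finite G] (E : Subgroup G) (hEn : E.Normal) (g : G) (ℓ : ℕ)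
    [Fact ℓ.Prime] (hg : g ^ ℓ = 1) :
    Nat.card E ≡ Nat.card ↥(E ⊓ Subgroup.centralizer ({g} : Set G)) [MOD ℓ] := by
  classical
  haveI := hEn
  haveI : Fintype E := Fintype.ofFinite E
  have hσ : (MulAut.toPerm E (MulAut.conjNormal g : MulAut E)) ^ ℓ ^ 1 = 1 := by
    rw [pow_one, ← map_pow, ← map_pow, hg, map_one, map_one]
  have hfix : ∀ y : E, y ∈ (MulAut.toPerm E (MulAut.conjNormal g : MulAut E)).supportᶜ ↔
      g * (y : G) = y * g := by
    intro y
    rw [Finset.mem_compl, Equiv.Perm.mem_support, not_not]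
    constructor
    · intro h
      have h1 : ((MulAut.conjNormal g : MulAut E) y : G) = y := congrArg Subtype.val h
      rw [MulAut.conjNormal_apply] at h1
      calc g * (y : G) = (g * y * g⁻¹) * g := by group
        _ = y * g := by rw [h1]
    · intro h
      apply Subtype.ext
      show ((MulAut.conjNormal g : MulAut E) y : G) = y
      rw [MulAut.conjNormal_apply, h]
      group
  have hcard : Nat.card ↥(E ⊓ Subgroup.centralizer ({g} : Set G)) =
      (MulAut.toPerm E (MulAut.conjNormal g : MulAut E)).supportᶜ.card := by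
    have e : ↥(E ⊓ Subgroup.centralizer ({g} : Set G)) ≃
        {y : E // y ∈ (MulAut.toPerm E (MulAut.conjNormal g : MulAut E)).supportᶜ} :=
      { toFun := fun z => ⟨⟨z.1, z.2.1⟩, (hfix _).mpr
          ((Subgroup.mem_centralizer_iff.mp z.2.2) g rfl)⟩
        invFun := fun y => ⟨y.1.1, Subgroup.mem_inf.mpr ⟨y.1.2,
          Subgroup.mem_centralizer_iff.mpr (fun h hh => by
            rw [Set.mem_singleton_iff] at hh
            rw [hh]
            exact (hfix y.1).mp y.2)⟩⟩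
        left_inv := fun z => rfl
        right_inv := fun y => rfl }
    rw [Nat.card_congr e, Nat.card_eq_fintype_card, Fintype.card_coe]
  have h := Equiv.Perm.card_compl_support_modEq hσ
  rw [hcard, Nat.card_eq_fintype_card]
  exact h.symm

theorem hup_arith (a s s₀ ℓ : ℕ) (hℓ : ℓ.Prime) (hdvd : a * s₀ ^ 2 ∣ a * s ^ 2)
    (hnd : ¬ ℓ ∣ a * s ^ 2) (hmod : a * s ^ 2 ≡ a * s₀ ^ 2 [MOD ℓ]) :
    s = s₀ ∨ (ℓ - 1 ≤ s ∧ (s = ℓ - 1 → s₀ = 1)) := by
  have ha : a ≠ 0 := by rintro rfl; simp at hnd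
  have hs : s ≠ 0 := by rintro rfl; simp at hnd
  have h1 : s₀ ^ 2 ∣ s ^ 2 := Nat.dvd_of_mul_dvd_mul_left (Nat.pos_of_ne_zero ha) hdvd
  have h2 : s₀ ∣ s := (Nat.pow_dvd_pow_iff (by norm_num)).mp h1
  obtain ⟨t, rfl⟩ := h2
  have hs₀ : s₀ ≠ 0 := by rintro rfl; simp at hs
  have ht : t ≠ 0 := by rintro rfl; simp at hs
  have hℓa : ¬ ℓ ∣ a * s₀ ^ 2 := fun h => hnd (h.trans hdvd)
  have hle : a * s₀ ^ 2 ≤ a * (s₀ * t) ^ 2 :=
    Nat.le_of_dvd (Nat.pos_of_ne_zero (by positivity)) hdvd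
  have h3 : ℓ ∣ a * (s₀ * t) ^ 2 - a * s₀ ^ 2 := (Nat.modEq_iff_dvd' hle).mp hmod.symm
  have h4 : a * (s₀ * t) ^ 2 - a * s₀ ^ 2 = a * s₀ ^ 2 * ((t - 1) * (t + 1)) := by
    obtain ⟨u, rfl⟩ : ∃ u, t = u + 1 := ⟨t - 1, by omega⟩
    simp only [Nat.add_sub_cancel]
    have h5 : a * (s₀ * (u + 1)) ^ 2 = a * s₀ ^ 2 * (u * (u + 1 + 1)) + a * s₀ ^ 2 := by ring
    rw [h5, Nat.add_sub_cancel]
  rw [h4] at h3
  have h5 : ℓ ∣ (t - 1) * (t + 1) := (hℓ.dvd_mul.mp h3).resolve_left hℓa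
  have hst : t ≤ s₀ * t := Nat.le_mul_of_pos_left t (Nat.pos_of_ne_zero hs₀)
  rcases hℓ.dvd_mul.mp h5 with h6 | h6
  · by_cases ht1 : t = 1
    · left; rw [ht1, mul_one]
    · right
      have h7 : ℓ ≤ t - 1 := Nat.le_of_dvd (by omega) h6
      exact ⟨by omega, fun h => by omega⟩
  · right
    have h7 : ℓ ≤ t + 1 := Nat.le_of_dvd (by omega) h6
    refine ⟨by omega, fun h => ?_⟩
    have h8 : s₀ * t ≤ 1 * t := by omega
    have h9 : s₀ ≤ 1 := Nat.le_of_mul_le_mul_right h8 (Nat.pos_of_ne_zero ht)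
    omega

/-- The group-theoretic heart: an automorphism of prime order `ℓ` of `E` centralising `A`
either centralises `E`, or `|E : A| = s²` with `s ≥ ℓ - 1`. -/
theorem hup_flow_group [Finite G] (E A : Subgroup G) (hEn : E.Normal) (hAE : A ≤ E)
    (hcyc : IsCyclic A)
    (hcent : ∀ a ∈ A, ∀ x ∈ E, a * x = x * a)
    (hcomm : ∀ x ∈ E, ∀ y ∈ E, x * y * x⁻¹ * y⁻¹ ∈ A)
    (hZ : ∀ x ∈ E, (∀ y ∈ E, x * y = y * x) → x ∈ A)
    (g : G) (ℓ : ℕ) [hℓf : Fact ℓ.Prime] (hg : g ^ ℓ = 1)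
    (hgA : ∀ a ∈ A, g * a = a * g) (hℓ : ¬ ℓ ∣ Nat.card E) :
    (∀ x ∈ E, g * x = x * g) ∨ ∃ s, Nat.card E = Nat.card A * s ^ 2 ∧ ℓ - 1 ≤ s ∧
      (s = ℓ - 1 → ∀ x ∈ E, g * x = x * g → x ∈ A) := by
  have hℓp : ℓ.Prime := hℓf.out
  obtain ⟨E₀, hE₀⟩ : ∃ E₀, E₀ = E ⊓ Subgroup.centralizer ({g} : Set G) := ⟨_, rfl⟩
  have hE₀mem : ∀ x, x ∈ E₀ ↔ x ∈ E ∧ g * x = x * g := by
    intro x
    rw [hE₀, Subgroup.mem_inf, Subgroup.mem_centralizer_iff]
    constructor
    · rintro ⟨h1, h2⟩; exact ⟨h1, h2 g rfl⟩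
    · rintro ⟨h1, h2⟩
      refine ⟨h1, fun h hh => ?_⟩
      rw [Set.mem_singleton_iff] at hh
      rw [hh]; exact h2
  have hE₀E : E₀ ≤ E := fun x hx => ((hE₀mem x).mp hx).1
  have hℓA : ∀ a ∈ A, a ^ ℓ = 1 → a = 1 := by
    intro a ha hal
    have h1 : orderOf a ∣ ℓ := orderOf_dvd_of_pow_eq_one hal
    have h2 : orderOf a ∣ Nat.card A := Subgroup.orderOf_dvd_natCard A ha
    rcases (Nat.dvd_prime hℓp).mp h1 with h | h
    · exact orderOf_eq_one_iff.mp h
    · exfalso; rw [h] at h2; exact hℓ (h2.trans (Subgroup.card_dvd_of_le hAE))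
  obtain ⟨s, hs⟩ := hup_card_sq E A hAE hcyc hcent hcomm hZ
  have hAE₀ : A ≤ E₀ := fun a ha => (hE₀mem a).mpr ⟨hAE ha, hgA a ha⟩
  obtain ⟨s₀, hs₀⟩ := hup_card_sq E₀ A hAE₀ hcyc
    (fun a ha x hx => hcent a ha x (hE₀E hx))
    (fun x hx y hy => hcomm x (hE₀E hx) y (hE₀E hy))
    (fun z hz hzc => hup_center_fixed E A hEn hcent hcomm hZ g ℓ hg hgA hℓA z (hE₀E hz)
      ((hE₀mem z).mp hz).2 (fun y hy hgy => hzc y ((hE₀mem y).mpr ⟨hy, hgy⟩)))
  have hmod := hup_card_fixed_modEq E hEn g ℓ hg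
  rw [← hE₀] at hmod
  have hdvd : Nat.card E₀ ∣ Nat.card E := Subgroup.card_dvd_of_le hE₀E
  rw [hs, hs₀] at hmod hdvd
  rcases hup_arith (Nat.card A) s s₀ ℓ hℓp hdvd (by rw [← hs]; exact hℓ) hmod with h | ⟨h1, h2⟩
  · left
    have hcard : Nat.card E ≤ Nat.card E₀ := by rw [hs, hs₀, h]
    have h3 := Subgroup.eq_of_le_of_card_ge hE₀E hcard
    intro x hx
    rw [← h3] at hx
    exact ((hE₀mem x).mp hx).2
  · right
    refine ⟨s, hs, h1, fun hsl x hx hgx => ?_⟩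
    have hs₀1 := h2 hsl
    have hcard : Nat.card E₀ ≤ Nat.card A := by rw [hs₀, hs₀1]; simp
    have h3 := Subgroup.eq_of_le_of_card_ge hAE₀ hcard
    rw [h3]
    exact (hE₀mem x).mpr ⟨hx, hgx⟩

/-- A group acting freely by conjugation on a set has order dividing the size of the set. -/
theorem hup_free_conj (P : Subgroup G) (Ω : Set G)
    (hinv : ∀ u ∈ P, ∀ x ∈ Ω, u * x * u⁻¹ ∈ Ω)
    (hfree : ∀ u ∈ P, ∀ x ∈ Ω, u * x * u⁻¹ = x → u = 1) :
    Nat.card P ∣ Nat.card Ω := by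
  letI : MulAction P Ω :=
    { smul := fun u x => ⟨(u : G) * x * (u : G)⁻¹, hinv u u.2 x x.2⟩
      one_smul := fun x => Subtype.ext (by
        show ((1 : P) : G) * x * ((1 : P) : G)⁻¹ = x
        simp)
      mul_smul := fun u v x => Subtype.ext (by
        show ((u * v : P) : G) * x * ((u * v : P) : G)⁻¹ =
          (u : G) * ((v : G) * x * (v : G)⁻¹) * (u : G)⁻¹
        simp [mul_assoc]) }
  have hstab : ∀ x : Ω, MulAction.stabilizer P x = ⊥ := by
    intro x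
    rw [eq_bot_iff]
    intro u hu
    rw [MulAction.mem_stabilizer_iff] at hu
    have h1 : (u : G) * x * (u : G)⁻¹ = x := congrArg Subtype.val hu
    rw [Subgroup.mem_bot]
    exact Subtype.ext (hfree u u.2 x x.2 h1)
  have hdvd := index_dvd_card_of_stabilizer_eq (⊥ : Subgroup P) hstab
  rwa [Subgroup.index_bot] at hdvd

end HupGroup

end Cfsg.Agent.Helper12
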