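import Mathlib
import Cfsg.Agent.Helper12.HupGroup

set_option autoImplicit false

/-!
# The critical normal subgroup over a maximal abelian normal subgroup of a solvable group
-/

namespace Cfsg.Agent.Helper12

section HupCrit

open scoped commutatorElement

variable {G : Type*} [Group G]

/-- Over a maximal abelian normal subgroup `A` of a finite solvable group there is a normal
subgroup `E` with `[E, E] ≤ A = Z(E) = C_G(E)`, maximal with these properties. -/
theorem hup_exists_E [Finite G] (hsol : IsSolvable G) (A : Subgroup G) (hAn : A.Normal)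
    (hAc : ∀ a ∈ A, ∀ b ∈ A, a * b = b * a)
    (hmax : ∀ B : Subgroup G, B.Normal → (∀ x ∈ B, ∀ y ∈ B, x * y = y * x) → A ≤ B → B ≤ A) :
    ∃ E : Subgroup G, E.Normal ∧ A ≤ E ∧ (∀ a ∈ A, ∀ x ∈ E, a * x = x * a) ∧
      (∀ x ∈ E, ∀ y ∈ E, x * y * x⁻¹ * y⁻¹ ∈ A) ∧
      (∀ x ∈ E, (∀ y ∈ E, x * y = y * x) → x ∈ A) ∧
      (∀ h : G, (∀ y ∈ E, h * y = y * h) → h ∈ A) ∧
      (∀ h : G, (∀ a ∈ A, h * a = a * h) → (∀ x ∈ E, h * x * h⁻¹ * x⁻¹ ∈ A) → h ∈ E) := by
  classical
  haveI : Nonempty {E : Subgroup G // E.Normal ∧ A ≤ E ∧ (∀ a ∈ A, ∀ x ∈ E, a * x = x * a) ∧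
      (∀ x ∈ E, ∀ y ∈ E, x * y * x⁻¹ * y⁻¹ ∈ A)} :=
    ⟨⟨A, hAn, le_refl _, fun a ha x hx => hAc a ha x hx, fun x hx y hy => by
      have h1 : x * y * x⁻¹ * y⁻¹ = 1 := by rw [hAc x hx y hy]; group
      rw [h1]; exact A.one_mem⟩⟩
  obtain ⟨⟨E, hEn, hAE, hcent, hcomm⟩, hEmax⟩ := Finite.exists_max
    (fun E : {E : Subgroup G // E.Normal ∧ A ≤ E ∧ (∀ a ∈ A, ∀ x ∈ E, a * x = x * a) ∧
      (∀ x ∈ E, ∀ y ∈ E, x * y * x⁻¹ * y⁻¹ ∈ A)} => Nat.card (E : Subgroup G))
  have hP : ∀ D : Subgroup G, D.Normal → A ≤ D → (∀ a ∈ A, ∀ x ∈ D, a * x = x * a) →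
      (∀ x ∈ D, ∀ y ∈ D, x * y * x⁻¹ * y⁻¹ ∈ A) → E ≤ D → D ≤ E := by
    intro D h1 h2 h3 h4 h5
    have h6 := hEmax ⟨D, h1, h2, h3, h4⟩
    exact (Subgroup.eq_of_le_of_card_ge h5 h6).symm.le
  haveI := hEn
  haveI := hAn
  have hZ : ∀ x ∈ E, (∀ y ∈ E, x * y = y * x) → x ∈ A := by
    intro x hx hxc
    have hB := hmax (E ⊓ Subgroup.centralizer (E : Set G)) inferInstance
      (by
        intro u hu v hv
        exact (Subgroup.mem_centralizer_iff.mp (Subgroup.mem_inf.mp hv).2) u
          (Subgroup.mem_inf.mp hu).1)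
      (by
        intro a ha
        exact Subgroup.mem_inf.mpr ⟨hAE ha,
          Subgroup.mem_centralizer_iff.mpr (fun y hy => (hcent a ha y hy).symm)⟩)
    exact hB (Subgroup.mem_inf.mpr ⟨hx,
      Subgroup.mem_centralizer_iff.mpr (fun y hy => (hxc y hy).symm)⟩)
  have hC : ∀ h : G, (∀ y ∈ E, h * y = y * h) → h ∈ A := by
    intro h hh
    by_contra hhA
    have hhB : h ∈ Subgroup.centralizer (E : Set G) :=
      Subgroup.mem_centralizer_iff.mpr (fun y hy => (hh y hy).symm)
    obtain ⟨D, hD0, hDs⟩ : ∃ D : ℕ → Subgroup G, D 0 = Subgroup.centralizer (E : Set G) ∧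
        ∀ k, D (k + 1) = ⁅D k, D k⁆ :=
      ⟨fun k => Nat.rec (Subgroup.centralizer (E : Set G)) (fun _ X => ⁅X, X⁆) k, rfl,
        fun k => rfl⟩
    have hDn : ∀ k, (D k).Normal := by
      intro k
      induction k with
      | zero => rw [hD0]; infer_instance
      | succ k ih => rw [hDs]; haveI := ih; infer_instance
    have hDB : ∀ k, D k ≤ Subgroup.centralizer (E : Set G) := by
      intro k
      induction k with
      | zero => rw [hD0]
      | succ k ih =>
        rw [hDs]
        haveI := hDn k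
        exact (Subgroup.commutator_le_left (H₁ := D k) (H₂ := D k)).trans ih
    have hDder : ∀ k, D k ≤ derivedSeries G k := by
      intro k
      induction k with
      | zero => rw [derivedSeries_zero]; exact le_top
      | succ k ih => rw [hDs, derivedSeries_succ]; exact Subgroup.commutator_mono ih ih
    obtain ⟨n, hn⟩ := hsol.solvable
    have hex : ∃ j, D j ≤ A := ⟨n, by
      have h1 := hDder n
      rw [hn] at h1
      exact h1.trans bot_le⟩
    have hj0 : Nat.find hex ≠ 0 := by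
      intro h0
      have h1 := Nat.find_spec hex
      rw [h0, hD0] at h1
      exact hhA (h1 hhB)
    obtain ⟨i, hi⟩ := Nat.exists_eq_succ_of_ne_zero hj0
    have hi1 : ¬ D i ≤ A := Nat.find_min hex (by rw [hi]; exact Nat.lt_succ_self i)
    have hi2 : ⁅D i, D i⁆ ≤ A := by
      have h1 : D (i + 1) ≤ A := by
        have h2 := Nat.find_spec hex
        rwa [hi] at h2
      rwa [hDs] at h1
    haveI := hDn i
    have hbE : ∀ b ∈ D i, ∀ y ∈ E, Commute b y := fun b hb y hy =>
      ((Subgroup.mem_centralizer_iff.mp (hDB i hb)) y hy).symm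
    have hle := hP (E ⊔ D i) inferInstance (hAE.trans le_sup_left)
      (by
        intro a ha z hz
        obtain ⟨e, he, b, hb, rfl⟩ := Subgroup.mem_sup_of_normal_right.mp hz
        have h1 : a * e = e * a := hcent a ha e he
        have h2 : a * b = b * a := ((hbE b hb a (hAE ha)).eq).symm
        calc a * (e * b) = (a * e) * b := (mul_assoc _ _ _).symm
          _ = (e * a) * b := by rw [h1]
          _ = e * (a * b) := mul_assoc _ _ _
          _ = e * (b * a) := by rw [h2]
          _ = e * b * a := (mul_assoc _ _ _).symm)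
      (by
        intro z hz z' hz'
        obtain ⟨e, he, b, hb, rfl⟩ := Subgroup.mem_sup_of_normal_right.mp hz
        obtain ⟨e', he', b', hb', rfl⟩ := Subgroup.mem_sup_of_normal_right.mp hz'
        rw [hup_comm_prod e e' b b' (hbE b hb e he) (hbE b hb e' he') (hbE b' hb' e he)
          (hbE b' hb' e' he')]
        refine A.mul_mem (hcomm e he e' he') (hi2 ?_)
        have h1 := Subgroup.commutator_mem_commutator hb hb'
        rwa [commutatorElement_def] at h1)
      le_sup_left
    apply hi1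
    intro u hu
    have huE : u ∈ E := hle (Subgroup.mem_sup_right hu)
    exact hZ u huE (fun y hy => (hbE u hu y hy).eq)
  have hD : ∀ h : G, (∀ a ∈ A, h * a = a * h) → (∀ x ∈ E, h * x * h⁻¹ * x⁻¹ ∈ A) → h ∈ E := by
    intro h hhA hhE
    let D' : Subgroup G :=
      { carrier := {u | ∀ x ∈ E, u * x * u⁻¹ * x⁻¹ ∈ A}
        one_mem' := fun x hx => by
          have h1 : (1 : G) * x * 1⁻¹ * x⁻¹ = 1 := by group
          rw [h1]; exact A.one_mem
        mul_mem' := fun {u v} hu hv x hx => by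
          have h1 : u * v * x * (u * v)⁻¹ * x⁻¹ =
              (u * (v * x * v⁻¹ * x⁻¹) * u⁻¹) * (u * x * u⁻¹ * x⁻¹) := by group
          rw [h1]
          exact A.mul_mem (hAn.conj_mem _ (hv x hx) u) (hu x hx)
        inv_mem' := fun {u} hu x hx => by
          have h1 : u⁻¹ * x * u⁻¹⁻¹ * x⁻¹ = u⁻¹ * (u * x * u⁻¹ * x⁻¹)⁻¹ * u⁻¹⁻¹ := by group
          rw [h1]
          exact hAn.conj_mem _ (A.inv_mem (hu x hx)) u⁻¹ }
    have hD'mem : ∀ u, u ∈ D' ↔ ∀ x ∈ E, u * x * u⁻¹ * x⁻¹ ∈ A := fun u => Iff.rfl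
    haveI hD'n : D'.Normal := ⟨fun u hu g => (hD'mem _).mpr (fun x hx => by
      have hx' : g⁻¹ * x * g ∈ E := by
        have h1 := hEn.conj_mem x hx g⁻¹
        rwa [inv_inv] at h1
      have h2 : g * u * g⁻¹ * x * (g * u * g⁻¹)⁻¹ * x⁻¹ =
          g * (u * (g⁻¹ * x * g) * u⁻¹ * (g⁻¹ * x * g)⁻¹) * g⁻¹ := by group
      rw [h2]
      exact hAn.conj_mem _ ((hD'mem u).mp hu _ hx') g)⟩
    have hDle := hP (Subgroup.centralizer (A : Set G) ⊓ D') inferInstance ?_ ?_ ?_ ?_
    · exact hDle (Subgroup.mem_inf.mpr ⟨Subgroup.mem_centralizer_iff.mpr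
        (fun a ha => (hhA a ha).symm), (hD'mem h).mpr hhE⟩)
    · intro a ha
      refine Subgroup.mem_inf.mpr ⟨Subgroup.mem_centralizer_iff.mpr (fun b hb => hAc b hb a ha),
        (hD'mem a).mpr (fun x hx => ?_)⟩
      have h1 : a * x * a⁻¹ * x⁻¹ = 1 := by rw [hcent a ha x hx]; group
      rw [h1]; exact A.one_mem
    · intro a ha u hu
      exact (Subgroup.mem_centralizer_iff.mp (Subgroup.mem_inf.mp hu).1) a ha
    · intro u hu v hv
      have hDE : ⁅Subgroup.centralizer (A : Set G) ⊓ D', E⁆ ≤ A := by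
        rw [Subgroup.commutator_le]
        intro u hu x hx
        rw [commutatorElement_def]
        exact (hD'mem u).mp (Subgroup.mem_inf.mp hu).2 x hx
      have hAD : ⁅A, Subgroup.centralizer (A : Set G) ⊓ D'⁆ = ⊥ := by
        rw [Subgroup.commutator_eq_bot_iff_le_centralizer]
        intro a ha
        rw [Subgroup.mem_centralizer_iff]
        intro u hu
        exact ((Subgroup.mem_centralizer_iff.mp (Subgroup.mem_inf.mp hu).1) a ha).symm
      have h1 : ⁅⁅Subgroup.centralizer (A : Set G) ⊓ D', E⁆,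
          Subgroup.centralizer (A : Set G) ⊓ D'⁆ = ⊥ := by
        rw [eq_bot_iff, ← hAD]
        exact Subgroup.commutator_mono hDE (le_refl _)
      have h2 : ⁅⁅E, Subgroup.centralizer (A : Set G) ⊓ D'⁆,
          Subgroup.centralizer (A : Set G) ⊓ D'⁆ = ⊥ := by
        rw [Subgroup.commutator_comm E]; exact h1
      have h3 := Subgroup.commutator_commutator_eq_bot_of_rotate h1 h2
      rw [Subgroup.commutator_eq_bot_iff_le_centralizer] at h3
      have h4 : ⁅u, v⁆ ∈ Subgroup.centralizer (E : Set G) :=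
        h3 (Subgroup.commutator_mem_commutator hu hv)
      rw [commutatorElement_def] at h4
      exact hC _ (fun y hy => ((Subgroup.mem_centralizer_iff.mp h4) y hy).symm)
    · intro x hx
      exact Subgroup.mem_inf.mpr ⟨Subgroup.mem_centralizer_iff.mpr
        (fun a ha => hcent a ha x hx), (hD'mem x).mpr (fun y hy => hcomm x hx y hy)⟩
  exact ⟨E, hEn, hAE, hcent, hcomm, hZ, hC, hD⟩

theorem hup_card_ne (α : Type*) [Finite α] (a : α) :
    Nat.card {x : α // x ≠ a} = Nat.card α - 1 := by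
  have h : Nat.card {w : α // w ≠ a} = Set.ncard ((Set.univ : Set α) \ {a}) := by
    rw [← Nat.card_coe_set_eq]
    apply Nat.card_congr
    exact Equiv.subtypeEquivRight (fun w => by simp)
  rw [h, Set.ncard_diff_singleton_of_mem (Set.mem_univ a), Set.ncard_univ]

/-- If `|E : A| = 4` and only `E` acts trivially on `E / A`, then `|G : E|` divides `6`. -/
theorem hup_index_dvd_six [Finite G] (E A : Subgroup G) (hAn : A.Normal) (hEn : E.Normal)
    (hAE : A ≤ E) (hcard : Nat.card E = 4 * Nat.card A)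
    (hD : ∀ h : G, (∀ x ∈ E, h * x * h⁻¹ * x⁻¹ ∈ A) → h ∈ E) : E.index ∣ 6 := by
  classical
  haveI := hAn
  haveI := hEn
  have hsurj : Function.Surjective (QuotientGroup.mk' A) := QuotientGroup.mk'_surjective A
  haveI hEbar : (E.map (QuotientGroup.mk' A)).Normal := hEn.map _ hsurj
  have hker : ((MulAut.conjNormal (H := E.map (QuotientGroup.mk' A))).comp
      (QuotientGroup.mk' A)).ker ≤ E := by
    intro h hh
    apply hD
    intro x hx
    have h1 : ((MulAut.conjNormal (H := E.map (QuotientGroup.mk' A))).comp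
        (QuotientGroup.mk' A)) h ⟨QuotientGroup.mk' A x, Subgroup.mem_map_of_mem _ hx⟩ =
        ⟨QuotientGroup.mk' A x, Subgroup.mem_map_of_mem _ hx⟩ := by
      rw [MonoidHom.mem_ker.mp hh]; rfl
    have h2 : QuotientGroup.mk' A h * QuotientGroup.mk' A x * (QuotientGroup.mk' A h)⁻¹ =
        QuotientGroup.mk' A x := by
      have h3 := congrArg Subtype.val h1
      rw [MonoidHom.comp_apply, MulAut.conjNormal_apply] at h3
      exact h3
    have h3 : QuotientGroup.mk' A (h * x * h⁻¹ * x⁻¹) = 1 := by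
      rw [map_mul, map_mul, map_mul, map_inv, map_inv, h2, mul_inv_cancel]
    exact (QuotientGroup.eq_one_iff _).mp h3
  have hidx : (E.map (QuotientGroup.mk' A)).index = E.index :=
    Subgroup.index_map_eq E hsurj (by rw [QuotientGroup.ker_mk']; exact hAE)
  have c1 := Subgroup.card_mul_index (E.map (QuotientGroup.mk' A))
  have c2 := Subgroup.card_mul_index E
  have c3 := Subgroup.card_mul_index A
  have hEi : E.index ≠ 0 := Subgroup.index_ne_zero_of_finite
  have hA0 : 0 < Nat.card A := Nat.card_pos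
  have h4 : Nat.card ↥(E.map (QuotientGroup.mk' A)) * (E.index * Nat.card A) =
      4 * (E.index * Nat.card A) := by
    calc Nat.card ↥(E.map (QuotientGroup.mk' A)) * (E.index * Nat.card A)
        = (Nat.card ↥(E.map (QuotientGroup.mk' A)) * (E.map (QuotientGroup.mk' A)).index) *
            Nat.card A := by rw [hidx]; ring
      _ = Nat.card (G ⧸ A) * Nat.card A := by rw [c1]
      _ = Nat.card A * A.index := by rw [Subgroup.index_eq_card, mul_comm]
      _ = Nat.card G := c3
      _ = Nat.card E * E.index := c2.symm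
      _ = 4 * (E.index * Nat.card A) := by rw [hcard]; ring
  have hEbar4 : Nat.card ↥(E.map (QuotientGroup.mk' A)) = 4 :=
    Nat.eq_of_mul_eq_mul_right (Nat.mul_pos (Nat.pos_of_ne_zero hEi) hA0) h4
  -- automorphisms of a group of order 4
  let ψ : MulAut ↥(E.map (QuotientGroup.mk' A)) →*
      Equiv.Perm {x : ↥(E.map (QuotientGroup.mk' A)) // x ≠ 1} :=
    { toFun := fun f => f.toEquiv.subtypeEquiv (fun x => by simp)
      map_one' := by ext x; rfl
      map_mul' := fun f f' => by ext x; rfl }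
  have hψ : Function.Injective ψ := by
    intro f f' h
    ext x
    by_cases hx : x = 1
    · rw [hx, map_one, map_one]
    · have h5 := congrArg (fun σ : Equiv.Perm {x : ↥(E.map (QuotientGroup.mk' A)) // x ≠ 1} =>
        ((σ ⟨x, hx⟩ : {x : ↥(E.map (QuotientGroup.mk' A)) // x ≠ 1}) :
          ↥(E.map (QuotientGroup.mk' A)))) h
      have h6 : (f x : ↥(E.map (QuotientGroup.mk' A))) = f' x := h5
      rw [h6]
  have h5 : Nat.card (MulAut ↥(E.map (QuotientGroup.mk' A))) ∣ 6 := by
    have h6 := Subgroup.card_dvd_of_injective ψ hψ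
    rw [Nat.card_perm, hup_card_ne, hEbar4] at h6
    exact h6
  have h7 : E.index ∣ ((MulAut.conjNormal (H := E.map (QuotientGroup.mk' A))).comp
      (QuotientGroup.mk' A)).ker.index := Subgroup.index_dvd_of_le hker
  rw [Subgroup.index_ker] at h7
  exact h7.trans ((Subgroup.card_subgroup_dvd_card _).trans h5)

end HupCrit

end Cfsg.Agent.Helper12
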