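import Mathlib
import Cfsg.Agent.Helper12.SemiLin

set_option autoImplicit false

/-!
# The field generated by an abelian normal subgroup of a transitive linear group

If `H ≤ GL(V)` is transitive on the nonzero vectors and `A` is an abelian normal subgroup,
the subalgebra of `End V` generated by `A` is a field.
-/

namespace Cfsg.Agent.Helper12

universe u

theorem hup_prime_pow_eq {p q f r : ℕ} (hp : p.Prime) (hq : q.Prime) (hf : 1 ≤ f)
    (h : p ^ f = q ^ r) : p = q ∧ f = r := by
  have h1 : p ∣ q ^ r := by rw [← h]; exact dvd_pow_self p (by omega)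
  have h2 : p = q := (Nat.prime_dvd_prime_iff_eq hp hq).mp (hp.dvd_of_dvd_pow h1)
  subst h2
  exact ⟨rfl, Nat.pow_right_injective hp.two_le h⟩

/-- the number of automorphisms of a field with `p ^ f` elements is `f` -/
theorem hup_card_ringAut (F : Type*) [Field F] [Finite F] {p f : ℕ} (hp : p.Prime)
    (hF : Nat.card F = p ^ f) : Nat.card (F ≃+* F) = f := by
  obtain ⟨q, hq⟩ := CharP.exists F
  haveI := hq
  haveI : Fact q.Prime := ⟨CharP.char_is_prime F q⟩
  letI : Algebra (ZMod q) F := ZMod.algebra F q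
  have h1 : Nat.card F = q ^ Module.finrank (ZMod q) F := by
    have h := Module.natCard_eq_pow_finrank (K := ZMod q) (V := F)
    rwa [Nat.card_zmod] at h
  have hf1 : 1 ≤ f := by
    by_contra h0
    have h00 : f = 0 := by omega
    rw [h00, pow_zero] at hF
    have h2 : 1 < Nat.card F := Finite.one_lt_card
    omega
  have h2 : f = Module.finrank (ZMod q) F :=
    (hup_prime_pow_eq hp (Fact.out : q.Prime) hf1 (hF.symm.trans h1)).2
  have hcard : Nat.card (F ≃ₐ[ZMod q] F) = Module.finrank (ZMod q) F :=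
    IsGalois.card_aut_eq_finrank (ZMod q) F
  rw [h2, ← hcard]
  symm
  apply Nat.card_congr
  refine Equiv.ofBijective (fun σ : F ≃ₐ[ZMod q] F => σ.toRingEquiv) ⟨?_, ?_⟩
  · intro σ τ h
    ext x
    exact RingEquiv.congr_fun h x
  · intro σ
    refine ⟨AlgEquiv.ofRingEquiv (f := σ) ?_, ?_⟩
    · intro x
      have h : (σ : F →+* F).comp (algebraMap (ZMod q) F) = algebraMap (ZMod q) F :=
        Subsingleton.elim _ _
      exact RingHom.congr_fun h x
    · ext x
      rfl

/-- Independence of a family twisted by separating characters. -/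
theorem hup_indep_twist {F M ι Y : Type*} [Field F] [AddCommGroup M] [Module F M] (T : ι → M)
    (hT : ∀ i, ∀ c : F, c • T i = 0 → c = 0) (Φ : Y → M →ₗ[F] M) (χ : Y → ι → F)
    (hΦ : ∀ y i, Φ y (T i) = χ y i • T i) (hsep : ∀ i j, i ≠ j → ∃ y, χ y i ≠ χ y j) :
    LinearIndependent F T := by
  classical
  rw [linearIndependent_iff']
  intro s
  induction s using Finset.induction_on with
  | empty => intro g _ i hi; simp at hi
  | insert a s ha ih =>
    intro g hg
    rw [Finset.sum_insert ha] at hg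
    have hs : ∀ j ∈ s, g j = 0 := by
      intro j hj
      have haj : a ≠ j := fun h => ha (h ▸ hj)
      obtain ⟨y, hy⟩ := hsep a j haj
      have h1 := congrArg (Φ y) hg
      rw [map_add, map_smul, hΦ, map_sum, map_zero] at h1
      have h2 : χ y a • (g a • T a + ∑ i ∈ s, g i • T i) = 0 := by rw [hg, smul_zero]
      rw [smul_add, Finset.smul_sum] at h2
      have h3 : ∑ i ∈ s, ((χ y i - χ y a) * g i) • T i = 0 := by
        have h4 : ∑ i ∈ s, ((χ y i - χ y a) * g i) • T i =
            (g a • χ y a • T a + ∑ i ∈ s, Φ y (g i • T i)) -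
              (χ y a • g a • T a + ∑ i ∈ s, χ y a • g i • T i) := by
          rw [smul_comm (g a) (χ y a), add_sub_add_left_eq_sub, ← Finset.sum_sub_distrib]
          apply Finset.sum_congr rfl
          intro i _
          rw [map_smul, hΦ, sub_mul, sub_smul, mul_smul, mul_smul, smul_comm (g i) (χ y i)]
        rw [h4, h1, h2, sub_zero]
      have h5 := ih _ h3 j hj
      rcases mul_eq_zero.mp h5 with h6 | h6
      · exact absurd (sub_eq_zero.mp h6).symm hy
      · exact h6
    have h7 : ∑ i ∈ s, g i • T i = 0 :=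
      Finset.sum_eq_zero (fun i hi => by rw [hs i hi, zero_smul])
    rw [h7, add_zero] at hg
    intro i hi
    rcases Finset.mem_insert.mp hi with rfl | hi'
    · exact hT _ _ hg
    · exact hs i hi'

section HupField

variable {p : ℕ} [Fact p.Prime] {V : Type u} [AddCommGroup V] [Module (ZMod p) V]

theorem hup_linRho_injective (H : Subgroup (V ≃ₗ[ZMod p] V)) : Function.Injective (linRho H) := by
  intro a b hab
  apply Subtype.ext
  apply LinearEquiv.ext
  intro v
  have h1 := congrArg (fun f : Module.End (ZMod p) V => f v) hab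
  exact h1

/-- the subalgebra of `End V` generated by a subgroup -/
def hupK (H : Subgroup (V ≃ₗ[ZMod p] V)) (A : Subgroup H) :
    Subalgebra (ZMod p) (Module.End (ZMod p) V) :=
  Algebra.adjoin (ZMod p) {f : Module.End (ZMod p) V | ∃ a ∈ A, f = linRho H a}

theorem hup_adjoin_comm (H : Subgroup (V ≃ₗ[ZMod p] V)) (A : Subgroup H)
    (hAc : ∀ a ∈ A, ∀ b ∈ A, a * b = b * a) :
    ∀ k ∈ hupK H A, ∀ k' ∈ hupK H A, k * k' = k' * k := by
  have h1 : hupK H A ≤ Subalgebra.centralizer (ZMod p)
      {f : Module.End (ZMod p) V | ∃ a ∈ A, f = linRho H a} := by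
    apply Algebra.adjoin_le
    rintro _ ⟨a, ha, rfl⟩
    rw [SetLike.mem_coe, Subalgebra.mem_centralizer_iff]
    rintro _ ⟨b, hb, rfl⟩
    rw [← map_mul, ← map_mul, hAc b hb a ha]
  have h2 : hupK H A ≤ Subalgebra.centralizer (ZMod p)
      ((hupK H A : Subalgebra (ZMod p) (Module.End (ZMod p) V)) :
        Set (Module.End (ZMod p) V)) := by
    apply Algebra.adjoin_le
    intro f hf
    rw [SetLike.mem_coe, Subalgebra.mem_centralizer_iff]
    intro k hk
    exact (((Subalgebra.mem_centralizer_iff (ZMod p)).mp (h1 hk)) f hf).symm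
  intro k hk k' hk'
  exact (((Subalgebra.mem_centralizer_iff (ZMod p)).mp (h2 hk)) k' hk').symm

theorem hup_adjoin_conj (H : Subgroup (V ≃ₗ[ZMod p] V)) (A : Subgroup H) (hAn : A.Normal)
    (h : H) : ∀ k ∈ hupK H A, linRho H h * k * linRho H h⁻¹ ∈ hupK H A := by
  have h1 : linRho H h * linRho H h⁻¹ = 1 := by rw [← map_mul, mul_inv_cancel, map_one]
  have h2 : linRho H h⁻¹ * linRho H h = 1 := by rw [← map_mul, inv_mul_cancel, map_one]
  intro k hk
  unfold hupK at hk ⊢
  induction hk using Algebra.adjoin_induction with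
  | mem x hx =>
    obtain ⟨a, ha, rfl⟩ := hx
    apply Algebra.subset_adjoin
    exact ⟨h * a * h⁻¹, hAn.conj_mem a ha h, by rw [map_mul, map_mul]⟩
  | algebraMap r =>
    have h3 : linRho H h * algebraMap (ZMod p) (Module.End (ZMod p) V) r * linRho H h⁻¹ =
        algebraMap (ZMod p) (Module.End (ZMod p) V) r := by
      rw [← Algebra.commutes r (linRho H h), mul_assoc, h1, mul_one]
    rw [h3]
    exact Subalgebra.algebraMap_mem _ r
  | add x y hx hy ihx ihy =>
    rw [mul_add, add_mul]
    exact Subalgebra.add_mem _ ihx ihy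
  | mul x y hx hy ihx ihy =>
    have h3 : linRho H h * (x * y) * linRho H h⁻¹ =
        (linRho H h * x * linRho H h⁻¹) * (linRho H h * y * linRho H h⁻¹) := by
      calc linRho H h * (x * y) * linRho H h⁻¹
          = linRho H h * x * (1 * (y * linRho H h⁻¹)) := by rw [one_mul]; simp only [mul_assoc]
        _ = (linRho H h * x * linRho H h⁻¹) * (linRho H h * y * linRho H h⁻¹) := by
            rw [← h2]; simp only [mul_assoc]
    rw [h3]
    exact Subalgebra.mul_mem _ ihx ihy

variable [Finite V] [Nontrivial V]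

/-- Nonzero elements of the subalgebra generated by an abelian normal subgroup of a transitive
linear group have trivial kernel. -/
theorem hup_adjoin_fpf (H : Subgroup (V ≃ₗ[ZMod p] V))
    (htrans : ∀ v w : V, v ≠ 0 → w ≠ 0 → ∃ h : H, (h : V ≃ₗ[ZMod p] V) v = w)
    (A : Subgroup H) (hAn : A.Normal) (hAc : ∀ a ∈ A, ∀ b ∈ A, a * b = b * a) :
    ∀ k ∈ hupK H A, ∀ v : V, v ≠ 0 → k v = 0 → k = 0 := by
  classical
  have hcomm := hup_adjoin_comm H A hAc
  have hconj := hup_adjoin_conj H A hAn
  haveI : Nonempty {v : V // v ≠ 0} := ⟨⟨_, (exists_ne (0 : V)).choose_spec⟩⟩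
  obtain ⟨⟨w, hw⟩, hmin⟩ := Finite.exists_min
    (fun v : {v : V // v ≠ 0} => Set.ncard {u : V | ∃ k ∈ hupK H A, k v.1 = u})
  have hPw : ∀ k ∈ hupK H A, k w ≠ 0 → ∃ k' ∈ hupK H A, k' (k w) = w := by
    intro k hk hkw
    have hsub : {u : V | ∃ k' ∈ hupK H A, k' (k w) = u} ⊆ {u : V | ∃ k' ∈ hupK H A, k' w = u} := by
      rintro u ⟨k', hk', rfl⟩
      exact ⟨k' * k, (hupK H A).mul_mem hk' hk, rfl⟩
    have hle := hmin ⟨k w, hkw⟩
    have heq := Set.eq_of_subset_of_ncard_le hsub hle (Set.toFinite _)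
    have hmem : w ∈ {u : V | ∃ k' ∈ hupK H A, k' w = u} := ⟨1, (hupK H A).one_mem, rfl⟩
    rw [← heq] at hmem
    exact hmem
  have hP : ∀ v : V, v ≠ 0 → ∀ k ∈ hupK H A, k v ≠ 0 → ∃ k' ∈ hupK H A, k' (k v) = v := by
    intro v hv k hk hkv
    obtain ⟨h, hh⟩ := htrans w v hw hv
    have hhw : linRho H h w = v := hh
    have hk'' : linRho H h⁻¹ * k * linRho H h ∈ hupK H A := by
      have h3 := hconj h⁻¹ k hk
      rwa [inv_inv] at h3
    have hval : (linRho H h⁻¹ * k * linRho H h) w = linRho H h⁻¹ (k v) := by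
      rw [Module.End.mul_apply, Module.End.mul_apply, hhw]
    have hk''w : (linRho H h⁻¹ * k * linRho H h) w ≠ 0 := by
      rw [hval, linRho_apply]
      intro h0
      exact hkv ((LinearEquiv.map_eq_zero_iff _).mp h0)
    obtain ⟨k', hk', hk'w⟩ := hPw _ hk'' hk''w
    refine ⟨linRho H h * k' * linRho H h⁻¹, hconj h k' hk', ?_⟩
    rw [Module.End.mul_apply, Module.End.mul_apply, ← hval, hk'w, hhw]
  intro k hk v hv hkv
  by_contra hk0
  obtain ⟨w', hw'⟩ : ∃ w', k w' ≠ 0 := by
    by_contra hcon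
    push_neg at hcon
    exact hk0 (LinearMap.ext hcon)
  have hw'0 : w' ≠ 0 := by rintro rfl; exact hw' (map_zero k)
  have hu : k (v + w') ≠ 0 := by rw [map_add, hkv, zero_add]; exact hw'
  have hu0 : v + w' ≠ 0 := by
    intro h0
    rw [h0, map_zero] at hu
    exact hu rfl
  obtain ⟨k', hk', hk'w⟩ := hP w' hw'0 k hk hw'
  have hk1 : (1 - k' * k) ∈ hupK H A :=
    (hupK H A).sub_mem (hupK H A).one_mem ((hupK H A).mul_mem hk' hk)
  have hk1u : (1 - k' * k) (v + w') = v := by
    rw [LinearMap.sub_apply, Module.End.one_apply, Module.End.mul_apply, map_add, hkv, zero_add,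
      hk'w]
    abel
  have hk1u0 : (1 - k' * k) (v + w') ≠ 0 := by rw [hk1u]; exact hv
  obtain ⟨k₂, hk₂, hk₂u⟩ := hP (v + w') hu0 _ hk1 hk1u0
  rw [hk1u] at hk₂u
  apply hu
  rw [← hk₂u, ← Module.End.mul_apply, hcomm k hk k₂ hk₂, Module.End.mul_apply, hkv, map_zero]

/-- **The field of an abelian normal subgroup** of a transitive linear group. -/
theorem hup_exists_field (H : Subgroup (V ≃ₗ[ZMod p] V))
    (htrans : ∀ v w : V, v ≠ 0 → w ≠ 0 → ∃ h : H, (h : V ≃ₗ[ZMod p] V) v = w)
    (A : Subgroup H) (hAn : A.Normal) (hAc : ∀ a ∈ A, ∀ b ∈ A, a * b = b * a) :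
    ∃ (F : Type u) (_ : Field F) (_ : Finite F) (ι : F →+* Module.End (ZMod p) V),
      Function.Injective ι ∧ (∀ a ∈ A, ∃ x, ι x = linRho H a) ∧
      (∀ (h : H) (x : F), ∃ y, ι y = linRho H h * ι x * linRho H h⁻¹) ∧
      (∀ f : Module.End (ZMod p) V, (∀ a ∈ A, f * linRho H a = linRho H a * f) →
        ∀ x, f * ι x = ι x * f) ∧
      (∀ W : Submodule (ZMod p) V, (∀ a ∈ A, ∀ v ∈ W, linRho H a v ∈ W) →
        ∀ x, ∀ v ∈ W, ι x v ∈ W) := by
  classical
  haveI : Finite (Module.End (ZMod p) V) :=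
    Finite.of_injective (fun f : Module.End (ZMod p) V => (f : V → V)) DFunLike.coe_injective
  have hcomm := hup_adjoin_comm H A hAc
  have hfpf := hup_adjoin_fpf H htrans A hAn hAc
  letI : CommRing (hupK H A) :=
    { (inferInstance : Ring (hupK H A)) with
      mul_comm := fun a b => Subtype.ext (hcomm a.1 a.2 b.1 b.2) }
  haveI : Nontrivial (hupK H A) := ⟨⟨0, 1, fun h => by
    obtain ⟨v, hv⟩ := exists_ne (0 : V)
    apply hv
    have h1 := congrArg (fun d : hupK H A => (d : Module.End (ZMod p) V) v) h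
    exact h1.symm⟩⟩
  haveI : NoZeroDivisors (hupK H A) := ⟨by
    intro a b hab
    by_contra hne
    push_neg at hne
    obtain ⟨v, hv⟩ : ∃ v, (b : Module.End (ZMod p) V) v ≠ 0 := by
      by_contra hcon
      push_neg at hcon
      exact hne.2 (Subtype.ext (LinearMap.ext hcon))
    apply hne.1
    apply Subtype.ext
    apply hfpf a.1 a.2 _ hv
    have h1 := congrArg (fun d : hupK H A => (d : Module.End (ZMod p) V) v) hab
    exact h1⟩
  haveI : IsDomain (hupK H A) := NoZeroDivisors.to_isDomain _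
  letI := Fintype.ofFinite (hupK H A)
  letI : Field (hupK H A) := Fintype.fieldOfDomain _
  refine ⟨hupK H A, inferInstance, inferInstance,
    { toFun := fun x => (x : Module.End (ZMod p) V)
      map_one' := rfl
      map_mul' := fun _ _ => rfl
      map_zero' := rfl
      map_add' := fun _ _ => rfl }, Subtype.val_injective, ?_, ?_, ?_, ?_⟩
  · intro a ha
    exact ⟨⟨linRho H a, Algebra.subset_adjoin ⟨a, ha, rfl⟩⟩, rfl⟩
  · intro h x
    exact ⟨⟨_, hup_adjoin_conj H A hAn h x.1 x.2⟩, rfl⟩
  · intro f hf x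
    have h1 : hupK H A ≤ Subalgebra.centralizer (ZMod p) ({f} : Set (Module.End (ZMod p) V)) := by
      apply Algebra.adjoin_le
      rintro _ ⟨a, ha, rfl⟩
      rw [SetLike.mem_coe, Subalgebra.mem_centralizer_iff]
      intro g hg
      rw [Set.mem_singleton_iff] at hg
      rw [hg]
      exact hf a ha
    exact ((Subalgebra.mem_centralizer_iff (ZMod p)).mp (h1 x.2)) f rfl
  · intro W hW x
    have h1 : ∀ k ∈ hupK H A, ∀ v ∈ W, k v ∈ W := by
      intro k hk
      unfold hupK at hk
      induction hk using Algebra.adjoin_induction with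
      | mem y hy =>
        obtain ⟨a, ha, rfl⟩ := hy
        exact hW a ha
      | algebraMap r =>
        intro v hv
        rw [Module.algebraMap_end_apply]
        exact W.smul_mem r hv
      | add y z hy hz ihy ihz =>
        intro v hv
        rw [LinearMap.add_apply]
        exact W.add_mem (ihy v hv) (ihz v hv)
      | mul y z hy hz ihy ihz =>
        intro v hv
        rw [Module.End.mul_apply]
        exact ihy _ (ihz v hv)
    exact h1 x.1 x.2

end HupField

end Cfsg.Agent.Helper12
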