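import Mathlib
import Cfsg.Agent.Helper12.HupField

set_option autoImplicit false

/-!
# Consequences of the field of an abelian normal subgroup
-/

namespace Cfsg.Agent.Helper12

universe u

section HupField2

variable {p : ℕ} [Fact p.Prime] {V : Type u} [AddCommGroup V] [Module (ZMod p) V] [Finite V]
  [Nontrivial V]

/-- the field has `p ^ d` elements with `d ∣ dim V` -/
theorem hup_field_card {F : Type u} [Field F] [Finite F] (ι : F →+* Module.End (ZMod p) V) :
    ∃ d m : ℕ, 1 ≤ d ∧ Nat.card F = p ^ d ∧ d * m = Module.finrank (ZMod p) V := by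
  have hp : p.Prime := Fact.out
  letI : Module F V := Module.compHom V ι
  have h1 := Module.natCard_eq_pow_finrank (K := F) (V := V)
  have h2 := Module.natCard_eq_pow_finrank (K := ZMod p) (V := V)
  rw [Nat.card_zmod] at h2
  have hm : 0 < Module.finrank F V := Module.finrank_pos
  have hdvd : Nat.card F ∣ p ^ Module.finrank (ZMod p) V := by
    rw [← h2, h1]; exact dvd_pow_self _ hm.ne'
  obtain ⟨d, hd, hFd⟩ := (Nat.dvd_prime_pow hp).mp hdvd
  have hF1 : 1 < Nat.card F := Finite.one_lt_card
  have hd1 : 1 ≤ d := by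
    by_contra hcon
    have h3 : d = 0 := by omega
    rw [h3, pow_zero] at hFd
    omega
  refine ⟨d, Module.finrank F V, hd1, hFd, ?_⟩
  rw [h1, hFd, ← pow_mul] at h2
  exact Nat.pow_right_injective hp.two_le h2

/-- `A` is cyclic of order dividing `|F| - 1` -/
theorem hup_card_A_dvd (H : Subgroup (V ≃ₗ[ZMod p] V)) (A : Subgroup H) {F : Type u} [Field F]
    [Finite F] (ι : F →+* Module.End (ZMod p) V) (hι : Function.Injective ι)
    (hA : ∀ a ∈ A, ∃ x, ι x = linRho H a) :
    IsCyclic A ∧ Nat.card A ∣ Nat.card F - 1 := by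
  classical
  haveI : Finite (V ≃ₗ[ZMod p] V) := finite_linEquiv
  let ψ : A →* F :=
    { toFun := fun a => Classical.choose (hA a.1 a.2)
      map_one' := hι (by
        rw [Classical.choose_spec (hA _ (1 : A).2), map_one]
        exact map_one (linRho H))
      map_mul' := fun a b => hι (by
        rw [Classical.choose_spec (hA _ (a * b).2), map_mul,
          Classical.choose_spec (hA a.1 a.2), Classical.choose_spec (hA b.1 b.2)]
        exact map_mul (linRho H) a.1 b.1) }
  have hψ : ∀ a : A, ι (ψ a) = linRho H a := fun a => Classical.choose_spec (hA a.1 a.2)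
  have hψi : Function.Injective ψ := by
    intro a b hab
    apply Subtype.ext
    apply hup_linRho_injective H
    rw [← hψ a, ← hψ b, hab]
  refine ⟨isCyclic_of_injective_ringHom ψ hψi, ?_⟩
  have h1 := Subgroup.card_dvd_of_injective ψ.toHomUnits (by
    intro a b hab
    apply hψi
    have h2 := congrArg (fun u : Fˣ => (u : F)) hab
    exact h2)
  rwa [Nat.card_units] at h1

/-- if the field is as large as `V`, then `A` is irreducible -/
theorem hup_irred_of_card (H : Subgroup (V ≃ₗ[ZMod p] V)) (A : Subgroup H) {F : Type u}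
    [Field F] [Finite F] (ι : F →+* Module.End (ZMod p) V)
    (hinv : ∀ W : Submodule (ZMod p) V, (∀ a ∈ A, ∀ v ∈ W, linRho H a v ∈ W) →
      ∀ x, ∀ v ∈ W, ι x v ∈ W)
    (hcard : Nat.card F = Nat.card V) :
    ∀ W : Submodule (ZMod p) V,
      (∀ a ∈ A, ∀ v ∈ W, ((a : H) : V ≃ₗ[ZMod p] V) v ∈ W) → W = ⊥ ∨ W = ⊤ := by
  intro W hW
  by_cases hbot : W = ⊥
  · left; exact hbot
  · right
    obtain ⟨w, hwW, hw0⟩ := (Submodule.ne_bot_iff W).mp hbot
    have hinj : Function.Injective (fun x : F => ι x w) := by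
      intro x y hxy
      by_contra hne
      have h1 : ι (x - y) w = 0 := by
        rw [map_sub, LinearMap.sub_apply]
        exact sub_eq_zero.mpr hxy
      have h2 : ι ((x - y)⁻¹) (ι (x - y) w) = w := by
        rw [← Module.End.mul_apply, ← map_mul, inv_mul_cancel₀ (sub_ne_zero.mpr hne), map_one,
          Module.End.one_apply]
      rw [h1, map_zero] at h2
      exact hw0 h2.symm
    have hbij : Function.Bijective (fun x : F => ι x w) :=
      (Nat.bijective_iff_injective_and_card _).mpr ⟨hinj, hcard⟩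
    rw [eq_top_iff]
    intro v _
    obtain ⟨x, rfl⟩ := hbij.2 v
    exact hinv W (fun a ha v hv => hW a ha v hv) x w hwW

/-- the `d`-th power of any element centralises `A`, where `|F| = p ^ d` -/
theorem hup_pow_centralizes (H : Subgroup (V ≃ₗ[ZMod p] V)) (A : Subgroup H) {F : Type u}
    [Field F] [Finite F] (ι : F →+* Module.End (ZMod p) V) (hι : Function.Injective ι)
    (hA : ∀ a ∈ A, ∃ x, ι x = linRho H a)
    (hconj : ∀ (h : H) (x : F), ∃ y, ι y = linRho H h * ι x * linRho H h⁻¹)
    {d : ℕ} (hd : Nat.card F = p ^ d) (h : H) : ∀ a ∈ A, h ^ d * a = a * h ^ d := by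
  have hp : p.Prime := Fact.out
  have h1 : linRho H h * linRho H h⁻¹ = 1 := by rw [← map_mul, mul_inv_cancel, map_one]
  have h2 : linRho H h⁻¹ * linRho H h = 1 := by rw [← map_mul, inv_mul_cancel, map_one]
  have hu' : ∀ x, ∃ y, ι y = linRho H h⁻¹ * ι x * linRho H h := fun x => by
    have h3 := hconj h⁻¹ x
    rwa [inv_inv] at h3
  obtain ⟨τ, hτ⟩ : ∃ τ : F ≃+* F, ∀ x, ι (τ x) = linRho H h * ι x * linRho H h⁻¹ :=
    ⟨conjRingEquivOfRange ι hι (linRho H h) (linRho H h⁻¹) h1 h2 (hconj h) hu',
      conjRingEquivOfRange_spec ι hι _ _ h1 h2 (hconj h) hu'⟩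
  have hτd : τ ^ d = 1 := by
    have h3 := pow_card_eq_one' (G := F ≃+* F) (x := τ)
    rwa [hup_card_ringAut F hp hd] at h3
  have hpow : ∀ k : ℕ, ∀ x, ι ((τ ^ k) x) = linRho H (h ^ k) * ι x * linRho H (h ^ k)⁻¹ := by
    intro k
    induction k with
    | zero =>
      intro x
      rw [pow_zero, pow_zero, inv_one, map_one, one_mul, mul_one]
      rfl
    | succ k ih =>
      intro x
      rw [pow_succ' τ k, RingAut.mul_apply, hτ, ih, pow_succ' h k, mul_inv_rev, map_mul, map_mul]
      simp only [mul_assoc]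
  intro a ha
  obtain ⟨x, hx⟩ := hA a ha
  have h3 := hpow d x
  rw [hτd, RingAut.one_apply, hx] at h3
  have h4 : linRho H a = linRho H (h ^ d * a * (h ^ d)⁻¹) := by
    rw [map_mul, map_mul]; exact h3
  have h5 := hup_linRho_injective H h4
  calc h ^ d * a = (h ^ d * a * (h ^ d)⁻¹) * h ^ d := by group
    _ = a * h ^ d := by rw [← h5]

/-- **The index bound**: `|E : A| * d ≤ (dim V)²`. -/
theorem hup_index_bound (H : Subgroup (V ≃ₗ[ZMod p] V)) (A E : Subgroup H) {F : Type u}
    [Field F] [Finite F] (ι : F →+* Module.End (ZMod p) V) (hι : Function.Injective ι)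
    (hA : ∀ a ∈ A, ∃ x, ι x = linRho H a)
    (hdc : ∀ f : Module.End (ZMod p) V, (∀ a ∈ A, f * linRho H a = linRho H a * f) →
      ∀ x, f * ι x = ι x * f)
    (hAE : A ≤ E) (hcent : ∀ a ∈ A, ∀ x ∈ E, a * x = x * a)
    (hcomm : ∀ x ∈ E, ∀ y ∈ E, x * y * x⁻¹ * y⁻¹ ∈ A)
    (hZ : ∀ x ∈ E, (∀ y ∈ E, x * y = y * x) → x ∈ A)
    {d : ℕ} (hd : Nat.card F = p ^ d) :
    Nat.card E * d ≤ Nat.card A * (Module.finrank (ZMod p) V) ^ 2 := by
  classical
  have hp : p.Prime := Fact.out
  haveI : Finite (V ≃ₗ[ZMod p] V) := finite_linEquiv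
  haveI : Finite (Module.End (ZMod p) V) :=
    Finite.of_injective (fun f : Module.End (ZMod p) V => (f : V → V)) DFunLike.coe_injective
  letI : Module F (Module.End (ZMod p) V) := Module.compHom (Module.End (ZMod p) V) ι
  have hsmul : ∀ (c : F) (T : Module.End (ZMod p) V), c • T = ι c * T := fun c T => rfl
  -- the twist maps
  let Φ : E → (Module.End (ZMod p) V →ₗ[F] Module.End (ZMod p) V) := fun y =>
    { toFun := fun S => linRho H (y : H) * S * linRho H ((y : H)⁻¹)
      map_add' := fun S S' => by rw [mul_add, add_mul]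
      map_smul' := fun c S => by
        show linRho H (y : H) * (ι c * S) * linRho H ((y : H)⁻¹) =
          ι c * (linRho H (y : H) * S * linRho H ((y : H)⁻¹))
        have hc : linRho H (y : H) * ι c = ι c * linRho H (y : H) :=
          hdc _ (fun a ha => by rw [← map_mul, ← map_mul, hcent a ha y y.2]) c
        rw [← mul_assoc, hc]
        simp only [mul_assoc] }
  have hΦapp : ∀ (y : E) (S : Module.End (ZMod p) V),
      Φ y S = linRho H (y : H) * S * linRho H ((y : H)⁻¹) := fun _ _ => rfl
  -- the characters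
  have hχex : ∀ (y : E) (q : ↥E ⧸ (A.subgroupOf E)), ∃ c : F,
      ι c = linRho H ((y : H) * ((Quotient.out q : E) : H) * (y : H)⁻¹ *
        ((Quotient.out q : E) : H)⁻¹) :=
    fun y q => hA _ (hcomm (y : H) y.2 _ (Quotient.out q : E).2)
  have hli : LinearIndependent F
      (fun q : ↥E ⧸ (A.subgroupOf E) => linRho H ((Quotient.out q : E) : H)) := by
    apply hup_indep_twist _ _ Φ (fun y q => Classical.choose (hχex y q))
    · intro y q
      rw [hΦapp, hsmul, Classical.choose_spec (hχex y q), ← map_mul, ← map_mul, ← map_mul]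
      congr 1
      group
    · intro q q' hqq'
      by_contra hcon
      push_neg at hcon
      apply hqq'
      have hmem : ((Quotient.out q : E) : H)⁻¹ * ((Quotient.out q' : E) : H) ∈ A := by
        apply hZ _ (E.mul_mem (E.inv_mem (Quotient.out q : E).2) (Quotient.out q' : E).2)
        intro y hy
        have h1 := hcon ⟨y, hy⟩
        have h2 : linRho H (y * ((Quotient.out q : E) : H) * y⁻¹ *
            ((Quotient.out q : E) : H)⁻¹) = linRho H (y * ((Quotient.out q' : E) : H) * y⁻¹ *
            ((Quotient.out q' : E) : H)⁻¹) := by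
          rw [← Classical.choose_spec (hχex ⟨y, hy⟩ q), ← Classical.choose_spec (hχex ⟨y, hy⟩ q'),
            h1]
        have h3 := hup_linRho_injective H h2
        have e1 : y * ((Quotient.out q : E) : H) * y⁻¹ =
            (y * ((Quotient.out q : E) : H) * y⁻¹ * ((Quotient.out q : E) : H)⁻¹) *
              ((Quotient.out q : E) : H) := by group
        have e2 : y * ((Quotient.out q' : E) : H) * y⁻¹ =
            (y * ((Quotient.out q : E) : H) * y⁻¹ * ((Quotient.out q : E) : H)⁻¹) *
              ((Quotient.out q' : E) : H) := by rw [h3]; group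
        calc ((Quotient.out q : E) : H)⁻¹ * ((Quotient.out q' : E) : H) * y
            = ((y * ((Quotient.out q : E) : H) * y⁻¹ * ((Quotient.out q : E) : H)⁻¹) *
                ((Quotient.out q : E) : H))⁻¹ *
              ((y * ((Quotient.out q : E) : H) * y⁻¹ * ((Quotient.out q : E) : H)⁻¹) *
                ((Quotient.out q' : E) : H)) * y := by group
          _ = (y * ((Quotient.out q : E) : H) * y⁻¹)⁻¹ *
              (y * ((Quotient.out q' : E) : H) * y⁻¹) * y := by rw [← e1, ← e2]
          _ = y * (((Quotient.out q : E) : H)⁻¹ * ((Quotient.out q' : E) : H)) := by group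
      have h4 : (Quotient.out q : E)⁻¹ * (Quotient.out q' : E) ∈ A.subgroupOf E := by
        rw [Subgroup.mem_subgroupOf]
        exact hmem
      have h5 := (QuotientGroup.eq (s := A.subgroupOf E)).mpr h4
      rw [QuotientGroup.out_eq', QuotientGroup.out_eq'] at h5
      exact h5
    · intro q c hc
      rw [hsmul] at hc
      have h1 : ι c = ι c * linRho H ((Quotient.out q : E) : H) *
          linRho H (((Quotient.out q : E) : H)⁻¹) := by
        rw [mul_assoc, ← map_mul, mul_inv_cancel, map_one, mul_one]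
      rw [hc, zero_mul] at h1
      exact hι (h1.trans (map_zero ι).symm)
  haveI : Fintype (↥E ⧸ (A.subgroupOf E)) := Fintype.ofFinite _
  have h1 := hli.fintype_card_le_finrank
  rw [← Nat.card_eq_fintype_card] at h1
  -- the dimension of `End V` over `F`
  have h2 := Module.natCard_eq_pow_finrank (K := F) (V := Module.End (ZMod p) V)
  have h3 := Module.natCard_eq_pow_finrank (K := ZMod p) (V := Module.End (ZMod p) V)
  rw [Nat.card_zmod] at h3
  have h4 : Module.finrank (ZMod p) (Module.End (ZMod p) V) =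
      Module.finrank (ZMod p) V * Module.finrank (ZMod p) V :=
    Module.finrank_linearMap (ZMod p) (ZMod p) V V
  rw [h2, hd, ← pow_mul, h4] at h3
  have h5 : d * Module.finrank F (Module.End (ZMod p) V) =
      Module.finrank (ZMod p) V * Module.finrank (ZMod p) V :=
    Nat.pow_right_injective hp.two_le h3
  -- the index
  have h6 := Subgroup.card_eq_card_quotient_mul_card_subgroup (A.subgroupOf E)
  have h7 : Nat.card (A.subgroupOf E) = Nat.card A :=
    Nat.card_congr (Subgroup.subgroupOfEquivOfLe hAE).toEquiv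
  rw [h7] at h6
  calc Nat.card E * d = Nat.card (↥E ⧸ (A.subgroupOf E)) * Nat.card A * d := by rw [h6]
    _ ≤ Module.finrank F (Module.End (ZMod p) V) * Nat.card A * d :=
        Nat.mul_le_mul_right _ (Nat.mul_le_mul_right _ h1)
    _ = Nat.card A * (d * Module.finrank F (Module.End (ZMod p) V)) := by ring
    _ = Nat.card A * (Module.finrank (ZMod p) V) ^ 2 := by rw [h5]; ring

end HupField2

end Cfsg.Agent.Helper12
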