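import Mathlib
import Cfsg.Agent.Helper12.HupCrit
import Cfsg.Agent.Helper12.HupField2

set_option autoImplicit false

/-!
# Huppert's theorem: the argument with a primitive prime divisor
-/

namespace Cfsg.Agent.Helper12

universe u

theorem hup_ppd_not_dvd (p ℓ n : ℕ) (hp : p.Prime) (hℓ : ℓ.Prime) (hn : 1 ≤ n)
    (hdvd : ℓ ∣ p ^ n - 1) : ¬ ℓ ∣ p := by
  intro h
  have h1 : ℓ ∣ p ^ n := dvd_pow h (by omega)
  have h2 : 1 ≤ p ^ n := Nat.one_le_pow _ _ hp.pos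
  have h3 : ℓ ∣ p ^ n - (p ^ n - 1) := Nat.dvd_sub h1 hdvd
  have h4 : p ^ n - (p ^ n - 1) = 1 := by omega
  rw [h4] at h3
  exact hℓ.one_lt.ne' (Nat.dvd_one.mp h3)

theorem hup_ppd_pow (p ℓ n j k : ℕ) (hp : p.Prime) (hℓ : ℓ.Prime) (hdvd : ℓ ∣ p ^ n - 1)
    (hn : 1 ≤ n) (hprim : ∀ i, 0 < i → i < n → ¬ ℓ ∣ p ^ i - 1) (hkj : k ≤ j) (hjn : j ≤ n)
    (hmod : p ^ j ≡ p ^ k [MOD ℓ]) : j = k ∨ (j = n ∧ k = 0) := by
  have hℓp := hup_ppd_not_dvd p ℓ n hp hℓ hn hdvd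
  by_cases hjk : j = k
  · left; exact hjk
  · right
    have hlt : k < j := lt_of_le_of_ne hkj (Ne.symm hjk)
    have h1 : ℓ ∣ p ^ j - p ^ k :=
      (Nat.modEq_iff_dvd' (Nat.pow_le_pow_right hp.pos hkj)).mp hmod.symm
    have h2 : p ^ j - p ^ k = p ^ k * (p ^ (j - k) - 1) := by
      have h3 : p ^ j = p ^ k * p ^ (j - k) := by rw [← pow_add]; congr 1; omega
      rw [h3, Nat.mul_sub, mul_one]
    rw [h2] at h1
    have h3 : ℓ ∣ p ^ (j - k) - 1 :=
      (hℓ.dvd_mul.mp h1).resolve_left (fun h => hℓp (hℓ.dvd_of_dvd_pow h))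
    by_contra hcon
    have h4 : j - k < n := by omega
    exact hprim (j - k) (by omega) h4 h3

/-- a primitive prime divisor of `p ^ n - 1` exceeds `n` -/
theorem hup_ppd_gt (p ℓ n : ℕ) (hp : p.Prime) (hℓ : ℓ.Prime) (hn : 1 ≤ n)
    (hdvd : ℓ ∣ p ^ n - 1) (hprim : ∀ i, 0 < i → i < n → ¬ ℓ ∣ p ^ i - 1) : n + 1 ≤ ℓ := by
  by_contra hcon
  push_neg at hcon
  have hℓp := hup_ppd_not_dvd p ℓ n hp hℓ hn hdvd
  have hcop : Nat.Coprime p ℓ := ((Nat.Prime.coprime_iff_not_dvd hℓ).mpr hℓp).symm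
  have h1 := Nat.ModEq.pow_totient hcop
  rw [Nat.totient_prime hℓ] at h1
  have h2 : ℓ ∣ p ^ (ℓ - 1) - 1 :=
    (Nat.modEq_iff_dvd' (Nat.one_le_pow _ _ hp.pos)).mp h1.symm
  have h3 := hℓ.two_le
  exact hprim (ℓ - 1) (by omega) (by omega) h2

section HupFlow

variable {p : ℕ} [Fact p.Prime] {V : Type u} [AddCommGroup V] [Module (ZMod p) V] [Finite V]
  [Nontrivial V]

/-- fixed points of a linear map of prime order on an invariant subspace -/
theorem hup_lin_fixed_modEq (g : V ≃ₗ[ZMod p] V) (ℓ : ℕ) [Fact ℓ.Prime] (hg : g ^ ℓ = 1)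
    (W : Submodule (ZMod p) V) (hW : ∀ v ∈ W, g v ∈ W) :
    Nat.card W ≡
      Nat.card ↥(W ⊓ LinearMap.ker ((g : V →ₗ[ZMod p] V) - LinearMap.id)) [MOD ℓ] := by
  classical
  haveI : Fintype W := Fintype.ofFinite W
  obtain ⟨f, hfdef⟩ : ∃ f : Function.End W, ∀ w : W, ((f w : W) : V) = g w.1 :=
    ⟨fun w => ⟨g w.1, hW w.1 w.2⟩, fun _ => rfl⟩
  have hk : ∀ k : ℕ, ∀ w : W, (((f ^ k) w : W) : V) = (g ^ k) w.1 := by
    intro k
    induction k with
    | zero => intro w; rfl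
    | succ k ih =>
      intro w
      rw [pow_succ', pow_succ']
      show ((f ((f ^ k) w) : W) : V) = g ((g ^ k) w.1)
      rw [hfdef, ih]
  have hf : f ^ ℓ ^ 1 = 1 := by
    rw [pow_one]
    funext w
    apply Subtype.ext
    rw [hk ℓ w, hg]
    rfl
  have h := Equiv.Perm.card_fixedPoints_modEq hf
  have e : ↥(W ⊓ LinearMap.ker ((g : V →ₗ[ZMod p] V) - LinearMap.id)) ≃
      ↥(Function.fixedPoints f) :=
    { toFun := fun z => ⟨⟨z.1, (Submodule.mem_inf.mp z.2).1⟩, by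
        have h1 := (Submodule.mem_inf.mp z.2).2
        rw [LinearMap.mem_ker, LinearMap.sub_apply, LinearMap.id_apply] at h1
        show f _ = _
        apply Subtype.ext
        rw [hfdef]
        exact sub_eq_zero.mp h1⟩
      invFun := fun w => ⟨w.1.1, Submodule.mem_inf.mpr ⟨w.1.2, by
        have h1 : f w.1 = w.1 := w.2
        have h2 := congrArg (fun x : W => (x : V)) h1
        rw [LinearMap.mem_ker, LinearMap.sub_apply, LinearMap.id_apply]
        have h3 : g (w.1 : V) = (w.1 : V) := by rw [← hfdef]; exact h2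
        exact sub_eq_zero.mpr h3⟩⟩
      left_inv := fun z => rfl
      right_inv := fun w => rfl }
  rw [Nat.card_congr e, Nat.card_eq_fintype_card, Nat.card_eq_fintype_card]
  convert h

/-- An element of prime order `ℓ`, `ℓ` a primitive prime divisor of `p ^ n - 1`, is
irreducible. -/
theorem hup_irred_of_ppd (g : V ≃ₗ[ZMod p] V) (ℓ : ℕ) [hℓf : Fact ℓ.Prime] (hg : g ^ ℓ = 1)
    (hg1 : g ≠ 1) (hdvd : ℓ ∣ p ^ Module.finrank (ZMod p) V - 1)
    (hprim : ∀ i, 0 < i → i < Module.finrank (ZMod p) V → ¬ ℓ ∣ p ^ i - 1) :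
    ∀ W : Submodule (ZMod p) V, (∀ v ∈ W, g v ∈ W) → W = ⊥ ∨ W = ⊤ := by
  have hp : p.Prime := Fact.out
  have hcard : ∀ W : Submodule (ZMod p) V, Nat.card W = p ^ Module.finrank (ZMod p) W :=
    fun W => by rw [Module.natCard_eq_pow_finrank (K := ZMod p), Nat.card_zmod]
  have hn : 1 ≤ Module.finrank (ZMod p) V := Module.finrank_pos
  have hfin : ∀ W : Submodule (ZMod p) V,
      Module.finrank (ZMod p) W ≤ Module.finrank (ZMod p) V := fun W => Submodule.finrank_le W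
  have hfix0 : LinearMap.ker ((g : V →ₗ[ZMod p] V) - LinearMap.id) = ⊥ := by
    have h1 := hup_lin_fixed_modEq g ℓ hg ⊤ (fun v _ => Submodule.mem_top)
    rw [top_inf_eq, hcard, hcard, finrank_top] at h1
    rcases hup_ppd_pow p ℓ _ _ _ hp hℓf.out hdvd hn hprim (hfin _) (le_refl _) h1 with
      h2 | ⟨_, h2⟩
    · exfalso
      apply hg1
      have h3 : LinearMap.ker ((g : V →ₗ[ZMod p] V) - LinearMap.id) = ⊤ :=
        Submodule.eq_top_of_finrank_eq h2.symm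
      apply LinearEquiv.ext
      intro v
      have h4 : v ∈ LinearMap.ker ((g : V →ₗ[ZMod p] V) - LinearMap.id) := by rw [h3]; trivial
      rw [LinearMap.mem_ker, LinearMap.sub_apply, LinearMap.id_apply] at h4
      exact sub_eq_zero.mp h4
    · exact Submodule.finrank_eq_zero.mp h2
  intro W hW
  have h1 := hup_lin_fixed_modEq g ℓ hg W hW
  rw [hfix0, inf_bot_eq, hcard, hcard, finrank_bot] at h1
  rcases hup_ppd_pow p ℓ _ _ _ hp hℓf.out hdvd hn hprim (Nat.zero_le _) (hfin W) h1 with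
    h2 | ⟨h2, _⟩
  · left; exact Submodule.finrank_eq_zero.mp h2
  · right; exact Submodule.eq_top_of_finrank_eq h2

theorem hup_elt_irred (H : Subgroup (V ≃ₗ[ZMod p] V)) (g : H) (ℓ : ℕ) [hℓf : Fact ℓ.Prime]
    (hg : orderOf g = ℓ) (hdvd : ℓ ∣ p ^ Module.finrank (ZMod p) V - 1)
    (hprim : ∀ i, 0 < i → i < Module.finrank (ZMod p) V → ¬ ℓ ∣ p ^ i - 1) :
    ∀ W : Submodule (ZMod p) V, (∀ v ∈ W, (g : V ≃ₗ[ZMod p] V) v ∈ W) → W = ⊥ ∨ W = ⊤ := by
  apply hup_irred_of_ppd (g : V ≃ₗ[ZMod p] V) ℓ _ _ hdvd hprim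
  · have h1 : g ^ ℓ = 1 := by rw [← hg]; exact pow_orderOf_eq_one g
    have h2 := congrArg (fun x : H => (x : V ≃ₗ[ZMod p] V)) h1
    simpa using h2
  · intro h1
    have h2 : g = 1 := Subtype.ext h1
    rw [h2, orderOf_one] at hg
    exact hℓf.out.one_lt.ne hg

/-- a transitive group has order divisible by `|V| - 1` -/
theorem hup_card_sub_one_dvd (H : Subgroup (V ≃ₗ[ZMod p] V))
    (htrans : ∀ v w : V, v ≠ 0 → w ≠ 0 → ∃ h : H, (h : V ≃ₗ[ZMod p] V) v = w) :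
    Nat.card V - 1 ∣ Nat.card H := by
  letI : MulAction H {w : V // w ≠ 0} :=
    { smul := fun h x => ⟨(h : V ≃ₗ[ZMod p] V) x.1, fun h0 =>
        x.2 ((LinearEquiv.map_eq_zero_iff _).mp h0)⟩
      one_smul := fun x => Subtype.ext rfl
      mul_smul := fun c d x => Subtype.ext rfl }
  haveI : MulAction.IsPretransitive H {w : V // w ≠ 0} := ⟨fun x y => by
    obtain ⟨h, hh⟩ := htrans x.1 y.1 x.2 y.2
    exact ⟨h, Subtype.ext hh⟩⟩
  obtain ⟨v0, hv0⟩ := exists_ne (0 : V)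
  have h1 := MulAction.index_stabilizer_of_transitive H (⟨v0, hv0⟩ : {w : V // w ≠ 0})
  rw [card_ne_zero_subtype] at h1
  rw [← h1]
  exact Subgroup.index_dvd_card _

/-- no abelian normal subgroup has order divisible by a primitive prime divisor, unless it is
irreducible -/
theorem hup_ell_not_dvd (H : Subgroup (V ≃ₗ[ZMod p] V)) (A : Subgroup H)
    (hAirr : ¬ (∀ W : Submodule (ZMod p) V,
      (∀ a ∈ A, ∀ v ∈ W, ((a : H) : V ≃ₗ[ZMod p] V) v ∈ W) → W = ⊥ ∨ W = ⊤))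
    (ℓ : ℕ) [hℓf : Fact ℓ.Prime] (hdvd : ℓ ∣ p ^ Module.finrank (ZMod p) V - 1)
    (hprim : ∀ i, 0 < i → i < Module.finrank (ZMod p) V → ¬ ℓ ∣ p ^ i - 1) :
    ¬ ℓ ∣ Nat.card A := by
  haveI : Finite (V ≃ₗ[ZMod p] V) := finite_linEquiv
  intro hℓA
  obtain ⟨a, ha⟩ := exists_prime_orderOf_dvd_card' ℓ hℓA
  apply hAirr
  intro W hW
  apply hup_elt_irred H (a : H) ℓ (by rw [Subgroup.orderOf_coe]; exact ha) hdvd hprim W
  intro v hv
  exact hW a a.2 v hv

/-- **The flow**: structure forced by an element `g` of order a primitive prime divisor. -/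
theorem hup_flow (H : Subgroup (V ≃ₗ[ZMod p] V)) (A E : Subgroup H) (hAn : A.Normal)
    (hAirr : ¬ (∀ W : Submodule (ZMod p) V,
      (∀ a ∈ A, ∀ v ∈ W, ((a : H) : V ≃ₗ[ZMod p] V) v ∈ W) → W = ⊥ ∨ W = ⊤))
    (hEn : E.Normal) (hAE : A ≤ E) (hcent : ∀ a ∈ A, ∀ x ∈ E, a * x = x * a)
    (hcomm : ∀ x ∈ E, ∀ y ∈ E, x * y * x⁻¹ * y⁻¹ ∈ A)
    (hZ : ∀ x ∈ E, (∀ y ∈ E, x * y = y * x) → x ∈ A)
    (hC : ∀ h : H, (∀ y ∈ E, h * y = y * h) → h ∈ A)
    {F : Type u} [Field F] [Finite F] (ι : F →+* Module.End (ZMod p) V)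
    (hι : Function.Injective ι) (hA : ∀ a ∈ A, ∃ x, ι x = linRho H a)
    (hconj : ∀ (h : H) (x : F), ∃ y, ι y = linRho H h * ι x * linRho H h⁻¹)
    (hdc : ∀ f : Module.End (ZMod p) V, (∀ a ∈ A, f * linRho H a = linRho H a * f) →
      ∀ x, f * ι x = ι x * f)
    {d : ℕ} (hd : Nat.card F = p ^ d) (hd1 : 1 ≤ d) (hdn : d ≤ Module.finrank (ZMod p) V)
    (ℓ : ℕ) [hℓf : Fact ℓ.Prime] (hdvd : ℓ ∣ p ^ Module.finrank (ZMod p) V - 1)
    (hprim : ∀ i, 0 < i → i < Module.finrank (ZMod p) V → ¬ ℓ ∣ p ^ i - 1)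
    (g : H) (hg : orderOf g = ℓ) :
    d = 1 ∧ ℓ = Module.finrank (ZMod p) V + 1 ∧
      Nat.card E = Nat.card A * (Module.finrank (ZMod p) V) ^ 2 ∧
      (∀ x ∈ E, g * x = x * g → x ∈ A) := by
  have hp : p.Prime := Fact.out
  have hℓ : ℓ.Prime := hℓf.out
  haveI : Finite (V ≃ₗ[ZMod p] V) := finite_linEquiv
  have hn : 1 ≤ Module.finrank (ZMod p) V := Module.finrank_pos
  have hℓA := hup_ell_not_dvd H A hAirr ℓ hdvd hprim
  have hℓE : ¬ ℓ ∣ Nat.card E := fun h => hℓA (hup_prime_dvd E A hcent hcomm hZ ℓ h)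
  have hℓn := hup_ppd_gt p ℓ _ hp hℓ hn hdvd hprim
  have hgℓ : g ^ ℓ = 1 := by rw [← hg]; exact pow_orderOf_eq_one g
  -- `g` centralises `A`
  have hgA : ∀ a ∈ A, g * a = a * g := by
    intro a ha
    have hcop : Nat.Coprime d (orderOf g) := by
      rw [hg]
      exact ((Nat.Prime.coprime_iff_not_dvd hℓ).mpr (fun h => by
        have h1 := Nat.le_of_dvd (by omega) h
        omega)).symm
    obtain ⟨m, hm⟩ := exists_pow_eq_self_of_coprime hcop
    have h1 : Commute (g ^ d) a := hup_pow_centralizes H A ι hι hA hconj hd g a ha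
    have h2 : Commute ((g ^ d) ^ m) a := h1.pow_left m
    rw [hm] at h2
    exact h2.eq
  obtain ⟨hcyc, -⟩ := hup_card_A_dvd H A ι hι hA
  rcases hup_flow_group E A hEn hAE hcyc hcent hcomm hZ g ℓ hgℓ hgA hℓE with h | ⟨s, hs, hsl, hsA⟩
  · exfalso
    have hgA' : g ∈ A := hC g h
    have h1 := Subgroup.orderOf_dvd_natCard A hgA'
    rw [hg] at h1
    exact hℓA h1
  · have hb := hup_index_bound H A E ι hι hA hdc hAE hcent hcomm hZ hd
    rw [hs] at hb
    have hApos : 0 < Nat.card A := Nat.card_pos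
    have hb' : s ^ 2 * d ≤ (Module.finrank (ZMod p) V) ^ 2 := by
      have h1 : Nat.card A * (s ^ 2 * d) ≤ Nat.card A * (Module.finrank (ZMod p) V) ^ 2 := by
        calc Nat.card A * (s ^ 2 * d) = Nat.card A * s ^ 2 * d := by ring
          _ ≤ _ := hb
      exact Nat.le_of_mul_le_mul_left h1 hApos
    have hns : Module.finrank (ZMod p) V ≤ s := by omega
    have hsq : (Module.finrank (ZMod p) V) ^ 2 ≤ s ^ 2 := Nat.pow_le_pow_left hns 2
    have hspos : 0 < s ^ 2 := by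
      have h1 : 0 < s := by omega
      positivity
    have hd1' : d = 1 := by
      by_contra hne
      have h2 : 2 ≤ d := by omega
      have h3 : s ^ 2 * 2 ≤ s ^ 2 * d := Nat.mul_le_mul_left _ h2
      omega
    have hsn : s ≤ Module.finrank (ZMod p) V := by
      by_contra hcon
      push_neg at hcon
      have h4 := Nat.pow_lt_pow_left hcon (by norm_num : 2 ≠ 0)
      rw [hd1', mul_one] at hb'
      omega
    have hseq : s = Module.finrank (ZMod p) V := le_antisymm hsn hns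
    refine ⟨hd1', by omega, by rw [hs, hseq], hsA (by omega)⟩

end HupFlow

end Cfsg.Agent.Helper12
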