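import Mathlib
import Cfsg.Agent.Helper1.Hall
import Cfsg.Agent.Helper12.HupFlow
import Cfsg.Agent.Helper12.SharpK

set_option autoImplicit false

/-!
# No solvable linear group of degree 4 over the field with 3 elements has order divisible by 65
-/

namespace Cfsg.Agent.Helper12

section Ex81

/-- the linear automorphisms of a space with a basis form the general linear group -/
noncomputable def linEquivGL {K V : Type*} [Field K] [AddCommGroup V] [Module K V] {n : ℕ}
    (b : Module.Basis (Fin n) K V) :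
    (V ≃ₗ[K] V) ≃* Matrix.GeneralLinearGroup (Fin n) K :=
  (LinearMap.GeneralLinearGroup.generalLinearEquiv K V).symm.trans
    (Units.mapEquiv (LinearMap.toMatrixAlgEquiv b).toMulEquiv)

variable {V : Type*} [AddCommGroup V] [Module (ZMod 3) V] [Finite V]

theorem finrank_eq_four_of_card (hV : Nat.card V = 81) : Module.finrank (ZMod 3) V = 4 := by
  have h1 := Module.natCard_eq_pow_finrank (K := ZMod 3) (V := V)
  rw [hV, Nat.card_zmod] at h1
  exact (Nat.pow_right_injective (by norm_num : 2 ≤ 3)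
    (h1.symm.trans (by norm_num : (81:ℕ) = 3 ^ 4)))

theorem card_linEquiv_81 (hV : Nat.card V = 81) :
    Nat.card (V ≃ₗ[ZMod 3] V) = 24261120 := by
  have b := Module.finBasisOfFinrankEq (ZMod 3) V (finrank_eq_four_of_card hV)
  rw [Nat.card_congr (linEquivGL b).toEquiv, Matrix.card_GL_field]
  simp [Fin.prod_univ_four]

theorem card_submodule_81 (hV : Nat.card V = 81) (U : Submodule (ZMod 3) V) :
    ∃ j : ℕ, j ≤ 4 ∧ Nat.card U = 3 ^ j ∧ (j = 0 → U = ⊥) ∧ (j = 4 → U = ⊤) := by
  refine ⟨Module.finrank (ZMod 3) U, ?_, ?_, ?_, ?_⟩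
  · rw [← finrank_eq_four_of_card hV]
    exact Submodule.finrank_le U
  · have h1 := Module.natCard_eq_pow_finrank (K := ZMod 3) (V := U)
    rw [Nat.card_zmod] at h1
    exact h1
  · intro h
    exact Submodule.finrank_eq_zero.mp h
  · intro h
    apply Submodule.eq_top_of_finrank_eq
    rw [h, finrank_eq_four_of_card hV]

theorem nontrivial_of_card_81 (hV : Nat.card V = 81) : Nontrivial V := by
  apply Finite.one_lt_card_iff_nontrivial.mp
  rw [hV]
  norm_num

theorem fix_eq_top_iff (g : V ≃ₗ[ZMod 3] V)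
    (h : LinearMap.ker ((g : V →ₗ[ZMod 3] V) - LinearMap.id) = ⊤) : g = 1 := by
  apply LinearEquiv.ext
  intro v
  have hv : v ∈ LinearMap.ker ((g : V →ₗ[ZMod 3] V) - LinearMap.id) := by
    rw [h]; trivial
  rw [LinearMap.mem_ker] at hv
  have h2 : g v - v = 0 := hv
  exact sub_eq_zero.mp h2

theorem fix5 (hV : Nat.card V = 81) (g : V ≃ₗ[ZMod 3] V) (hg : g ^ 5 = 1) (hg1 : g ≠ 1) :
    LinearMap.ker ((g : V →ₗ[ZMod 3] V) - LinearMap.id) = ⊥ := by
  haveI : Fact (Nat.Prime 5) := ⟨by norm_num⟩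
  haveI := nontrivial_of_card_81 hV
  have h := hup_lin_fixed_modEq g 5 hg ⊤ (fun v _ => trivial)
  rw [top_inf_eq, Nat.card_congr (Submodule.topEquiv (R := ZMod 3) (M := V)).toEquiv, hV] at h
  obtain ⟨j, hj, hc, h0, h4⟩ := card_submodule_81 hV
    (LinearMap.ker ((g : V →ₗ[ZMod 3] V) - LinearMap.id))
  rw [hc] at h
  interval_cases j
  · exact h0 rfl
  · exact absurd h (by decide)
  · exact absurd h (by decide)
  · exact absurd h (by decide)
  · exact absurd (fix_eq_top_iff g (h4 rfl)) hg1

theorem fix13 (hV : Nat.card V = 81) (g : V ≃ₗ[ZMod 3] V) (hg : g ^ 13 = 1) (hg1 : g ≠ 1) :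
    Nat.card (LinearMap.ker ((g : V →ₗ[ZMod 3] V) - LinearMap.id)) = 3 := by
  haveI : Fact (Nat.Prime 13) := ⟨by norm_num⟩
  haveI := nontrivial_of_card_81 hV
  have h := hup_lin_fixed_modEq g 13 hg ⊤ (fun v _ => trivial)
  rw [top_inf_eq, Nat.card_congr (Submodule.topEquiv (R := ZMod 3) (M := V)).toEquiv, hV] at h
  obtain ⟨j, hj, hc, h0, h4⟩ := card_submodule_81 hV
    (LinearMap.ker ((g : V →ₗ[ZMod 3] V) - LinearMap.id))
  rw [hc] at h
  interval_cases j
  · exact absurd h (by decide)
  · rw [hc]; norm_num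
  · exact absurd h (by decide)
  · exact absurd h (by decide)
  · exact absurd (fix_eq_top_iff g (h4 rfl)) hg1

/-- a group of order 65 has commuting elements of orders 13 and 5 -/
theorem exists_commute_of_card_65 {H : Type*} [Group H] [Finite H] (hH : Nat.card H = 65) :
    ∃ x y : H, x ≠ 1 ∧ x ^ 13 = 1 ∧ y ≠ 1 ∧ y ^ 5 = 1 ∧ y * x = x * y := by
  classical
  haveI : Fact (Nat.Prime 13) := ⟨by norm_num⟩
  haveI : Fact (Nat.Prime 5) := ⟨by norm_num⟩
  obtain ⟨S⟩ : Nonempty (Sylow 13 H) := inferInstance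
  have hScard : Nat.card S = 13 := by
    rw [Sylow.card_eq_multiplicity, hH]
    have h5 : Nat.factorization 5 13 = 0 := Nat.factorization_eq_zero_of_not_dvd (by norm_num)
    have h13 : Nat.factorization 13 13 = 1 := Nat.Prime.factorization_self (by norm_num)
    have : Nat.factorization 65 13 = 1 := by
      rw [show (65:ℕ) = 5 * 13 by norm_num, Nat.factorization_mul (by norm_num) (by norm_num),
        Finsupp.add_apply, h5, h13]
    rw [this, pow_one]
  have hidx : (S : Subgroup H).index = 5 := by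
    have h := Subgroup.card_mul_index (S : Subgroup H)
    rw [hScard, hH] at h
    omega
  have hn1 : Nat.card (Sylow 13 H) = 1 := by
    have h1 := card_sylow_modEq_one 13 H
    have h2 := Sylow.card_dvd_index S
    rw [hidx] at h2
    have h3 : Nat.card (Sylow 13 H) = 1 ∨ Nat.card (Sylow 13 H) = 5 :=
      (Nat.dvd_prime (by norm_num)).mp h2
    rcases h3 with h3 | h3
    · exact h3
    · rw [h3] at h1; exact absurd h1 (by decide)
  haveI : Subsingleton (Sylow 13 H) := (Nat.card_eq_one_iff_unique.mp hn1).1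
  haveI hSn : (S : Subgroup H).Normal := Sylow.normal_of_subsingleton S
  obtain ⟨y, hy⟩ := exists_prime_orderOf_dvd_card' (G := H) 5 (by rw [hH]; norm_num)
  have hy5 : y ^ 5 = 1 := by rw [← hy]; exact pow_orderOf_eq_one y
  have hy1 : y ≠ 1 := by
    intro h; rw [h, orderOf_one] at hy; omega
  haveI : Fintype (S : Subgroup H) := Fintype.ofFinite _
  have hφ : (MulAut.conjNormal y : MulAut (S : Subgroup H)) ^ 5 = 1 := by
    rw [← map_pow, hy5, map_one]
  have hmod := card_filter_fixed_modEq (α := (S : Subgroup H))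
    (MulAut.conjNormal y : MulAut (S : Subgroup H)) 5 hφ
  rw [← Nat.card_eq_fintype_card, hScard] at hmod
  have hex : ∃ s : (S : Subgroup H), s ≠ 1 ∧
      (MulAut.conjNormal y : MulAut (S : Subgroup H)) • s = s := by
    by_contra hno
    push_neg at hno
    have hsub : Finset.univ.filter (fun s : (S : Subgroup H) =>
        (MulAut.conjNormal y : MulAut (S : Subgroup H)) • s = s) = {1} := by
      ext s
      simp only [Finset.mem_filter, Finset.mem_univ, true_and, Finset.mem_singleton]
      constructor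
      · intro hs
        by_contra hs1
        exact hno s hs1 hs
      · intro hs
        rw [hs]
        exact smul_one _
    rw [hsub, Finset.card_singleton] at hmod
    exact absurd hmod (by decide)
  obtain ⟨s, hs1, hs⟩ := hex
  have hs' : y * (s : H) * y⁻¹ = s := by
    have := congrArg Subtype.val hs
    rw [MulAut.smul_def, MulAut.conjNormal_apply] at this
    exact this
  refine ⟨(s : H), y, ?_, ?_, hy1, hy5, ?_⟩
  · intro h; exact hs1 (Subtype.ext h)
  · have h13 : s ^ Nat.card (S : Subgroup H) = 1 := pow_card_eq_one'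
    rw [hScard] at h13
    have := congrArg Subtype.val h13
    simpa using this
  · calc y * (s : H) = (y * (s : H) * y⁻¹) * y := by group
      _ = (s : H) * y := by rw [hs']

/-- no solvable subgroup of `GL(4,3)` has order divisible by `5` and `13` -/
theorem no_solvable_65 (hV : Nat.card V = 81) (H : Subgroup (V ≃ₗ[ZMod 3] V))
    [Group.IsSolvable H] (h5 : 5 ∣ Nat.card H) (h13 : 13 ∣ Nat.card H) : False := by
  haveI : Finite (V ≃ₗ[ZMod 3] V) :=
    Finite.of_injective (fun e : V ≃ₗ[ZMod 3] V => (e : V → V)) DFunLike.coe_injective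
  have hdvd : Nat.card H ∣ 24261120 := by
    rw [← card_linEquiv_81 hV]
    exact Subgroup.card_subgroup_dvd_card H
  have h65 : 65 ∣ Nat.card H :=
    Nat.Coprime.mul_dvd_of_dvd_of_dvd (by norm_num : Nat.Coprime 5 13) h5 h13
  obtain ⟨m, hm⟩ := h65
  have hm2 : m ∣ 373248 := by
    rw [hm, show (24261120 : ℕ) = 65 * 373248 by norm_num] at hdvd
    exact Nat.dvd_of_mul_dvd_mul_left (by norm_num) hdvd
  have hcop : Nat.Coprime 65 m :=
    Nat.Coprime.coprime_dvd_right hm2 (by norm_num)
  obtain ⟨H0, hH0⟩ := Cfsg.Agent.Helper1.hall_exists_aux (Nat.card H) H 65 m rfl hm hcop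
  obtain ⟨x, y, hx1, hx13, hy1, hy5, hxy⟩ := exists_commute_of_card_65 hH0
  set gx : V ≃ₗ[ZMod 3] V := ((x : H) : V ≃ₗ[ZMod 3] V) with hgx
  set gy : V ≃ₗ[ZMod 3] V := ((y : H) : V ≃ₗ[ZMod 3] V) with hgy
  have hgx1 : gx ≠ 1 := by
    intro h
    apply hx1
    apply Subtype.ext
    apply Subtype.ext
    exact h
  have hgy1 : gy ≠ 1 := by
    intro h
    apply hy1
    apply Subtype.ext
    apply Subtype.ext
    exact h
  have hgx13 : gx ^ 13 = 1 := by
    have := congrArg (fun t : H0 => ((t : H) : V ≃ₗ[ZMod 3] V)) hx13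
    simpa using this
  have hgy5 : gy ^ 5 = 1 := by
    have := congrArg (fun t : H0 => ((t : H) : V ≃ₗ[ZMod 3] V)) hy5
    simpa using this
  have hcomm : gy * gx = gx * gy := by
    have := congrArg (fun t : H0 => ((t : H) : V ≃ₗ[ZMod 3] V)) hxy
    simpa using this
  haveI : Fact (Nat.Prime 5) := ⟨by norm_num⟩
  haveI := nontrivial_of_card_81 hV
  have hinv : ∀ v ∈ LinearMap.ker ((gx : V →ₗ[ZMod 3] V) - LinearMap.id),
      gy v ∈ LinearMap.ker ((gx : V →ₗ[ZMod 3] V) - LinearMap.id) := by
    intro v hv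
    rw [LinearMap.mem_ker] at hv ⊢
    have h1 : gx v - v = 0 := hv
    have h2 : gx v = v := sub_eq_zero.mp h1
    show gx (gy v) - gy v = 0
    have h3 : gx (gy v) = gy (gx v) := by
      have := congrArg (fun t : V ≃ₗ[ZMod 3] V => t v) hcomm
      exact this.symm
    rw [h3, h2, sub_self]
  have hmod := hup_lin_fixed_modEq gy 5 hgy5 _ hinv
  rw [fix5 hV gy hgy5 hgy1, inf_bot_eq, fix13 hV gx hgx13 hgx1] at hmod
  have hbot : Nat.card (⊥ : Submodule (ZMod 3) V) = 1 := by
    rw [Nat.card_eq_one_iff_unique]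
    exact ⟨inferInstance, inferInstance⟩
  rw [hbot] at hmod
  exact absurd hmod (by decide)

end Ex81

end Cfsg.Agent.Helper12
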