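import Mathlib

set_option autoImplicit false

/-!
# Counting the two-dimensional subspaces of a finite vector space over a prime field
-/

namespace Cfsg.Agent.Helper12

section LineCount

variable {p : ℕ} [Fact p.Prime] {V : Type*} [AddCommGroup V] [Module (ZMod p) V]

theorem card_span_singleton_zmod {v : V} (hv : v ≠ 0) :
    Nat.card (Submodule.span (ZMod p) {v}) = p := by
  rw [← Nat.card_congr (LinearEquiv.toSpanNonzeroSingleton (ZMod p) V v hv).toEquiv, Nat.card_zmod]

theorem card_span_pair_zmod [Finite V] {v w : V} (hv : v ≠ 0)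
    (hw : w ∉ Submodule.span (ZMod p) {v}) :
    Nat.card (Submodule.span (ZMod p) {v, w}) = p ^ 2 := by
  have hli : LinearIndependent (ZMod p) ![v, w] := by
    rw [LinearIndependent.pair_iff' hv]
    intro a ha
    apply hw
    rw [← ha]
    exact Submodule.smul_mem _ _ (Submodule.mem_span_singleton_self v)
  have h1 := finrank_span_eq_card hli
  rw [Matrix.range_cons_cons_empty, Fintype.card_fin] at h1
  have h2 := Module.natCard_eq_pow_finrank (K := ZMod p)
    (V := Submodule.span (ZMod p) {v, w})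
  rw [h1, Nat.card_zmod] at h2
  exact h2

theorem card_compl_span [Finite V] {U : Submodule (ZMod p) V} {v : V} (hvU : v ∈ U) (hv : v ≠ 0) :
    Nat.card {w : V // w ∈ U ∧ w ∉ Submodule.span (ZMod p) {v}} = Nat.card U - p := by
  have h1 : Nat.card {w : V // w ∈ U ∧ w ∉ Submodule.span (ZMod p) {v}}
      = ((U : Set V) \ (Submodule.span (ZMod p) {v} : Set V)).ncard := by
    rw [← Nat.card_coe_set_eq]
    rfl
  have hsub : (Submodule.span (ZMod p) {v} : Set V) ⊆ (U : Set V) := by
    intro w hw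
    exact (Submodule.span_singleton_le_iff_mem v U).mpr hvU hw
  rw [h1, Set.ncard_diff hsub, ← Nat.card_coe_set_eq, ← Nat.card_coe_set_eq]
  have h2 : Nat.card ↥(Submodule.span (ZMod p) {v} : Set V) = p := card_span_singleton_zmod hv
  rw [h2]
  rfl

theorem card_ne_zero_in [Finite V] (U : Submodule (ZMod p) V) :
    Nat.card {v : V // v ∈ U ∧ v ≠ 0} = Nat.card U - 1 := by
  have h1 : Nat.card {v : V // v ∈ U ∧ v ≠ 0} = ((U : Set V) \ {0}).ncard := by
    rw [← Nat.card_coe_set_eq]
    rfl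
  rw [h1, Set.ncard_diff_singleton_of_mem (zero_mem U), ← Nat.card_coe_set_eq]
  rfl

theorem card_pairs_in [Finite V] (U : Submodule (ZMod p) V) :
    Nat.card {x : V × V // x.1 ∈ U ∧ x.1 ≠ 0 ∧ x.2 ∈ U ∧ x.2 ∉ Submodule.span (ZMod p) {x.1}}
      = (Nat.card U - 1) * (Nat.card U - p) := by
  classical
  haveI : Fintype {v : V // v ∈ U ∧ v ≠ 0} := Fintype.ofFinite _
  have e : {x : V × V // x.1 ∈ U ∧ x.1 ≠ 0 ∧ x.2 ∈ U ∧ x.2 ∉ Submodule.span (ZMod p) {x.1}} ≃
      Σ v : {v : V // v ∈ U ∧ v ≠ 0}, {w : V // w ∈ U ∧ w ∉ Submodule.span (ZMod p) {v.1}} :=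
    { toFun := fun x => ⟨⟨x.1.1, x.2.1, x.2.2.1⟩, ⟨x.1.2, x.2.2.2⟩⟩
      invFun := fun y => ⟨(y.1.1, y.2.1), y.1.2.1, y.1.2.2, y.2.2⟩
      left_inv := fun x => rfl
      right_inv := fun y => rfl }
  rw [Nat.card_congr e, Nat.card_sigma,
    Finset.sum_congr rfl (fun v _ => card_compl_span v.2.1 v.2.2), Finset.sum_const,
    Finset.card_univ, smul_eq_mul, ← Nat.card_eq_fintype_card, card_ne_zero_in]

/-- the number `L` of two-dimensional subspaces satisfies
`L * ((p^2-1)(p^2-p)) = (|V|-1)(|V|-p)` -/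
theorem card_lines_mul [Finite V] :
    Nat.card {U : Submodule (ZMod p) V // Nat.card U = p ^ 2} * ((p ^ 2 - 1) * (p ^ 2 - p))
      = (Nat.card V - 1) * (Nat.card V - p) := by
  classical
  haveI : Finite (Submodule (ZMod p) V) :=
    Finite.of_injective (fun U : Submodule (ZMod p) V => (U : Set V)) SetLike.coe_injective
  haveI : Fintype {U : Submodule (ZMod p) V // Nat.card U = p ^ 2} := Fintype.ofFinite _
  let f : {x : V × V // x.1 ≠ 0 ∧ x.2 ∉ Submodule.span (ZMod p) {x.1}} →
      {U : Submodule (ZMod p) V // Nat.card U = p ^ 2} :=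
    fun x => ⟨Submodule.span (ZMod p) {x.1.1, x.1.2}, card_span_pair_zmod x.2.1 x.2.2⟩
  have h1 : Nat.card {x : V × V // x.1 ≠ 0 ∧ x.2 ∉ Submodule.span (ZMod p) {x.1}}
      = (Nat.card V - 1) * (Nat.card V - p) := by
    have h := card_pairs_in (⊤ : Submodule (ZMod p) V)
    rw [Nat.card_congr (Submodule.topEquiv (R := ZMod p) (M := V)).toEquiv] at h
    rw [← h]
    apply Nat.card_congr
    exact Equiv.subtypeEquivRight (fun x => by simp)
  have h2 : ∀ U : {U : Submodule (ZMod p) V // Nat.card U = p ^ 2},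
      Nat.card {x // f x = U} = (p ^ 2 - 1) * (p ^ 2 - p) := by
    intro U
    have h := card_pairs_in U.1
    rw [U.2] at h
    rw [← h]
    apply Nat.card_congr
    refine
      { toFun := fun x => ⟨x.1.1, ?_, x.1.2.1, ?_, x.1.2.2⟩
        invFun := fun y => ⟨⟨y.1, y.2.2.1, y.2.2.2.2⟩, ?_⟩
        left_inv := fun x => rfl
        right_inv := fun y => rfl }
    · have hx : Submodule.span (ZMod p) {x.1.1.1, x.1.1.2} = U.1 := congrArg Subtype.val x.2
      rw [← hx]
      exact Submodule.subset_span (by simp)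
    · have hx : Submodule.span (ZMod p) {x.1.1.1, x.1.1.2} = U.1 := congrArg Subtype.val x.2
      rw [← hx]
      exact Submodule.subset_span (by simp)
    · apply Subtype.ext
      show Submodule.span (ZMod p) {y.1.1, y.1.2} = U.1
      have hle : Submodule.span (ZMod p) {y.1.1, y.1.2} ≤ U.1 := by
        rw [Submodule.span_le]
        intro z hz
        rcases hz with hz | hz
        · rw [hz]; exact y.2.1
        · rw [Set.mem_singleton_iff] at hz; rw [hz]; exact y.2.2.2.1
      apply SetLike.coe_injective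
      apply Set.eq_of_subset_of_ncard_le hle
      rw [← Nat.card_coe_set_eq, ← Nat.card_coe_set_eq]
      have h3 : Nat.card ↥(U.1 : Set V) = p ^ 2 := U.2
      have h4 : Nat.card ↥(Submodule.span (ZMod p) {y.1.1, y.1.2} : Set V) = p ^ 2 :=
        card_span_pair_zmod y.2.2.1 y.2.2.2.2
      rw [h3, h4]
  rw [← h1, ← Nat.card_congr (Equiv.sigmaFiberEquiv f), Nat.card_sigma,
    Finset.sum_congr rfl (fun U _ => h2 U), Finset.sum_const, Finset.card_univ, smul_eq_mul,
    Nat.card_eq_fintype_card]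

end LineCount

end Cfsg.Agent.Helper12
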