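import Cfsg.Prelude.Def_Transfer
import Cfsg.Prelude.Def_Solvable
import Cfsg.Agent.Helper63.N15Defs
import Cfsg.Agent.Helper76.Fong

/-!
# CALL S4415, piece p1a (helper12, second seat)
-/

set_option autoImplicit false

namespace Cfsg.Agent.Helper12.N15

open Cfsg.Agent.Helper63.N15

variable {S : Type*} [Group S] [Finite S] {E : Type*} [AddCommGroup E] [Module (ZMod 3) E]
  [Finite E]

/-- P1a. -/
theorem p1a [Group.IsSolvable S] (P : Sylow 3 S) (b : S) (hbP : b ∈ (P : Subgroup S))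
    (hbc : ∀ x ∈ (P : Subgroup S), x * b = b * x) (H : Subgroup S) (hH : IsPGroup 2 H)
    (hHb : ∀ h ∈ H, b * h * b⁻¹ ∈ H) :
    ∀ h ∈ H, b * h * b⁻¹ * h⁻¹ ∈ Cfsg.pPrimeCore 3 S := by
  classical
  haveI h3 : Fact (Nat.Prime 3) := ⟨Nat.prime_three⟩
  obtain ⟨K, hK⟩ : ∃ K : Subgroup S, K = Cfsg.pPrimeCore 3 S := ⟨_, rfl⟩
  rw [← hK]
  haveI hKn : K.Normal := hK ▸ Cfsg.Agent.Helper76.pPrimeCore_normal
  have hsol : Cfsg.Agent.Helper76.IsPSolvableElt 3 (S ⧸ K) :=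
    (Cfsg.Agent.Helper76.isPSolvableElt_of_isSolvable 3 S).quotient K
  have hbot : Cfsg.pPrimeCore 3 (S ⧸ K) = ⊥ := by
    subst hK
    exact Cfsg.Agent.Helper76.pPrimeCore_quotient_eq_bot
  have hHH := Cfsg.Agent.Helper76.centralizer_pCore_le hsol hbot
  have hsurj : Function.Surjective (QuotientGroup.mk' K) := QuotientGroup.mk'_surjective K
  haveI hOn : (Cfsg.pCore 3 (S ⧸ K)).Normal := Cfsg.Agent.Helper76.pCore_normal
  have hOp : IsPGroup 3 (Cfsg.pCore 3 (S ⧸ K)) := Cfsg.Agent.Helper76.pCore_isPGroup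
  have hOP : Cfsg.pCore 3 (S ⧸ K) ≤ (P : Subgroup S).map (QuotientGroup.mk' K) := by
    have := hOp.le_sylow_of_normal (P.mapSurjective hsurj)
    rwa [Sylow.coe_mapSurjective] at this
  have hbO : (QuotientGroup.mk' K) b ∈ Cfsg.pCore 3 (S ⧸ K) := by
    apply hHH
    rw [Subgroup.mem_centralizer_iff]
    intro x hx
    obtain ⟨y, hy, rfl⟩ := Subgroup.mem_map.mp (hOP hx)
    rw [← map_mul, ← map_mul, hbc y hy]
  intro h hh
  have hc : (QuotientGroup.mk' K) (b * h * b⁻¹ * h⁻¹) ∈ Cfsg.pCore 3 (S ⧸ K) := by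
    have e : (QuotientGroup.mk' K) (b * h * b⁻¹ * h⁻¹) =
        (QuotientGroup.mk' K) b * ((QuotientGroup.mk' K) h * ((QuotientGroup.mk' K) b)⁻¹ *
          ((QuotientGroup.mk' K) h)⁻¹) := by
      simp only [map_mul, map_inv, mul_assoc]
    rw [e]
    exact Subgroup.mul_mem _ hbO (hOn.conj_mem _ (Subgroup.inv_mem _ hbO) _)
  obtain ⟨k, hk⟩ := hOp ⟨_, hc⟩
  have hk' : ((QuotientGroup.mk' K) (b * h * b⁻¹ * h⁻¹)) ^ 3 ^ k = 1 := congrArg Subtype.val hk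
  have hcH : b * h * b⁻¹ * h⁻¹ ∈ H := Subgroup.mul_mem _ (hHb h hh) (Subgroup.inv_mem _ hh)
  obtain ⟨j, hj⟩ := hH ⟨_, hcH⟩
  have hj' : (b * h * b⁻¹ * h⁻¹) ^ 2 ^ j = 1 := congrArg Subtype.val hj
  have hj'' : ((QuotientGroup.mk' K) (b * h * b⁻¹ * h⁻¹)) ^ 2 ^ j = 1 := by
    rw [← map_pow, hj', map_one]
  have hcop : Nat.Coprime (3 ^ k) (2 ^ j) := Nat.Coprime.pow _ _ (by norm_num)
  have hone : (QuotientGroup.mk' K) (b * h * b⁻¹ * h⁻¹) = 1 := by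
    have h1 := orderOf_dvd_of_pow_eq_one hk'
    have h2 := orderOf_dvd_of_pow_eq_one hj''
    have h3' : orderOf ((QuotientGroup.mk' K) (b * h * b⁻¹ * h⁻¹)) = 1 :=
      Nat.eq_one_of_dvd_coprimes hcop h1 h2
    exact orderOf_eq_one_iff.mp h3'
  exact (QuotientGroup.eq_one_iff _).mp hone

end Cfsg.Agent.Helper12.N15
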