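import Cfsg.Prelude.Def_Transfer
import Cfsg.Prelude.Def_Solvable
import Cfsg.Agent.Helper63.N15Defs
import Cfsg.Agent.Helper90.ClifGroup

/-!
# CALL S4415, piece p5c (helper12, second seat)
-/

set_option autoImplicit false

namespace Cfsg.Agent.Helper12.N15

open Cfsg.Agent.Helper63.N15

variable {S : Type*} [Group S] [Finite S] {E : Type*} [AddCommGroup E] [Module (ZMod 3) E]
  [Finite E]

/-- P5c. -/
theorem p5c (R : Subgroup S) (h : IsES32 R) :
    Cfsg.IsExtraspecial 2 ↥R ∧ Nat.card ↥R = 32 ∧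
      ∃ A : Subgroup S, A ≤ R ∧ Cfsg.IsElementaryAbelian 2 A ∧ Nat.card ↥A = 8 := by
  classical
  obtain ⟨hcard, ⟨z, hzR, hz1, hz2, hzc, hcen, hsq, hcomm⟩, A, hAR, hAc, hA2, hAcard⟩ := h
  refine ⟨?_, hcard, A, hAR, ⟨⟨⟨fun a b => Subtype.ext (hAc a a.2 b b.2)⟩⟩, hA2⟩, hAcard⟩
  have hz1' : (⟨z, hzR⟩ : ↥R) ≠ 1 := fun h => hz1 (congrArg Subtype.val h)
  have hcenter : ∀ c : ↥R, c ∈ Subgroup.center ↥R ↔ c = 1 ∨ c = ⟨z, hzR⟩ := by
    intro c
    rw [Subgroup.mem_center_iff]
    constructor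
    · intro hc
      rcases hcen c c.2 (fun y hy => (congrArg Subtype.val (hc ⟨y, hy⟩)).symm) with h1 | h1
      · left; exact Subtype.ext h1
      · right; exact Subtype.ext h1
    · rintro (h1 | h1) g
      · rw [h1, mul_one, one_mul]
      · rw [h1]
        exact Subtype.ext (hzc g g.2)
  have hsq' : ∀ x : ↥R, x * x = 1 ∨ x * x = ⟨z, hzR⟩ := by
    intro x
    rcases hsq x x.2 with h1 | h1
    · left; apply Subtype.ext; rw [← pow_two]; exact h1
    · right; apply Subtype.ext; rw [← pow_two]; exact h1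
  have hcomm' : ∀ x y : ↥R, x * y = y * x ∨ x * y = ⟨z, hzR⟩ * (y * x) := by
    intro x y
    rcases hcomm x x.2 y y.2 with h1 | h1
    · left; exact Subtype.ext h1
    · right; exact Subtype.ext h1
  have hnonab : ∃ x y : ↥R, x * y ≠ y * x := by
    by_contra hab
    push Not at hab
    have hall : ∀ x : ↥R, x = 1 ∨ x = ⟨z, hzR⟩ := by
      intro x
      exact (hcenter x).mp (Subgroup.mem_center_iff.mpr (fun g => hab g x))
    have hinj : Function.Injective (fun x : ↥R => decide (x = 1)) := by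
      intro x y hxy
      simp only [decide_eq_decide] at hxy
      rcases hall x with hx | hx
      · rw [hx]; exact (hxy.mp hx).symm
      · rcases hall y with hy | hy
        · rw [hy]; exact hxy.mpr hy
        · rw [hx, hy]
    have hle := Nat.card_le_card_of_injective _ hinj
    rw [hcard, Nat.card_eq_fintype_card, Fintype.card_bool] at hle
    omega
  exact Cfsg.Agent.Helper90.Clif.isExtraspecial_two_of_elem ⟨z, hzR⟩ hz1' hcenter hsq' hcomm'
    hnonab

end Cfsg.Agent.Helper12.N15
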