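import Cfsg.Agent.Helper55.N9Defs

/-!
# CALL S4409, piece A3 (helper12, double): `D` a four-group or a quaternion group, `c ∉ D` a
2-element centralizing `D`: then `D ⊔ zpowers c` contains a noncyclic abelian subgroup of order 8.
-/

set_option autoImplicit false

namespace Cfsg.Agent.Helper12.N9

open Subgroup Cfsg.Agent.Helper55.N9

variable {G : Type*} [Group G] [Finite G]

theorem n9a3_d1 : ∀ q : QuaternionGroup 2, (∀ g, q * g = g * q) →
    q = 1 ∨ q = QuaternionGroup.a 2 := by decide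

/-- the A8 builder -/
theorem n9a3_build (B : Subgroup G) (hB4 : Nat.card B = 4)
    (hBab : ∀ a ∈ B, ∀ b ∈ B, a * b = b * a)
    (w : G) (hwB : w ∉ B) (hw2 : w ^ 2 ∈ B) (hwc : ∀ b ∈ B, w * b = b * w)
    (hinv : ∃ x y z : G, x ∈ B ⊔ zpowers w ∧ y ∈ B ⊔ zpowers w ∧ z ∈ B ⊔ zpowers w ∧ x ≠ y ∧
      x ≠ z ∧ y ≠ z ∧ x ^ 2 = 1 ∧ y ^ 2 = 1 ∧ z ^ 2 = 1) :
    IsMulCommutative ↥(B ⊔ zpowers w) ∧ ¬ IsCyclic ↥(B ⊔ zpowers w) ∧
      Nat.card ↥(B ⊔ zpowers w) = 8 := by
  classical
  have hcl : B ⊔ zpowers w = closure ((B : Set G) ∪ {w}) := by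
    rw [Subgroup.closure_union, closure_eq, zpowers_eq_closure]
  have hmem : ∀ g, g ∈ B ⊔ zpowers w → g ∈ B ∨ ∃ b ∈ B, g = b * w := by
    intro g hg
    rw [hcl] at hg
    induction hg using closure_induction with
    | mem x hx =>
      rcases hx with hx | hx
      · exact Or.inl hx
      · rw [Set.mem_singleton_iff] at hx
        exact Or.inr ⟨1, B.one_mem, by rw [hx, one_mul]⟩
    | one => exact Or.inl B.one_mem
    | mul x y _ _ hx hy =>
      rcases hx with hx | ⟨b1, hb1, rfl⟩ <;> rcases hy with hy | ⟨b2, hb2, rfl⟩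
      · exact Or.inl (B.mul_mem hx hy)
      · exact Or.inr ⟨x * b2, B.mul_mem hx hb2, by rw [mul_assoc]⟩
      · refine Or.inr ⟨b1 * y, B.mul_mem hb1 hy, ?_⟩
        rw [mul_assoc, hwc y hy, mul_assoc]
      · left
        have : b1 * w * (b2 * w) = b1 * b2 * w ^ 2 := by
          rw [pow_two, mul_assoc b1 w, ← mul_assoc w b2, hwc b2 hb2]
          simp only [mul_assoc]
        rw [this]
        exact B.mul_mem (B.mul_mem hb1 hb2) hw2
    | inv x _ hx =>
      rcases hx with hx | ⟨b, hb, rfl⟩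
      · exact Or.inl (B.inv_mem hx)
      · refine Or.inr ⟨b⁻¹ * (w ^ 2)⁻¹, B.mul_mem (B.inv_mem hb) (B.inv_mem hw2), ?_⟩
        have h1 : w * b⁻¹ = b⁻¹ * w := hwc _ (B.inv_mem hb)
        have h2 : w⁻¹ * b⁻¹ = b⁻¹ * w⁻¹ := by
          calc w⁻¹ * b⁻¹ = w⁻¹ * (b⁻¹ * w) * w⁻¹ := by group
            _ = w⁻¹ * (w * b⁻¹) * w⁻¹ := by rw [h1]
            _ = b⁻¹ * w⁻¹ := by group
        rw [mul_inv_rev, h2]
        group
  have hBle : B ≤ B ⊔ zpowers w := le_sup_left
  have hwA : w ∈ B ⊔ zpowers w := le_sup_right (a := B) (mem_zpowers w)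
  refine ⟨?_, ?_, ?_⟩
  · rw [hcl]
    apply isMulCommutative_closure
    rintro x (hx | hx) y (hy | hy)
    · exact hBab x hx y hy
    · rw [Set.mem_singleton_iff] at hy
      rw [hy]
      exact (hwc x hx).symm
    · rw [Set.mem_singleton_iff] at hx
      rw [hx]
      exact hwc y hy
    · rw [Set.mem_singleton_iff] at hx hy
      rw [hx, hy]
  · intro hcyc
    haveI := Fintype.ofFinite ↥(B ⊔ zpowers w)
    obtain ⟨x, y, z, hx, hy, hz, hxy, hxz, hyz, hx2, hy2, hz2⟩ := hinv
    have hle := IsCyclic.card_pow_eq_one_le (α := ↥(B ⊔ zpowers w)) (n := 2) (by norm_num)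
    have hlt : 2 < (Finset.univ.filter fun a : ↥(B ⊔ zpowers w) => a ^ 2 = 1).card := by
      rw [Finset.two_lt_card_iff]
      refine ⟨⟨x, hx⟩, ⟨y, hy⟩, ⟨z, hz⟩, ?_, ?_, ?_, ?_, ?_, ?_⟩
      · simp only [Finset.mem_filter, Finset.mem_univ, true_and]
        exact Subtype.ext hx2
      · simp only [Finset.mem_filter, Finset.mem_univ, true_and]
        exact Subtype.ext hy2
      · simp only [Finset.mem_filter, Finset.mem_univ, true_and]
        exact Subtype.ext hz2
      · exact fun h => hxy (congrArg Subtype.val h)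
      · exact fun h => hxz (congrArg Subtype.val h)
      · exact fun h => hyz (congrArg Subtype.val h)
    omega
  · have hdvd : Nat.card B ∣ Nat.card ↥(B ⊔ zpowers w) := card_dvd_of_le hBle
    have hne : Nat.card ↥(B ⊔ zpowers w) ≠ 4 := by
      intro h
      have := eq_of_le_of_card_ge hBle (by rw [h, hB4])
      exact hwB (this ▸ hwA)
    have hpos : 0 < Nat.card ↥(B ⊔ zpowers w) := Nat.card_pos
    have hle : Nat.card ↥(B ⊔ zpowers w) ≤ 8 := by
      have hsub : ((B ⊔ zpowers w : Subgroup G) : Set G) ⊆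
          (B : Set G) ∪ (fun b => b * w) '' (B : Set G) := by
        intro g hg
        rcases hmem g hg with h | ⟨b, hb, rfl⟩
        · exact Or.inl h
        · exact Or.inr ⟨b, hb, rfl⟩
      have h1 : Nat.card ↥(B ⊔ zpowers w) = ((B ⊔ zpowers w : Subgroup G) : Set G).ncard :=
        Nat.card_coe_set_eq _
      have h2 : Nat.card B = (B : Set G).ncard := Nat.card_coe_set_eq _
      rw [h1]
      calc ((B ⊔ zpowers w : Subgroup G) : Set G).ncard
          ≤ ((B : Set G) ∪ (fun b => b * w) '' (B : Set G)).ncard :=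
            Set.ncard_le_ncard hsub (Set.toFinite _)
        _ ≤ (B : Set G).ncard + ((fun b => b * w) '' (B : Set G)).ncard := Set.ncard_union_le _ _
        _ ≤ (B : Set G).ncard + (B : Set G).ncard :=
            Nat.add_le_add_left (Set.ncard_image_le (Set.toFinite _)) _
        _ = 8 := by rw [← h2, hB4]
    rw [hB4] at hdvd
    obtain ⟨k, hk⟩ := hdvd
    omega

-- A3
theorem n9_cent_a8 (D : Subgroup G) (hD : IsV4 D ∨ IsQ8 D) (c : G)
    (hc : ∀ d ∈ D, c * d = d * c) (hcD : c ∉ D) (hc2 : ∃ n : ℕ, c ^ 2 ^ n = 1) :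
    ¬ NoA8 (D ⊔ zpowers c) := by
  classical
  -- a power `c'` of `c` outside `D` with square in `D`
  have hex : ∃ n : ℕ, c ^ 2 ^ n ∈ D := by
    obtain ⟨n, hn⟩ := hc2
    exact ⟨n, hn ▸ D.one_mem⟩
  have hn0 : Nat.find hex ≠ 0 := by
    intro h0
    have := Nat.find_spec hex
    rw [h0, pow_zero, pow_one] at this
    exact hcD this
  obtain ⟨n, hn⟩ := Nat.exists_eq_succ_of_ne_zero hn0
  have hc'D : c ^ 2 ^ n ∉ D := Nat.find_min hex (by omega)
  have hc'2 : (c ^ 2 ^ n) ^ 2 ∈ D := by
    have := Nat.find_spec hex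
    rw [hn, pow_succ, pow_mul] at this
    exact this
  have hc'c : ∀ d ∈ D, c ^ 2 ^ n * d = d * c ^ 2 ^ n := by
    intro d hd
    exact ((show Commute c d from hc d hd).pow_left _).eq
  have hc'm : c ^ 2 ^ n ∈ D ⊔ zpowers c :=
    le_sup_right (a := D) ((zpowers c).pow_mem (mem_zpowers c) _)
  generalize c ^ 2 ^ n = c' at hc'D hc'2 hc'c hc'm
  have hDle : D ≤ D ⊔ zpowers c := le_sup_left
  intro hNo
  rcases hD with ⟨h4, hexp⟩ | hQ
  · -- the four-group
    have hab : ∀ a ∈ D, ∀ b ∈ D, a * b = b * a := by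
      intro a ha b hb
      have h1 := hexp a ha
      have h2 := hexp b hb
      have h3 := hexp (a * b) (D.mul_mem ha hb)
      rw [pow_two] at h1 h2 h3
      calc a * b = (b * b) * (a * b) * (a * a) := by rw [h1, h2, one_mul, mul_one]
        _ = b * (b * a * (b * a)) * a := by group
        _ = b * a := by
          have : b * a * (b * a) = 1 := by
            calc b * a * (b * a) = b * (a * b * (a * b)) * b⁻¹ := by group
              _ = 1 := by rw [h3]; group
          rw [this]; group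
    haveI := Fintype.ofFinite ↥D
    have h3 : 2 < Fintype.card ↥D := by rw [← Nat.card_eq_fintype_card, h4]; norm_num
    obtain ⟨x, y, z, hxy, hxz, hyz⟩ := Fintype.two_lt_card_iff.mp h3
    obtain ⟨hA1, hA2, hA3⟩ := n9a3_build D h4 hab c' hc'D hc'2 hc'c
      ⟨x, y, z, le_sup_left (a := D) x.2, le_sup_left (a := D) y.2, le_sup_left (a := D) z.2,
        fun h => hxy (Subtype.ext h), fun h => hxz (Subtype.ext h), fun h => hyz (Subtype.ext h),
        hexp x x.2, hexp y y.2, hexp z z.2⟩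
    exact hNo ⟨D ⊔ zpowers c', sup_le hDle (by rw [zpowers_le]; exact hc'm), hA1, hA2, hA3⟩
  · -- the quaternion group
    obtain ⟨ψ⟩ := hQ
    set i : G := ((ψ.symm (QuaternionGroup.a 1) : ↥D) : G) with hi
    set z : G := ((ψ.symm (QuaternionGroup.a 2) : ↥D) : G) with hz
    have hiD : i ∈ D := (ψ.symm (QuaternionGroup.a 1)).2
    have hzD : z ∈ D := (ψ.symm (QuaternionGroup.a 2)).2
    have hi2 : i ^ 2 = z := by
      have : (ψ.symm (QuaternionGroup.a 1)) ^ 2 = ψ.symm (QuaternionGroup.a 2) := by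
        rw [← map_pow]
        congr 1
      exact congrArg Subtype.val this
    have hz2 : z ^ 2 = 1 := by
      have : (ψ.symm (QuaternionGroup.a 2)) ^ 2 = 1 := by
        rw [← map_pow]
        have : (QuaternionGroup.a 2 : QuaternionGroup 2) ^ 2 = 1 := by decide
        rw [this, map_one]
      exact congrArg Subtype.val this
    have hz1 : z ≠ 1 := by
      intro h
      have h1 : ψ.symm (QuaternionGroup.a 2) = 1 := Subtype.ext h
      have h2 : (QuaternionGroup.a 2 : QuaternionGroup 2) = 1 := by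
        simpa using congrArg ψ h1
      revert h2
      decide
    have hio : orderOf i = 4 := by
      rw [hi, Subgroup.orderOf_coe, MulEquiv.orderOf_eq, QuaternionGroup.orderOf_a_one]
    have hB4 : Nat.card (zpowers i) = 4 := by rw [Nat.card_zpowers, hio]
    have hBD : zpowers i ≤ D := by rw [zpowers_le]; exact hiD
    have hBab : ∀ a ∈ zpowers i, ∀ b ∈ zpowers i, a * b = b * a := by
      rintro a ⟨k, rfl⟩ b ⟨l, rfl⟩
      exact (Commute.zpow_zpow_self i k l).eq
    have hzB : z ∈ zpowers i := by rw [← hi2]; exact (zpowers i).pow_mem (mem_zpowers i) 2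
    -- `c'²` is central in `D`
    have hcen : ∀ g : QuaternionGroup 2, ψ ⟨c' ^ 2, hc'2⟩ * g = g * ψ ⟨c' ^ 2, hc'2⟩ := by
      intro g
      obtain ⟨f, rfl⟩ := ψ.surjective g
      rw [← map_mul, ← map_mul]
      congr 1
      apply Subtype.ext
      exact ((show Commute c' f from hc'c f f.2).pow_left 2).eq
    -- the element `w`
    obtain ⟨w, hwD, hw2, hwi, hwm⟩ : ∃ w : G, w ∉ D ∧ w ^ 2 = 1 ∧ w * i = i * w ∧
        w ∈ D ⊔ zpowers c := by
      rcases n9a3_d1 _ hcen with h | h
      · refine ⟨c', hc'D, ?_, hc'c i hiD, hc'm⟩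
        have : (⟨c' ^ 2, hc'2⟩ : ↥D) = 1 := ψ.injective (h.trans (map_one ψ).symm)
        exact congrArg Subtype.val this
      · have h1 : (⟨c' ^ 2, hc'2⟩ : ↥D) = ψ.symm (QuaternionGroup.a 2) := by
          rw [← h, MulEquiv.symm_apply_apply]
        have h2 : c' ^ 2 = z := congrArg Subtype.val h1
        have hci := hc'c i hiD
        refine ⟨i * c', ?_, ?_, ?_, ?_⟩
        · intro h3
          apply hc'D
          have : c' = i⁻¹ * (i * c') := by group
          rw [this]
          exact D.mul_mem (D.inv_mem hiD) h3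
        · calc (i * c') ^ 2 = i * (c' * i) * c' := by rw [pow_two]; group
            _ = i * (i * c') * c' := by rw [hci]
            _ = i ^ 2 * c' ^ 2 := by rw [pow_two, pow_two]; group
            _ = 1 := by rw [hi2, h2, ← pow_two, hz2]
        · calc i * c' * i = i * (c' * i) := by group
            _ = i * (i * c') := by rw [hci]
        · exact (D ⊔ zpowers c).mul_mem (hDle hiD) hc'm
    have hwB : w ∉ zpowers i := fun h => hwD (hBD h)
    have hwc : ∀ b ∈ zpowers i, w * b = b * w := by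
      rintro b ⟨k, rfl⟩
      exact ((show Commute w i from hwi).zpow_right k).eq
    obtain ⟨hA1, hA2, hA3⟩ := n9a3_build (zpowers i) hB4 hBab w hwB
      (by rw [hw2]; exact one_mem _) hwc
      ⟨1, z, w, one_mem _, le_sup_left (a := zpowers i) hzB,
        le_sup_right (a := zpowers i) (mem_zpowers w), fun h => hz1 h.symm,
        fun h => hwD (h ▸ D.one_mem), fun h => hwD (h ▸ hzD), one_pow 2, hz2, hw2⟩
    exact hNo ⟨zpowers i ⊔ zpowers w, sup_le (hBD.trans hDle) (by rw [zpowers_le]; exact hwm),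
      hA1, hA2, hA3⟩

end Cfsg.Agent.Helper12.N9
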