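import Mathlib
import Cfsg.Agent.Helper90.MDDefs
import Cfsg.Agent.Helper58.MDCORE
import Cfsg.Agent.Helper91.MDAVG

set_option autoImplicit false

/-! CALL S2343 pieces ASUM, INV (helper12). -/

namespace Cfsg.Agent.Helper12

open Cfsg.Agent.Helper90.MD

/-- PIECE ASUM -/
theorem rmd43_asum {G : Type*} [Group G] (Z A : Subgroup G) [Fintype Z] [Fintype A]
    (hZA : Z ≤ A) (f : G → ℂ) (hf : ∀ x ∈ A, x ∉ Z → ∀ z ∈ Z, f (x * z) = f x)
    (lam : G → ℂ) (hl : IsCharOn A lam) (hnt : ∃ z ∈ Z, lam z ≠ 1) :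
    ∑ a : A, lam ((a : G)⁻¹) * f (a : G) = ∑ z : Z, lam ((z : G)⁻¹) * f (z : G) := by
  classical
  obtain ⟨z0, hz0, hne⟩ := hnt
  have hz0A : z0 ∈ A := hZA hz0
  have hinv : lam z0⁻¹ ≠ 1 := by
    intro h
    apply hne
    have h1 := hl.2 z0 hz0A z0⁻¹ (A.inv_mem hz0A)
    rw [mul_inv_cancel, hl.1, h, mul_one] at h1
    exact h1.symm
  rw [← Finset.sum_filter_add_sum_filter_not Finset.univ (fun a : A => (a : G) ∈ Z)]
  have hsecond : ∑ a ∈ Finset.univ.filter (fun a : A => ¬ (a : G) ∈ Z),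
      lam ((a : G)⁻¹) * f (a : G) = 0 := by
    have h1 : ∑ a ∈ Finset.univ.filter (fun a : A => ¬ (a : G) ∈ Z),
          lam (((Equiv.mulRight (⟨z0, hz0A⟩ : A) a : A) : G)⁻¹) *
            f ((Equiv.mulRight (⟨z0, hz0A⟩ : A) a : A) : G)
        = ∑ a ∈ Finset.univ.filter (fun a : A => ¬ (a : G) ∈ Z),
          lam ((a : G)⁻¹) * f (a : G) := by
      apply Finset.sum_equiv (Equiv.mulRight (⟨z0, hz0A⟩ : A))
      · intro a
        simp only [Finset.mem_filter, Finset.mem_univ, true_and, Equiv.coe_mulRight,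
          Subgroup.coe_mul]
        constructor
        · intro h hc
          apply h
          have h2 := Z.mul_mem hc (Z.inv_mem hz0)
          rwa [mul_inv_cancel_right] at h2
        · intro h hc
          exact h (Z.mul_mem hc hz0)
      · intro a _
        rfl
    have h2 : ∑ a ∈ Finset.univ.filter (fun a : A => ¬ (a : G) ∈ Z),
          lam (((Equiv.mulRight (⟨z0, hz0A⟩ : A) a : A) : G)⁻¹) *
            f ((Equiv.mulRight (⟨z0, hz0A⟩ : A) a : A) : G)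
        = lam z0⁻¹ * ∑ a ∈ Finset.univ.filter (fun a : A => ¬ (a : G) ∈ Z),
          lam ((a : G)⁻¹) * f (a : G) := by
      rw [Finset.mul_sum]
      apply Finset.sum_congr rfl
      intro a ha
      have haZ : ¬ (a : G) ∈ Z := (Finset.mem_filter.mp ha).2
      simp only [Equiv.coe_mulRight, Subgroup.coe_mul]
      rw [hf _ a.2 haZ z0 hz0, mul_inv_rev, hl.2 _ (A.inv_mem hz0A) _ (A.inv_mem a.2), mul_assoc]
    have h3 : (1 - lam z0⁻¹) * ∑ a ∈ Finset.univ.filter (fun a : A => ¬ (a : G) ∈ Z),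
        lam ((a : G)⁻¹) * f (a : G) = 0 := by
      rw [sub_mul, one_mul, ← h2, h1, sub_self]
    rcases mul_eq_zero.mp h3 with h | h
    · exact absurd (sub_eq_zero.mp h).symm hinv
    · exact h
  rw [hsecond, add_zero]
  refine Finset.sum_bij' (fun a ha => (⟨(a : G), (Finset.mem_filter.mp ha).2⟩ : Z))
    (fun z _ => (⟨(z : G), hZA z.2⟩ : A)) ?_ ?_ ?_ ?_ ?_
  · intro a ha; exact Finset.mem_univ _
  · intro z _
    simp only [Finset.mem_filter, Finset.mem_univ, true_and]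
    exact z.2
  · intro a ha; rfl
  · intro z _; rfl
  · intro a ha; rfl

/-- PIECE INV -/
theorem rmd43_inv {G : Type*} [Group G] {V : Type*} [AddCommGroup V] [Module ℂ V]
    [FiniteDimensional ℂ V] (ρ : Representation ℂ G V) (Z : Subgroup G) [Fintype Z]
    (hodd : Odd (Nat.card Z)) (t : G) (ht : ∀ z ∈ Z, t * z * t⁻¹ = z⁻¹)
    (hsum : ∑ z : Z, LinearMap.trace ℂ V (ρ (t * (z : G))) = 0) :
    LinearMap.trace ℂ V (ρ t) = 0 := by
  classical
  obtain ⟨k, hk⟩ := hodd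
  have hterm : ∀ z : Z, LinearMap.trace ℂ V (ρ (t * (z : G))) = LinearMap.trace ℂ V (ρ t) := by
    intro z
    -- `w := (z⁻¹) ^ (k + 1)` satisfies `w * w = z⁻¹`
    have hzc : (z : G) ^ (Nat.card Z) = 1 := by
      have h0 : z ^ Nat.card Z = 1 := pow_card_eq_one'
      rw [← Subgroup.coe_pow, h0, Subgroup.coe_one]
    have hw : ((z : G)⁻¹) ^ (k + 1) ∈ Z := Z.pow_mem (Z.inv_mem z.2) _
    have hww : ((z : G)⁻¹) ^ (k + 1) * ((z : G)⁻¹) ^ (k + 1) = (z : G)⁻¹ := by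
      rw [← pow_add]
      have h1 : k + 1 + (k + 1) = Nat.card Z + 1 := by omega
      rw [h1, pow_succ, inv_pow, hzc, inv_one, one_mul]
    have h2 := ht _ (Z.inv_mem hw)
    rw [inv_inv] at h2
    -- `t * z = w * t * w⁻¹`
    have h3 : t * (z : G) = ((z : G)⁻¹) ^ (k + 1) * t * (((z : G)⁻¹) ^ (k + 1))⁻¹ := by
      have h4 : ((z : G)⁻¹) ^ (k + 1) * t = t * (((z : G)⁻¹) ^ (k + 1))⁻¹ := by
        calc ((z : G)⁻¹) ^ (k + 1) * t
            = (t * (((z : G)⁻¹) ^ (k + 1))⁻¹ * t⁻¹) * t := by rw [h2]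
          _ = t * (((z : G)⁻¹) ^ (k + 1))⁻¹ := by group
      rw [h4, mul_assoc, ← mul_inv_rev, hww, inv_inv]
    have h5 : ρ (((z : G)⁻¹) ^ (k + 1) * t * (((z : G)⁻¹) ^ (k + 1))⁻¹)
        = ρ (((z : G)⁻¹) ^ (k + 1)) * ρ t * ρ ((((z : G)⁻¹) ^ (k + 1))⁻¹) := by
      rw [map_mul, map_mul]
    rw [h3, h5, LinearMap.trace_mul_comm, ← mul_assoc, ← map_mul, inv_mul_cancel,
      map_one, one_mul]
  rw [Finset.sum_congr rfl (fun z _ => hterm z), Finset.sum_const, Finset.card_univ,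
    nsmul_eq_mul] at hsum
  rcases mul_eq_zero.mp hsum with h | h
  · exfalso
    have : (Fintype.card Z : ℂ) ≠ 0 := Nat.cast_ne_zero.mpr Fintype.card_ne_zero
    exact this h
  · exact h

end Cfsg.Agent.Helper12
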