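import Mathlib
import Cfsg.Agent.Helper90.MDDefs
import Cfsg.Agent.Helper58.MDCORE
import Cfsg.Agent.Helper91.MDAVG

set_option autoImplicit false

/-! CALL S2343 pieces SUM1, SUM2 (helper12). -/

namespace Cfsg.Agent.Helper12

open Cfsg.Agent.Helper90.MD

/-- PIECE SUM1 -/
theorem rmd43_sum1 {G : Type*} [Group G] (Z : Subgroup G) [Fintype Z] (f : G → ℂ) (c : ℂ)
    (hf : ∀ z ∈ Z, z ≠ 1 → f z = c) :
    ∑ z : Z, f (z : G) = f 1 + ((Nat.card Z : ℂ) - 1) * c := by
  classical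
  rw [← Finset.add_sum_erase Finset.univ _ (Finset.mem_univ (1 : Z))]
  congr 1
  have h1 : ∀ x ∈ (Finset.univ : Finset Z).erase 1, f (x : G) = c := by
    intro x hx
    apply hf _ x.2
    intro h
    exact (Finset.mem_erase.mp hx).1 (Subtype.ext h)
  rw [Finset.sum_congr rfl h1, Finset.sum_const, Finset.card_erase_of_mem (Finset.mem_univ _),
    Finset.card_univ, nsmul_eq_mul, Nat.card_eq_fintype_card,
    Nat.cast_sub (Fintype.card_pos), Nat.cast_one]

/-- PIECE SUM2 -/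
theorem rmd43_sum2 {G : Type*} [Group G] (Z : Subgroup G) [Fintype Z] (f : G → ℂ) (c : ℂ)
    (hf : ∀ z ∈ Z, z ≠ 1 → f z = c) (lam : G → ℂ) (hl : IsCharOn Z lam)
    (hnt : ∃ z ∈ Z, lam z ≠ 1) :
    ∑ z : Z, lam ((z : G)⁻¹) * f (z : G) = f 1 - c := by
  classical
  have h0 : ∑ z : Z, lam ((z : G)⁻¹) = 0 := by
    have h1 := Cfsg.Agent.Helper58.MDCore.sum_char_eq_zero Z Z le_rfl lam hl hnt
    rw [← h1]
    exact Fintype.sum_equiv (Equiv.inv Z) _ _ (fun z => rfl)
  have h2 : ∑ z : Z, lam ((z : G)⁻¹) * f (z : G)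
      = ∑ z : Z, (lam ((z : G)⁻¹) * c + (if z = 1 then f 1 - c else 0)) := by
    apply Finset.sum_congr rfl
    intro z _
    by_cases hz : z = 1
    · subst hz
      simp only [Subgroup.coe_one, inv_one, hl.1, if_true]
      ring
    · rw [if_neg hz, add_zero, hf _ z.2 (fun h => hz (Subtype.ext h))]
  rw [h2, Finset.sum_add_distrib, ← Finset.sum_mul, h0, zero_mul, zero_add,
    Finset.sum_ite_eq' Finset.univ (1 : Z) (fun _ => f 1 - c), if_pos (Finset.mem_univ _)]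

end Cfsg.Agent.Helper12
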