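import Mathlib
import Cfsg.Prelude.Def_Perm

set_option autoImplicit false

/-!
# Orders of the one-dimensional affine and semi-affine groups of a finite field
-/

namespace Cfsg.Agent.Helper12

section SemiAff

variable (F : Type*) [Field F]

/-- the semi-affine map `x ↦ a * φ x + b` as a permutation -/
def semiAffPerm (a : Fˣ) (b : F) (φ : F ≃+* F) : Equiv.Perm F where
  toFun x := (a : F) * φ x + b
  invFun y := φ.symm (((a⁻¹ : Fˣ) : F) * (y - b))
  left_inv x := by simp
  right_inv y := by simp

theorem semiAffPerm_mem (a : Fˣ) (b : F) (φ : F ≃+* F) :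
    semiAffPerm F a b φ ∈ Cfsg.semiaffineGroup F := ⟨a, b, φ, fun _ => rfl⟩

theorem card_semiaffineGroup [Finite F] :
    Nat.card (Cfsg.semiaffineGroup F) = (Nat.card F - 1) * Nat.card F * Nat.card (F ≃+* F) := by
  have hbij : Function.Bijective (fun t : Fˣ × F × (F ≃+* F) =>
      (⟨semiAffPerm F t.1 t.2.1 t.2.2, semiAffPerm_mem F _ _ _⟩ : Cfsg.semiaffineGroup F)) := by
    constructor
    · rintro ⟨a, b, φ⟩ ⟨a', b', φ'⟩ h
      have h' : ∀ x, (a : F) * φ x + b = (a' : F) * φ' x + b' := fun x => by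
        have := congrArg (fun s : Cfsg.semiaffineGroup F => (s : Equiv.Perm F) x) h
        exact this
      have hb : b = b' := by simpa using h' 0
      have ha : (a : F) = a' := by simpa [hb] using h' 1
      have hφ : φ = φ' := by
        ext x
        have := h' x
        rw [hb, ha] at this
        exact mul_left_cancel₀ a'.ne_zero (add_right_cancel this)
      rw [Units.ext ha, hb, hφ]
    · rintro ⟨σ, a, b, φ, h⟩
      exact ⟨(a, b, φ), Subtype.ext (Equiv.ext fun x => (h x).symm)⟩
  rw [← Nat.card_congr (Equiv.ofBijective _ hbij), Nat.card_prod, Nat.card_prod, Nat.card_units,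
    mul_assoc]

/-- the affine map `x ↦ a * x + b` as a permutation -/
def affPermF (a : Fˣ) (b : F) : Equiv.Perm F where
  toFun x := (a : F) * x + b
  invFun y := ((a⁻¹ : Fˣ) : F) * (y - b)
  left_inv x := by simp
  right_inv y := by simp

theorem affPermF_mem (a : Fˣ) (b : F) :
    affPermF F a b ∈ Cfsg.affineGroup F := ⟨a, b, fun _ => rfl⟩

theorem card_affineGroup [Finite F] :
    Nat.card (Cfsg.affineGroup F) = (Nat.card F - 1) * Nat.card F := by
  have hbij : Function.Bijective (fun t : Fˣ × F =>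
      (⟨affPermF F t.1 t.2, affPermF_mem F _ _⟩ : Cfsg.affineGroup F)) := by
    constructor
    · rintro ⟨a, b⟩ ⟨a', b'⟩ h
      have h' : ∀ x, (a : F) * x + b = (a' : F) * x + b' := fun x => by
        have := congrArg (fun s : Cfsg.affineGroup F => (s : Equiv.Perm F) x) h
        exact this
      have hb : b = b' := by simpa using h' 0
      have ha : (a : F) = a' := by simpa [hb] using h' 1
      rw [Units.ext ha, hb]
    · rintro ⟨σ, a, b, h⟩
      exact ⟨(a, b), Subtype.ext (Equiv.ext fun x => (h x).symm)⟩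
  rw [← Nat.card_congr (Equiv.ofBijective _ hbij), Nat.card_prod, Nat.card_units]

variable {F}

/-- a permutation of the form `x ↦ a * φ x + b` with `a ≠ 0` is semi-affine -/
theorem mem_semiaffineGroup_of (τ : Equiv.Perm F) (a b : F) (φ : F ≃+* F) (ha : a ≠ 0)
    (h : ∀ x, τ x = a * φ x + b) : τ ∈ Cfsg.semiaffineGroup F :=
  ⟨Units.mk0 a ha, b, φ, h⟩

theorem mem_affineGroup_of (τ : Equiv.Perm F) (a b : F) (ha : a ≠ 0)
    (h : ∀ x, τ x = a * x + b) : τ ∈ Cfsg.affineGroup F :=
  ⟨Units.mk0 a ha, b, h⟩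

end SemiAff

end Cfsg.Agent.Helper12
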