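import Mathlib
import Cfsg.Agent.Helper12.Sharp3

/-!
# Sharply 3-transitive groups of any degree: the kernel of a point stabiliser and the linear
action of a two-point stabiliser on it (helper12)
-/

set_option autoImplicit false

namespace Cfsg.Agent.Helper12

open MulAction

section Sharp3Gen

universe u v

/-- Point stabilisers of a sharply 3-transitive group (any degree `≥ 3`): the degree is
`p ^ f + 1` and the stabiliser of `a` has a normal elementary abelian `p`-subgroup `N` which is
regular on the points other than `a`. -/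
theorem sharp3_kernel {G : Type u} [Group G] {α : Type v} [MulAction G α] [Fintype α]
    (h3 : IsMultiplyPretransitive G α 3) (hsharp : ∀ x : Fin 3 ↪ α, stabilizer G x = ⊥)
    (hm : 3 ≤ Fintype.card α) (a : α) :
    ∃ (p f : ℕ) (N : Subgroup G), p.Prime ∧ 1 ≤ f ∧ Fintype.card α = p ^ f + 1 ∧
      (∀ x ∈ N, x • a = a) ∧ (∀ x ∈ N, ∀ y ∈ N, x * y = y * x) ∧ (∀ x ∈ N, x ^ p = 1) ∧
      (∀ x ∈ N, ∀ b, b ≠ a → x • b = b → x = 1) ∧
      (∀ b c : α, b ≠ a → c ≠ a → ∃ x ∈ N, x • b = c) ∧
      (∀ g : G, g • a = a → ∀ x ∈ N, g * x * g⁻¹ ∈ N) := by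
  classical
  have hfinG : Finite G := sharp_finite hsharp hm
  have htr : IsPretransitive G α :=
    isPretransitive_of_multTrans (k := 3) (by norm_num)
      (by rw [Nat.card_eq_fintype_card]; exact hm) h3
  obtain ⟨h2H, hsharpH⟩ := sharp_ofStabilizer (k := 2) h3 hsharp a
  have hfinβ : Fintype (SubMulAction.ofStabilizer G a) := Fintype.ofFinite _
  have hcardβ : Fintype.card (SubMulAction.ofStabilizer G a) = Fintype.card α - 1 := by
    rw [← Nat.card_eq_fintype_card, SubMulAction.nat_card_ofStabilizer_eq G a,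
      Nat.card_eq_fintype_card]
  have htrH : IsPretransitive (stabilizer G a) (SubMulAction.ofStabilizer G a) :=
    isPretransitive_of_multTrans (k := 2) (by norm_num)
      (by rw [Nat.card_eq_fintype_card, hcardβ]; omega) h2H
  have hcardH : Nat.card (stabilizer G a) = Fintype.card (SubMulAction.ofStabilizer G a) *
      (Fintype.card (SubMulAction.ofStabilizer G a) - 1) := by
    rw [sharp_card h2H hsharpH (by rw [hcardβ]; omega), descFactorial_two']
  have hsh2 : ∀ (g : stabilizer G a) (b c : SubMulAction.ofStabilizer G a), b ≠ c →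
      g • b = b → g • c = c → g = 1 := by
    intro g b c hbc hb hc
    have hinj : Function.Injective ![b, c] := by
      intro i j hij
      fin_cases i <;> fin_cases j <;> simp_all
    apply sharpK_eq hsharpH ![b, c] hinj
    intro i
    fin_cases i
    · show g • b = (1 : stabilizer G a) • b
      rw [one_smul]; exact hb
    · show g • c = (1 : stabilizer G a) • c
      rw [one_smul]; exact hc
  obtain ⟨p, j, N, hp, hj, hpj, hNn, hNc, hNe, hNt, hNs, hNm, hNQ, hNp⟩ :=
    sharp2_main htrH hsh2 (by rw [hcardβ]; omega) hcardH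
  refine ⟨p, j, N.map (stabilizer G a).subtype, hp, hj, by rw [← hpj, hcardβ]; omega,
    ?_, ?_, ?_, ?_, ?_, ?_⟩
  · rintro _ ⟨x, -, rfl⟩
    exact x.2
  · rintro _ ⟨x, hx, rfl⟩ _ ⟨y, hy, rfl⟩
    exact congrArg (fun z : stabilizer G a => (z : G)) (hNc x hx y hy)
  · rintro _ ⟨x, hx, rfl⟩
    exact congrArg (fun z : stabilizer G a => (z : G)) (hNe x hx)
  · rintro _ ⟨x, hx, rfl⟩ b hba hb
    have hbmem : b ∈ SubMulAction.ofStabilizer G a := by
      rw [SubMulAction.mem_ofStabilizer_iff]; exact hba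
    have h1 := hNs x hx ⟨b, hbmem⟩ (Subtype.ext hb)
    rw [h1]; rfl
  · intro b c hba hca
    have hbmem : b ∈ SubMulAction.ofStabilizer G a := by
      rw [SubMulAction.mem_ofStabilizer_iff]; exact hba
    have hcmem : c ∈ SubMulAction.ofStabilizer G a := by
      rw [SubMulAction.mem_ofStabilizer_iff]; exact hca
    obtain ⟨g, hg, hgb⟩ := hNt ⟨b, hbmem⟩ ⟨c, hcmem⟩
    exact ⟨g, ⟨g, hg, rfl⟩, congrArg Subtype.val hgb⟩
  · rintro g hg _ ⟨x, hx, rfl⟩
    exact ⟨(⟨g, hg⟩ : stabilizer G a) * x * (⟨g, hg⟩ : stabilizer G a)⁻¹,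
      hNn.conj_mem x hx ⟨g, hg⟩, rfl⟩

/-- Conjugation of a subgroup `Hs` on an abelian subgroup `V` of exponent `p` normalised by it,
as a `ZMod p`-linear representation. -/
theorem exists_linear_of_conj {G : Type u} [Group G] (V Hs : Subgroup G) (p : ℕ) [Fact p.Prime]
    (hVc : ∀ x ∈ V, ∀ y ∈ V, x * y = y * x) (hVp : ∀ x ∈ V, x ^ p = 1)
    (hnorm : ∀ h ∈ Hs, ∀ x ∈ V, h * x * h⁻¹ ∈ V) :
    ∃ (W : Type u) (_ : AddCommGroup W) (_ : Module (ZMod p) W) (e : V ≃ W)
      (ρ : Hs →* (W ≃ₗ[ZMod p] W)),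
      (∀ x y : V, e (x * y) = e x + e y) ∧
      (∀ (h : Hs) (x : V), ((e.symm (ρ h (e x)) : V) : G) = (h : G) * (x : G) * (h : G)⁻¹) := by
  letI : CommGroup V := { (inferInstance : Group V) with
    mul_comm := fun x y => Subtype.ext (hVc x x.2 y y.2) }
  have hpV : ∀ x : Additive V, p • x = 0 := by
    intro x
    have h1 : (Additive.toMul x) ^ p = 1 :=
      Subtype.ext (by rw [Subgroup.coe_pow, Subgroup.coe_one]; exact hVp _ (Additive.toMul x).2)
    show Additive.ofMul ((Additive.toMul x) ^ p) = 0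
    rw [h1]; rfl
  obtain ⟨inst⟩ : Nonempty (Module (ZMod p) (Additive V)) := ⟨AddCommGroup.zmodModule hpV⟩
  let c : Hs → MulAut V := fun h =>
    { toFun := fun x => ⟨h * x * (h : G)⁻¹, hnorm h h.2 x x.2⟩
      invFun := fun x => ⟨(h : G)⁻¹ * x * h, by
        have h1 := hnorm (h : G)⁻¹ (Hs.inv_mem h.2) x x.2
        rwa [inv_inv] at h1⟩
      left_inv := fun x => Subtype.ext (by simp [mul_assoc])
      right_inv := fun x => Subtype.ext (by simp [mul_assoc])
      map_mul' := fun x y => Subtype.ext (by simp [mul_assoc]) }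
  have hc : ∀ (h : Hs) (x : V), ((c h x : V) : G) = (h : G) * (x : G) * (h : G)⁻¹ :=
    fun _ _ => rfl
  let ρ : Hs →* (Additive V ≃ₗ[ZMod p] Additive V) :=
    { toFun := fun h => (MulEquiv.toAdditive (c h)).toLinearEquiv
        (fun k x => ZMod.map_smul (MulEquiv.toAdditive (c h)) k x)
      map_one' := by
        apply LinearEquiv.ext
        intro v
        show Additive.ofMul (c 1 (Additive.toMul v)) = v
        have h1 : c 1 (Additive.toMul v) = Additive.toMul v :=
          Subtype.ext (by rw [hc]; simp)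
        rw [h1]; rfl
      map_mul' := by
        intro h k
        apply LinearEquiv.ext
        intro v
        show Additive.ofMul (c (h * k) (Additive.toMul v)) =
          Additive.ofMul (c h (c k (Additive.toMul v)))
        have h1 : c (h * k) (Additive.toMul v) = c h (c k (Additive.toMul v)) :=
          Subtype.ext (by rw [hc, hc, hc]; simp [mul_assoc])
        rw [h1] }
  exact ⟨Additive V, inferInstance, inst, Additive.ofMul, ρ, fun _ _ => rfl, fun h x => hc h x⟩

/-- Sharply 3-transitive groups: the two-point stabiliser `G_a ⊓ G_b` acts linearly and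
regularly on the non-zero vectors of the kernel `V` of `G_b` (written additively as `W`). -/
theorem sharp3_linear {G : Type u} [Group G] {α : Type v} [MulAction G α] [Fintype α]
    (h3 : IsMultiplyPretransitive G α 3) (hsharp : ∀ x : Fin 3 ↪ α, stabilizer G x = ⊥)
    (hm : 3 ≤ Fintype.card α) {a b : α} (hab : a ≠ b) :
    ∃ (p f : ℕ) (_ : Fact p.Prime) (V : Subgroup G) (W : Type u) (_ : AddCommGroup W)
      (_ : Module (ZMod p) W) (_ : Finite W) (_ : Nontrivial W) (e : V ≃ W)
      (ρ : ↥(stabilizer G a ⊓ stabilizer G b) →* (W ≃ₗ[ZMod p] W)),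
      1 ≤ f ∧ Fintype.card α = p ^ f + 1 ∧ Nat.card W = p ^ f ∧
      (∀ x ∈ V, x • b = b) ∧
      (∀ x ∈ V, ∀ c, c ≠ b → x • c = c → x = 1) ∧
      (∀ c d : α, c ≠ b → d ≠ b → ∃ x ∈ V, x • c = d) ∧
      (∀ x y : V, e (x * y) = e x + e y) ∧
      (∀ (h : ↥(stabilizer G a ⊓ stabilizer G b)) (x : V),
        ((e.symm (ρ h (e x)) : V) : G) = (h : G) * (x : G) * (h : G)⁻¹) ∧
      Function.Injective ρ ∧
      (∀ v w : W, v ≠ 0 → w ≠ 0 → ∃ h, ρ h v = w) ∧
      (∀ v : W, v ≠ 0 → ∀ h, ρ h v = v → h = 1) := by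
  classical
  obtain ⟨p, f, V, hp, hf, hcard, hVb, hVc, hVp, hVs, hVt, hVn⟩ := sharp3_kernel h3 hsharp hm b
  haveI : Fact p.Prime := ⟨hp⟩
  obtain ⟨W, iW, mW, e, ρ, hadd, hconj⟩ :=
    exists_linear_of_conj V (stabilizer G a ⊓ stabilizer G b) p hVc hVp
      (fun h hh x hx => hVn h (mem_stabilizer_iff.mp hh.2) x hx)
  have he1 : e 1 = 0 := by
    have h1 := hadd 1 1
    rw [mul_one] at h1
    exact left_eq_add.mp h1
  have he0 : ∀ x : V, e x = 0 → x = 1 := by
    intro x h
    apply e.injective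
    rw [h, he1]
  -- the orbit map of `V` at `a`
  have hVinj : ∀ x y : V, (x : G) • a = (y : G) • a → x = y := by
    intro x y h
    have h1 : ((y⁻¹ * x : V) : G) • a = a := by
      rw [Subgroup.coe_mul, Subgroup.coe_inv, mul_smul, h, inv_smul_smul]
    have h2 := hVs _ (y⁻¹ * x).2 a hab h1
    have h3 : y⁻¹ * x = 1 := Subtype.ext h2
    exact (inv_mul_eq_one.mp h3).symm
  have hVab : ∀ x : V, (x : G) • a ≠ b := by
    intro x h
    have h1 : (x : G) • a = (x : G) • b := by rw [h, hVb x x.2]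
    exact hab (smul_left_cancel _ h1)
  have hcardV : Nat.card V = p ^ f := by
    have hbij : Function.Bijective
        (fun x : V => (⟨(x : G) • a, Set.mem_compl_singleton_iff.mpr (hVab x)⟩ :
          (({b}ᶜ : Set α) : Type v))) := by
      constructor
      · intro x y h
        exact hVinj x y (congrArg Subtype.val h)
      · rintro ⟨c, hc⟩
        obtain ⟨x, hx, hxa⟩ := hVt a c hab (Set.mem_compl_singleton_iff.mp hc)
        exact ⟨⟨x, hx⟩, Subtype.ext hxa⟩
    have h1 := Nat.card_congr (Equiv.ofBijective _ hbij)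
    have h2 := Set.ncard_add_ncard_compl ({b} : Set α)
    rw [Set.ncard_singleton, Nat.card_eq_fintype_card, hcard] at h2
    rw [h1, Nat.card_coe_set_eq]
    omega
  have hfinW : Finite W := by
    have hfinG : Finite G := sharp_finite hsharp hm
    exact Finite.of_equiv V e
  have hcardW : Nat.card W = p ^ f := by rw [← Nat.card_congr e, hcardV]
  have hntW : Nontrivial W := by
    apply (Finite.one_lt_card_iff_nontrivial).mp
    rw [hcardW]
    exact Nat.one_lt_pow (by omega) hp.one_lt
  have hreg : ∀ v : W, v ≠ 0 → ∀ h, ρ h v = v → h = 1 := by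
    intro v hv h hh
    have hx1 : e.symm v ≠ 1 := by
      intro h1
      apply hv
      rw [← e.apply_symm_apply v, h1, he1]
    have h1 := hconj h (e.symm v)
    rw [e.apply_symm_apply, hh] at h1
    have h2 : (h : G) • ((e.symm v : V) : G) • a = ((e.symm v : V) : G) • a := by
      conv_rhs => rw [h1]
      rw [mul_smul, mul_smul, inv_smul_eq_iff.mpr (mem_stabilizer_iff.mp h.2.1).symm]
    have hxa : ((e.symm v : V) : G) • a ≠ a := by
      intro h3
      exact hx1 (Subtype.ext (hVs _ (e.symm v).2 a hab h3))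
    have h3 := sharp3_eq_one hsharp hab hxa.symm (hVab (e.symm v)).symm
      (mem_stabilizer_iff.mp h.2.1) (mem_stabilizer_iff.mp h.2.2) h2
    exact Subtype.ext h3
  refine ⟨p, f, ‹_›, V, W, iW, mW, hfinW, hntW, e, ρ, hf, hcard, hcardW, hVb, hVs, hVt, hadd,
    hconj, ?_, ?_, hreg⟩
  · apply (injective_iff_map_eq_one ρ).mpr
    intro h hh
    obtain ⟨v, hv⟩ := exists_ne (0 : W)
    exact hreg v hv h (by rw [hh]; rfl)
  · intro v w hv hw
    have hx1 : e.symm v ≠ 1 := by
      intro h1
      apply hv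
      rw [← e.apply_symm_apply v, h1, he1]
    have hy1 : e.symm w ≠ 1 := by
      intro h1
      apply hw
      rw [← e.apply_symm_apply w, h1, he1]
    have hxa : ((e.symm v : V) : G) • a ≠ a := by
      intro h3
      exact hx1 (Subtype.ext (hVs _ (e.symm v).2 a hab h3))
    have hya : ((e.symm w : V) : G) • a ≠ a := by
      intro h3
      exact hy1 (Subtype.ext (hVs _ (e.symm w).2 a hab h3))
    have hinj : ∀ z : α, z ≠ a → z ≠ b → Function.Injective ![a, b, z] := by
      intro z hza hzb i j hij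
      fin_cases i <;> fin_cases j <;> simp_all
    obtain ⟨g, hg⟩ := sharpK_ex h3 ![a, b, ((e.symm v : V) : G) • a]
      ![a, b, ((e.symm w : V) : G) • a] (hinj _ hxa (hVab _)) (hinj _ hya (hVab _))
    have hga : g • a = a := hg 0
    have hgb : g • b = b := hg 1
    have hgx : g • ((e.symm v : V) : G) • a = ((e.symm w : V) : G) • a := hg 2
    refine ⟨⟨g, mem_stabilizer_iff.mpr hga, mem_stabilizer_iff.mpr hgb⟩, ?_⟩
    have h1 := hconj ⟨g, mem_stabilizer_iff.mpr hga, mem_stabilizer_iff.mpr hgb⟩ (e.symm v)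
    rw [e.apply_symm_apply] at h1
    have h2 : e.symm (ρ ⟨g, mem_stabilizer_iff.mpr hga, mem_stabilizer_iff.mpr hgb⟩ v) =
        e.symm w := by
      apply hVinj
      rw [h1, mul_smul, mul_smul, inv_smul_eq_iff.mpr hga.symm]
      exact hgx
    exact e.symm.injective h2

end Sharp3Gen

end Cfsg.Agent.Helper12
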