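import Mathlib
import Cfsg.Agent.Helper12.Idx2
import Cfsg.Agent.Helper12.Sharp3Gen
import Cfsg.Agent.S3361
import Cfsg.Agent.S0689

/-!
# Sharply 3-transitive groups of degree `p ^ f + 1`, `p` odd, `f` odd: the two-point stabiliser
is commutative (helper12)
-/

set_option autoImplicit false

namespace Cfsg.Agent.Helper12

open MulAction

section Sharp3Comm

universe u v

/-- a subgroup containing all `h * (φ h)⁻¹`, for an endomorphism `φ` with at most two fixed
points, has index at most 2 -/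
theorem card_le_two_mul_of_invol {H : Type u} [Group H] [Finite H] (φ : H →* H)
    (hfix : Set.ncard {h : H | φ h = h} ≤ 2) (S : Subgroup H) (hS : ∀ h, h * (φ h)⁻¹ ∈ S) :
    Nat.card H ≤ 2 * Nat.card S := by
  classical
  haveI : Fintype H := Fintype.ofFinite H
  let sFix : Finset H := Finset.univ.filter (fun h => φ h = h)
  let sS : Finset H := Finset.univ.filter (fun g => g ∈ S)
  have hsFix : sFix.card ≤ 2 := by
    have h1 : ({h : H | φ h = h} : Set H) = ↑sFix := by ext x; simp [sFix]
    rw [h1, Set.ncard_coe_finset] at hfix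
    exact hfix
  have hsS : Nat.card S = sS.card := by
    rw [← Set.ncard_coe_finset, ← Nat.card_coe_set_eq]
    apply Nat.card_congr
    exact Equiv.subtypeEquivRight (fun x => by simp [sS])
  have hfib : ∀ a ∈ (Finset.univ : Finset H).image (fun g => g * (φ g)⁻¹),
      ((Finset.univ : Finset H).filter (fun x => x * (φ x)⁻¹ = a)).card ≤ 2 := by
    intro a ha
    obtain ⟨g', -, rfl⟩ := Finset.mem_image.mp ha
    have hsub : (Finset.univ : Finset H).filter (fun x => x * (φ x)⁻¹ = g' * (φ g')⁻¹) ⊆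
        sFix.image (fun h => g' * h) := by
      intro x hx
      rw [Finset.mem_filter] at hx
      rw [Finset.mem_image]
      refine ⟨g'⁻¹ * x, ?_, mul_inv_cancel_left g' x⟩
      simp only [sFix, Finset.mem_filter, Finset.mem_univ, true_and]
      have h2 : φ x = φ g' * g'⁻¹ * x := by
        calc φ x = (x * (φ x)⁻¹)⁻¹ * x := by group
          _ = (g' * (φ g')⁻¹)⁻¹ * x := by rw [hx.2]
          _ = φ g' * g'⁻¹ * x := by group
      rw [map_mul, map_inv, h2]
      group
    calc ((Finset.univ : Finset H).filter (fun x => x * (φ x)⁻¹ = g' * (φ g')⁻¹)).card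
        ≤ (sFix.image (fun h => g' * h)).card := Finset.card_le_card hsub
      _ ≤ sFix.card := Finset.card_image_le
      _ ≤ 2 := hsFix
  have h1 := Finset.card_le_mul_card_image (Finset.univ : Finset H) 2 hfib
  have h2 : (Finset.univ : Finset H).image (fun g => g * (φ g)⁻¹) ⊆ sS := by
    intro a ha
    obtain ⟨g, -, rfl⟩ := Finset.mem_image.mp ha
    simp only [sS, Finset.mem_filter, Finset.mem_univ, true_and]
    exact hS g
  have h3 := Finset.card_le_card h2
  rw [Nat.card_eq_fintype_card, ← Finset.card_univ, hsS]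
  omega

/-- A finite group acting faithfully on a finite field with an odd number of automorphisms by
maps `x ↦ a * σ x`, and admitting an involutory endomorphism with at most two fixed points, is
commutative. -/
theorem comm_of_semilinear_of_invol {F : Type*} [Field F] [Finite F] {G : Type*} [Group G]
    [Finite G] (act : G → F → F) (hone : ∀ x, act 1 x = x)
    (hmul : ∀ g g' x, act (g * g') x = act g (act g' x))
    (hinj : ∀ g g', (∀ x, act g x = act g' x) → g = g')
    (hsemi : ∀ g, ∃ (a : F) (σ : F ≃+* F), ∀ x, act g x = a * σ x)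
    (hodd : Odd (Nat.card (F ≃+* F)))
    (φ : G →* G) (hφ2 : ∀ g, φ (φ g) = g) (hfix : Set.ncard {g : G | φ g = g} ≤ 2) :
    ∀ x y : G, x * y = y * x := by
  classical
  choose a σ hσ using hsemi
  have ha1 : ∀ g, a g = act g 1 := fun g => by rw [hσ g 1, map_one, mul_one]
  have ha0 : ∀ g, a g ≠ 0 := by
    intro g h0
    have h1 : act g (act g⁻¹ 1) = 1 := by rw [← hmul, mul_inv_cancel, hone]
    rw [hσ g, h0, zero_mul] at h1
    exact zero_ne_one h1
  have hamul : ∀ g g', a (g * g') = a g * σ g (a g') := by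
    intro g g'
    rw [ha1, hmul, ← ha1 g', hσ g]
  have hσmul : ∀ g g', σ (g * g') = σ g * σ g' := by
    intro g g'
    have hx : ∀ x, a (g * g') * σ (g * g') x = a g * σ g (a g') * σ g (σ g' x) := by
      intro x
      rw [← hσ (g * g') x, hmul, hσ g' x, hσ g, map_mul, mul_assoc]
    ext x
    have h2 := hx x
    rw [hamul] at h2
    have hne : a g * σ g (a g') ≠ 0 :=
      mul_ne_zero (ha0 g) ((map_ne_zero_iff (σ g) (σ g).injective).mpr (ha0 g'))
    exact mul_left_cancel₀ hne h2
  let Φ : G →* (F ≃+* F) := MonoidHom.mk' σ hσmul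
  have hΦ : ∀ g, Φ g = σ g := fun _ => rfl
  have hσinv : ∀ g, σ g⁻¹ = (σ g)⁻¹ := fun g => Φ.map_inv g
  haveI : IsCyclic (F ≃+* F) := isCyclic_ringAut_of_finite_field F
  haveI : Finite (F ≃+* F) := Finite.of_injective (fun s : F ≃+* F => (s : F → F))
    DFunLike.coe_injective
  have hΓcomm : ∀ s t : F ≃+* F, s * t = t * s := by
    intro s t
    obtain ⟨g, hg⟩ := IsCyclic.exists_generator (α := F ≃+* F)
    obtain ⟨i, rfl⟩ := Subgroup.mem_zpowers_iff.mp (hg s)
    obtain ⟨j, rfl⟩ := Subgroup.mem_zpowers_iff.mp (hg t)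
    exact zpow_mul_comm g i j
  -- Step 1: `σ (φ h) = (σ h)⁻¹`
  let Ψ : G →* (F ≃+* F) :=
    { toFun := fun h => σ (φ h) * σ h
      map_one' := by
        have h1 : σ 1 = 1 := Φ.map_one
        rw [map_one, h1, one_mul]
      map_mul' := fun h k => by
        rw [map_mul, hσmul, hσmul]
        calc σ (φ h) * σ (φ k) * (σ h * σ k) = σ (φ h) * (σ (φ k) * σ h) * σ k := by
              simp only [mul_assoc]
          _ = σ (φ h) * (σ h * σ (φ k)) * σ k := by rw [hΓcomm (σ (φ k)) (σ h)]
          _ = σ (φ h) * σ h * (σ (φ k) * σ k) := by simp only [mul_assoc] }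
  have hΨ : ∀ h, Ψ h = σ (φ h) * σ h := fun _ => rfl
  have hΨD : ∀ h, h * (φ h)⁻¹ ∈ Ψ.ker := by
    intro h
    rw [MonoidHom.mem_ker, hΨ, map_mul, map_inv, hφ2, hσmul, hσmul, hσinv, hσinv]
    group
  have hcardle := card_le_two_mul_of_invol φ hfix Ψ.ker hΨD
  have hΨtriv : ∀ h, σ (φ h) * σ h = 1 := by
    have h1 : Ψ.ker.index = Nat.card Ψ.range := Subgroup.index_ker Ψ
    have h2 : Nat.card Ψ.range ∣ Nat.card (F ≃+* F) := Subgroup.card_subgroup_dvd_card _
    have h3 : Nat.card Ψ.ker * Ψ.ker.index = Nat.card G := Subgroup.card_mul_index _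
    have h4 : Odd (Nat.card Ψ.range) := hodd.of_dvd_nat h2
    have h5 : Ψ.ker.index = 1 := by
      have hpos : 0 < Nat.card Ψ.ker := Nat.card_pos
      have hle : Ψ.ker.index ≤ 2 := by
        by_contra hc
        push Not at hc
        nlinarith
      rw [h1] at hle ⊢
      obtain ⟨j, hj⟩ := h4
      omega
    have h6 : Ψ.ker = ⊤ := Subgroup.index_eq_one.mp h5
    intro h
    have h7 : h ∈ Ψ.ker := by rw [h6]; exact Subgroup.mem_top h
    exact MonoidHom.mem_ker.mp h7
  have hσφ : ∀ h, σ (φ h) = (σ h)⁻¹ := fun h => eq_inv_of_mul_eq_one_left (hΨtriv h)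
  -- Step 2: the kernel of `σ` is cyclic and `φ`-invariant
  have hker : ∀ c : G, c ∈ Φ.ker → ∀ x, σ c x = x := by
    intro c hc x
    have h1 : Φ c = 1 := hc
    rw [hΦ] at h1
    rw [h1]
    rfl
  let f : Φ.ker →* F :=
    { toFun := fun c => a (c : G)
      map_one' := by
        show a ((1 : Φ.ker) : G) = 1
        rw [ha1, Subgroup.coe_one, hone]
      map_mul' := by
        intro c c'
        show a ((c * c' : Φ.ker) : G) = a (c : G) * a (c' : G)
        rw [Subgroup.coe_mul, hamul, hker c c.2] }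
  have hfa : ∀ c : Φ.ker, f c = a (c : G) := fun _ => rfl
  have hf : Function.Injective f := by
    intro c c' hcc
    apply Subtype.ext
    apply hinj
    intro x
    have h1 : a (c : G) = a (c' : G) := hcc
    rw [hσ, hσ, hker c c.2, hker c' c'.2, h1]
  haveI : IsCyclic Φ.ker := isCyclic_of_subgroup_isDomain f hf
  have hφker : ∀ k : G, k ∈ Φ.ker → φ k ∈ Φ.ker := by
    intro k hk
    rw [MonoidHom.mem_ker] at hk ⊢
    rw [hΦ] at hk ⊢
    rw [hσφ, hk, inv_one]
  let φK : Φ.ker →* Φ.ker := (φ.comp Φ.ker.subtype).codRestrict Φ.ker (fun k => hφker k k.2)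
  have hφK : ∀ k : Φ.ker, ((φK k : Φ.ker) : G) = φ (k : G) := fun _ => rfl
  obtain ⟨m, hm⟩ : ∃ m : ℕ, ∀ g : Φ.ker, φK g = g ^ m := by
    obtain ⟨m, hm⟩ := MonoidHom.map_cyclic φK
    refine ⟨(m % (Nat.card Φ.ker : ℤ)).toNat, fun g => ?_⟩
    rw [hm, ← zpow_natCast,
      Int.toNat_of_nonneg (Int.emod_nonneg _ (by exact_mod_cast Nat.card_pos.ne')),
      zpow_mod_natCard]
  have ham : ∀ k : G, k ∈ Φ.ker → a (φ k) = a k ^ m := by
    intro k hk
    have h1 : f (φK ⟨k, hk⟩) = f ⟨k, hk⟩ ^ m := by rw [hm, map_pow]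
    exact h1
  have hconj : ∀ (y k : G), k ∈ Φ.ker → a (y * k * y⁻¹) = σ y (a k) := by
    intro y k hk
    have h1 : a y * σ y (a y⁻¹) = 1 := by rw [← hamul, mul_inv_cancel, ha1, hone]
    calc a (y * k * y⁻¹) = a y * σ y (a k) * σ y (σ k (a y⁻¹)) := by
          rw [hamul, hamul, hσmul]; rfl
      _ = σ y (a k) * (a y * σ y (a y⁻¹)) := by rw [hker k hk]; ring
      _ = σ y (a k) := by rw [h1, mul_one]
  have hnorm : ∀ (y k : G), k ∈ Φ.ker → y * k * y⁻¹ ∈ Φ.ker :=
    fun y k hk => (MonoidHom.normal_ker Φ).conj_mem k hk y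
  have hkey : ∀ (y k : G), k ∈ Φ.ker → σ y (σ y (a k)) = a k := by
    intro y k hk
    have hk0 : φ k ∈ Φ.ker := hφker k hk
    have e1 : a (φ (y * φ k * y⁻¹)) = σ y (a k) := by
      have h1 := ham (y * φ k * y⁻¹) (hnorm y (φ k) hk0)
      have h2 := ham (φ k) hk0
      rw [hφ2] at h2
      rw [h1, hconj y (φ k) hk0, ← map_pow, ← h2]
    have e2 : a (φ (y * φ k * y⁻¹)) = (σ y)⁻¹ (a k) := by
      rw [map_mul, map_mul, map_inv, hφ2, hconj (φ y) k hk, hσφ]
    have h3 : σ y (a k) = (σ y)⁻¹ (a k) := e1.symm.trans e2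
    rw [h3]
    exact (σ y).apply_symm_apply (a k)
  have hfixa : ∀ (y k : G), k ∈ Φ.ker → σ y (a k) = a k := by
    intro y k hk
    obtain ⟨j, hj⟩ := hodd
    have h1 : (σ y) ^ (2 * j + 1) = 1 := by rw [← hj]; exact pow_card_eq_one'
    have h2 : ∀ n : ℕ, ((σ y) ^ (2 * n)) (a k) = a k := by
      intro n
      induction n with
      | zero => rfl
      | succ n ih =>
        rw [show 2 * (n + 1) = 2 * n + 2 by ring, pow_add, RingAut.mul_apply, pow_two,
          RingAut.mul_apply, hkey y k hk, ih]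
    have h3 : σ y (a k) = ((σ y) ^ (2 * j + 1)) (a k) := by
      rw [pow_succ', RingAut.mul_apply, h2 j]
    rw [h3, h1]
    rfl
  have hcenter : Φ.ker ≤ Subgroup.center G := by
    intro k hk
    rw [Subgroup.mem_center_iff]
    intro y
    have h1 : y * k * y⁻¹ = k := by
      have h2 : a (y * k * y⁻¹) = a k := by rw [hconj y k hk, hfixa y k hk]
      have h3 := hf (a₁ := ⟨y * k * y⁻¹, hnorm y k hk⟩) (a₂ := ⟨k, hk⟩) h2
      exact congrArg Subtype.val h3
    calc y * k = y * k * y⁻¹ * y := by group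
      _ = k * y := by rw [h1]
  exact fun x y => commutative_of_cyclic_center_quotient Φ hcenter x y

theorem prime_pow_eq {p q f r : ℕ} (hp : p.Prime) (hq : q.Prime) (hf : 1 ≤ f)
    (h : p ^ f = q ^ r) : p = q ∧ f = r := by
  have h1 : p ∣ q ^ r := by rw [← h]; exact dvd_pow_self p (by omega)
  have h2 : p = q := (Nat.prime_dvd_prime_iff_eq hp hq).mp (hp.dvd_of_dvd_pow h1)
  subst h2
  exact ⟨rfl, Nat.pow_right_injective hp.two_le h⟩

/-- the number of automorphisms of a field with `p ^ f` elements is `f` -/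
theorem card_ringAut_of_card (F : Type*) [Field F] [Finite F] {p f : ℕ} (hp : p.Prime)
    (hF : Nat.card F = p ^ f) : Nat.card (F ≃+* F) = f := by
  obtain ⟨q, hq⟩ := CharP.exists F
  haveI := hq
  haveI : Fact q.Prime := ⟨CharP.char_is_prime F q⟩
  letI : Algebra (ZMod q) F := ZMod.algebra F q
  have h1 : Nat.card F = q ^ Module.finrank (ZMod q) F := by
    have h := Module.natCard_eq_pow_finrank (K := ZMod q) (V := F)
    rwa [Nat.card_zmod] at h
  have hf1 : 1 ≤ f := by
    by_contra h0
    have h00 : f = 0 := by omega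
    rw [h00, pow_zero] at hF
    have h2 : 1 < Nat.card F := Finite.one_lt_card
    omega
  have h2 : f = Module.finrank (ZMod q) F :=
    (prime_pow_eq hp (Fact.out : q.Prime) hf1 (hF.symm.trans h1)).2
  have hcard : Nat.card (F ≃ₐ[ZMod q] F) = Module.finrank (ZMod q) F :=
    IsGalois.card_aut_eq_finrank (ZMod q) F
  rw [h2, ← hcard]
  symm
  apply Nat.card_congr
  refine Equiv.ofBijective (fun σ : F ≃ₐ[ZMod q] F => σ.toRingEquiv) ⟨?_, ?_⟩
  · intro σ τ h
    ext x
    exact RingEquiv.congr_fun h x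
  · intro σ
    refine ⟨AlgEquiv.ofRingEquiv (f := σ) ?_, ?_⟩
    · intro x
      have h : (σ : F →+* F).comp (algebraMap (ZMod q) F) = algebraMap (ZMod q) F :=
        Subsingleton.elim _ _
      exact RingHom.congr_fun h x
    · ext x
      rfl

theorem odd_pow_ne_sq {p f : ℕ} (hp : p.Prime) (hf : Odd f) (q : ℕ) (hq : q.Prime) :
    p ^ f ≠ q ^ 2 := by
  intro h
  obtain ⟨j, hj⟩ := hf
  have h1 := (prime_pow_eq hp hq (by omega) h).2
  omega

/-- In a sharply 3-transitive group of degree `p ^ f + 1` with `p` and `f` odd, the stabiliser of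
two points is commutative. -/
theorem sharp3_two_point_comm {G : Type u} [Group G] {α : Type v} [MulAction G α] [Fintype α]
    (h3 : IsMultiplyPretransitive G α 3) (hsharp : ∀ x : Fin 3 ↪ α, stabilizer G x = ⊥)
    {p f : ℕ} (hp : p.Prime) (hp2 : p ≠ 2) (hfo : Odd f) (hα : Fintype.card α = p ^ f + 1)
    {a b : α} (hab : a ≠ b) :
    ∀ x y : ↥(stabilizer G a ⊓ stabilizer G b), x * y = y * x := by
  classical
  have hf1 : 1 ≤ f := by
    obtain ⟨j, hj⟩ := hfo
    omega
  have hpf : 3 ≤ p ^ f := by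
    have h1 : p ^ 1 ≤ p ^ f := Nat.pow_le_pow_right hp.pos hf1
    have h2 := hp.two_le
    rw [pow_one] at h1
    omega
  have hm : 3 ≤ Fintype.card α := by omega
  have hfinG : Finite G := sharp_finite hsharp hm
  obtain ⟨p', f', hpF, V, W, iW, mW, hfinW, hntW, e, ρ, hf', hcard, hcardW, hVb, hVs, hVt, hadd,
    hconj, hρ, htrans, hreg⟩ := sharp3_linear h3 hsharp hm hab
  have hWpf : Nat.card W = p ^ f := by
    rw [hcardW]
    rw [hα] at hcard
    omega
  have hnsq : ∀ q : ℕ, q.Prime → Nat.card W ≠ q ^ 2 := fun q hq => by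
    rw [hWpf]; exact odd_pow_ne_sq hp hfo q hq
  -- a third point and a swap
  obtain ⟨c, hc⟩ : ∃ c, c ∉ ({a, b} : Finset α) := by
    by_contra hcon
    push Not at hcon
    have h1 : Finset.univ ⊆ ({a, b} : Finset α) := fun x _ => hcon x
    have h2 := Finset.card_le_card h1
    rw [Finset.card_univ] at h2
    have h3 : ({a, b} : Finset α).card ≤ 2 := Finset.card_le_two
    omega
  have hac : a ≠ c := by
    intro h
    apply hc
    rw [← h]
    simp
  have hbc : b ≠ c := by
    intro h
    apply hc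
    rw [← h]
    simp
  have hinj : ∀ x y z : α, x ≠ y → x ≠ z → y ≠ z → Function.Injective ![x, y, z] := by
    intro x y z hxy hxz hyz i j hij
    fin_cases i <;> fin_cases j <;> simp_all
  obtain ⟨s, hs⟩ := sharpK_ex h3 ![a, b, c] ![b, a, c] (hinj a b c hab hac hbc)
    (hinj b a c hab.symm hbc hac)
  have hsa : s • a = b := hs 0
  have hsb : s • b = a := hs 1
  have hsc : s • c = c := hs 2
  have hs2 : s * s = 1 := by
    apply sharp3_eq_one hsharp hab hac hbc
    · rw [mul_smul, hsa, hsb]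
    · rw [mul_smul, hsb, hsa]
    · rw [mul_smul, hsc, hsc]
  have hsinv : s⁻¹ = s := inv_eq_of_mul_eq_one_right hs2
  have hs1 : s ≠ 1 := by
    rintro rfl
    rw [one_smul] at hsa
    exact hab hsa
  have hφmem : ∀ h : G, h ∈ stabilizer G a ⊓ stabilizer G b →
      s * h * s⁻¹ ∈ stabilizer G a ⊓ stabilizer G b := by
    intro h hh
    have ha := mem_stabilizer_iff.mp hh.1
    have hb := mem_stabilizer_iff.mp hh.2
    refine ⟨mem_stabilizer_iff.mpr ?_, mem_stabilizer_iff.mpr ?_⟩
    · rw [hsinv, mul_smul, mul_smul, hsa, hb, hsb]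
    · rw [hsinv, mul_smul, mul_smul, hsb, ha, hsa]
  let φ : ↥(stabilizer G a ⊓ stabilizer G b) →* ↥(stabilizer G a ⊓ stabilizer G b) :=
    ((MulAut.conj s).toMonoidHom.comp (stabilizer G a ⊓ stabilizer G b).subtype).codRestrict
      (stabilizer G a ⊓ stabilizer G b) (fun h => hφmem h h.2)
  have hφ : ∀ h : ↥(stabilizer G a ⊓ stabilizer G b),
      ((φ h : ↥(stabilizer G a ⊓ stabilizer G b)) : G) = s * (h : G) * s⁻¹ := fun _ => rfl
  have hφ2 : ∀ h, φ (φ h) = h := by
    intro h
    apply Subtype.ext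
    rw [hφ, hφ, hsinv]
    calc s * (s * (h : G) * s) * s = (s * s) * (h : G) * (s * s) := by group
      _ = (h : G) := by rw [hs2, one_mul, mul_one]
  have hinjc : ∀ h h' : ↥(stabilizer G a ⊓ stabilizer G b),
      (h : G) • c = (h' : G) • c → h = h' := by
    intro h h' hcc
    have ha := mem_stabilizer_iff.mp h.2.1
    have hb := mem_stabilizer_iff.mp h.2.2
    have ha' := mem_stabilizer_iff.mp h'.2.1
    have hb' := mem_stabilizer_iff.mp h'.2.2
    have key : (h' : G)⁻¹ * (h : G) = 1 := by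
      apply sharp3_eq_one hsharp hab hac hbc
      · rw [mul_smul, ha, inv_smul_eq_iff, ha']
      · rw [mul_smul, hb, inv_smul_eq_iff, hb']
      · rw [mul_smul, hcc, inv_smul_smul]
    exact Subtype.ext (inv_mul_eq_one.mp key).symm
  have hfixs : Set.ncard {x : α | s • x = x} ≤ 2 := by
    by_contra hcon
    push Not at hcon
    obtain ⟨x, y, z, hx, hy, hz, hxy, hxz, hyz⟩ := (Set.two_lt_ncard_iff).mp hcon
    exact hs1 (sharp3_eq_one hsharp hxy hxz hyz hx hy hz)
  have hfix : Set.ncard {h : ↥(stabilizer G a ⊓ stabilizer G b) | φ h = h} ≤ 2 := by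
    refine le_trans ?_ hfixs
    apply Set.ncard_le_ncard_of_injOn
      (fun h : ↥(stabilizer G a ⊓ stabilizer G b) => (h : G) • c)
    · intro h hh
      have hh' : φ h = h := hh
      have h1 : s * (h : G) * s⁻¹ = (h : G) := by
        rw [← hφ, hh']
      have h2 : s * (h : G) = (h : G) * s := by
        calc s * (h : G) = s * (h : G) * s⁻¹ * s := by group
          _ = (h : G) * s := by rw [h1]
      show s • (h : G) • c = (h : G) • c
      rw [← mul_smul, h2, mul_smul, hsc]
    · intro h _ h' _ hcc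
      exact hinjc h h' hcc
  -- the semilinear structure
  have hsemi : ∃ (F : Type) (_ : Field F) (_ : Fintype F) (eF : W ≃+ F),
      ∀ g : ↥(stabilizer G a ⊓ stabilizer G b), ∃ (a : F) (σ : F ≃+* F),
        ∀ v : W, eF (ρ g v) = a * σ (eF v) := by
    by_cases hsolv : Group.IsSolvable ↥(stabilizer G a ⊓ stabilizer G b)
    · rcases (Cfsg.Agent.S3361.result p' hsolv ρ hρ htrans hreg).1 with h | h
      · exact h
      · exfalso
        rcases h with h | h | h | h
        · exact hnsq 5 (by norm_num) (by rw [h]; norm_num)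
        · exact hnsq 7 (by norm_num) (by rw [h]; norm_num)
        · exact hnsq 11 (by norm_num) (by rw [h]; norm_num)
        · exact hnsq 23 (by norm_num) (by rw [h]; norm_num)
    · exfalso
      have hrangeReg : ∀ v w : W, v ≠ 0 → w ≠ 0 →
          ∃! h : ρ.range, (h : W ≃ₗ[ZMod p'] W) v = w := by
        intro v w hv hw
        obtain ⟨h, hh⟩ := htrans v w hv hw
        refine ⟨⟨ρ h, h, rfl⟩, hh, ?_⟩
        rintro ⟨_, h', rfl⟩ hh'
        apply Subtype.ext
        show ρ h' = ρ h
        have hh'' : ρ h' v = w := hh'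
        have h1 : ρ (h⁻¹ * h') v = v := by
          rw [map_mul]
          show ρ h⁻¹ (ρ h' v) = v
          rw [hh'', ← hh]
          show (ρ h⁻¹ * ρ h) v = v
          rw [← map_mul, inv_mul_cancel, map_one]
          rfl
        have h2 := hreg v hv _ h1
        rw [inv_mul_eq_one.mp h2]
      have hrangeNS : ¬ Group.IsSolvable ρ.range := by
        intro hs
        apply hsolv
        exact Group.isSolvable_of_isSolvable_injective (f := ρ.rangeRestrict) (by
          intro x y hxy
          apply hρ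
          exact congrArg Subtype.val hxy)
      rcases Cfsg.Agent.S0689.result ρ.range hrangeReg hrangeNS with ⟨h, -⟩ | ⟨h, -⟩ | ⟨h, -⟩
      · exact hnsq 11 (by norm_num) (by rw [h]; norm_num)
      · exact hnsq 29 (by norm_num) (by rw [h]; norm_num)
      · exact hnsq 59 (by norm_num) (by rw [h]; norm_num)
  obtain ⟨F, iF, fF, eF, hF⟩ := hsemi
  have hcardF : Nat.card F = p ^ f := by rw [← Nat.card_congr eF.toEquiv, hWpf]
  have hodd : Odd (Nat.card (F ≃+* F)) := by
    rw [card_ringAut_of_card F hp hcardF]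
    exact hfo
  exact comm_of_semilinear_of_invol
    (fun (h : ↥(stabilizer G a ⊓ stabilizer G b)) (x : F) => eF (ρ h (eF.symm x)))
    (fun x => by
      show eF (ρ 1 (eF.symm x)) = x
      rw [map_one]
      exact eF.apply_symm_apply x)
    (fun g g' x => by
      show eF (ρ (g * g') (eF.symm x)) = eF (ρ g (eF.symm (eF (ρ g' (eF.symm x)))))
      rw [eF.symm_apply_apply, map_mul]
      rfl)
    (fun g g' h => by
      apply hρ
      apply LinearEquiv.ext
      intro v
      have h1 := h (eF v)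
      have h2 : eF (ρ g (eF.symm (eF v))) = eF (ρ g' (eF.symm (eF v))) := h1
      rw [eF.symm_apply_apply] at h2
      exact eF.injective h2)
    (fun g => by
      obtain ⟨a', σ', h⟩ := hF g
      refine ⟨a', σ', fun x => ?_⟩
      show eF (ρ g (eF.symm x)) = a' * σ' x
      rw [h, eF.apply_symm_apply])
    hodd φ hφ2 hfix

end Sharp3Comm

end Cfsg.Agent.Helper12
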